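/-
Complement systems under quotients, system normalizers (covering / avoidance), permutable Hall
subgroups, primitive solvable groups.
-/
import Cfsg.Agent.Hall.System
import Cfsg.Agent.Hall.Schmidt

set_option autoImplicit false
set_option linter.style.haveILetI false

namespace CfsgLib.Hall

open scoped Pointwise commutatorElement

section Systems

variable {G : Type*} [Group G] [Finite G] {K : Nat.Primes → Subgroup G}

theorem not_dvd_card_complement (hK : Cfsg.IsComplementSystem K) (p : Nat.Primes) :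
    ¬ (p : ℕ) ∣ Nat.card (K p) := by
  intro hd
  have h := (K p).card_mul_index
  rw [hK p] at h
  have h2 : (p : ℕ) * (p : ℕ) ^ (Nat.card G).factorization p ∣
      Nat.card (K p) * (p : ℕ) ^ (Nat.card G).factorization p := Nat.mul_dvd_mul_right hd _
  rw [← pow_succ', h] at h2
  exact Nat.pow_succ_factorization_not_dvd Nat.card_pos.ne' p.2 h2

theorem isPiHall_inf (hK : Cfsg.IsComplementSystem K) (s : Finset Nat.Primes) :
    Cfsg.IsPiHall {r : ℕ | ∀ p ∈ s, (p : ℕ) ≠ r} (s.inf K) := by
  refine ⟨?_, ?_⟩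
  · intro r hr hd p hp hpr
    subst hpr
    exact not_dvd_card_complement hK p (hd.trans (Subgroup.card_dvd_of_le (Finset.inf_le hp)))
  · intro r hr hrπ hd
    rw [index_biInf hK] at hd
    obtain ⟨p, hp, hdp⟩ := (hr.prime.dvd_finsetProd_iff _).mp hd
    exact hrπ p hp ((Nat.prime_dvd_prime_iff_eq hr p.2).mp (hr.dvd_of_dvd_pow hdp)).symm

theorem isPiHall_complement (hK : Cfsg.IsComplementSystem K) (p : Nat.Primes) :
    Cfsg.IsPiHall {r : ℕ | r ≠ (p : ℕ)} (K p) := by
  refine ⟨fun r hr hd hrp => not_dvd_card_complement hK p (hrp ▸ hd), fun r hr hrπ hd => ?_⟩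
  rw [hK p] at hd
  exact hrπ ((Nat.prime_dvd_prime_iff_eq hr p.2).mp (hr.dvd_of_dvd_pow hd))

theorem inf_mul_inf (hK : Cfsg.IsComplementSystem K) (s t : Finset Nat.Primes) :
    ((s.inf K : Subgroup G) : Set G) * ((t.inf K : Subgroup G) : Set G) =
      (((s ∩ t).inf K : Subgroup G) : Set G) := by
  classical
  set J := (s ∩ t).inf K with hJ
  have hsJ : s.inf K ≤ J := Finset.inf_mono Finset.inter_subset_left
  have htJ : t.inf K ≤ J := Finset.inf_mono Finset.inter_subset_right
  have hco : ((s.inf K).subgroupOf J).index.Coprime ((t.inf K).subgroupOf J).index := by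
    refine Nat.coprime_of_dvd fun r hr h1 h2 => ?_
    have hrJ : r ∣ Nat.card J := h1.trans (Subgroup.index_dvd_card _)
    have hmem : ∀ u : Finset Nat.Primes, u.inf K ≤ J → r ∣ ((u.inf K).subgroupOf J).index →
        (⟨r, hr⟩ : Nat.Primes) ∈ u := by
      intro u hu hd
      by_contra hn
      refine (isPiHall_inf hK u).2 r hr ?_ (hd.trans ⟨_, (Subgroup.relIndex_mul_index hu).symm⟩)
      intro p hp hpr
      exact hn (by rwa [show (⟨r, hr⟩ : Nat.Primes) = p from Subtype.ext hpr.symm])
    exact (isPiHall_inf hK (s ∩ t)).1 r hr hrJ ⟨r, hr⟩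
      (Finset.mem_inter.mpr ⟨hmem s hsJ h1, hmem t htJ h2⟩) rfl
  ext x
  constructor
  · rintro ⟨a, ha, b, hb, rfl⟩
    exact J.mul_mem (hsJ ha) (htJ hb)
  · intro hx
    obtain ⟨a, ha, b, hb, hab⟩ := (inf_index_of_coprime _ _ hco).2 ⟨x, hx⟩
    exact ⟨a, ha, b, hb, (congrArg Subtype.val hab).symm⟩

theorem map_isComplementSystem (hK : Cfsg.IsComplementSystem K) (N : Subgroup G) [N.Normal] :
    Cfsg.IsComplementSystem (fun p => (K p).map (QuotientGroup.mk' N)) := by
  intro p
  set L := (K p).map (QuotientGroup.mk' N)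
  have hnd : ¬ (p : ℕ) ∣ Nat.card L := fun hd =>
    not_dvd_card_complement hK p (hd.trans ((K p).card_map_dvd _))
  have hdvd : L.index ∣ (p : ℕ) ^ (Nat.card G).factorization p :=
    hK p ▸ (K p).index_map_dvd (QuotientGroup.mk'_surjective N)
  obtain ⟨j, -, hj⟩ := (Nat.dvd_prime_pow p.2).mp hdvd
  change L.index = _
  rw [hj, ← L.card_mul_index, hj, Nat.factorization_mul Nat.card_pos.ne' (pow_ne_zero _ p.2.ne_zero),
    Nat.Prime.factorization_pow p.2, Finsupp.add_apply, Finsupp.single_eq_same,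
    Nat.factorization_eq_zero_of_not_dvd hnd, zero_add]

theorem conj_smul_complementSystem (hK : Cfsg.IsComplementSystem K) (g : G) :
    Cfsg.IsComplementSystem (fun p => MulAut.conj g • K p) := by
  intro p
  apply Nat.eq_of_mul_eq_mul_left (Nat.card_pos (α := K p))
  rw [← hK p, (K p).card_mul_index, ← card_conj_smul g (K p)]
  exact (MulAut.conj g • K p).card_mul_index

theorem conj_smul_eq_of_mem_normalizer {H : Subgroup G} {g : G}
    (h : g ∈ Subgroup.normalizer (H : Set G)) : MulAut.conj g • H = H := by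
  apply Subgroup.eq_of_le_of_card_ge
  · rintro _ ⟨x, hx, rfl⟩
    exact (Subgroup.mem_normalizer_iff.mp h x).mp hx
  · rw [card_conj_smul]

theorem mem_normalizer_of_conj_smul_eq {H : Subgroup G} {g : G}
    (h : MulAut.conj g • H = H) : g ∈ Subgroup.normalizer (H : Set G) := by
  rw [Subgroup.mem_normalizer_iff]
  intro x
  constructor
  · intro hx
    have : g * x * g⁻¹ ∈ MulAut.conj g • H := ⟨x, hx, rfl⟩
    rwa [h] at this
  · intro hx
    rw [← h] at hx
    obtain ⟨y, hy, hxy⟩ := hx
    have hxy' : g * y * g⁻¹ = g * x * g⁻¹ := hxy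
    simp only [mul_left_inj, mul_right_inj] at hxy'
    exact hxy' ▸ hy

variable [Group.IsSolvable G]

theorem systems_conj_in_normal (hK : Cfsg.IsComplementSystem K) {L : Nat.Primes → Subgroup G}
    (hL : Cfsg.IsComplementSystem L) (N : Subgroup G) [N.Normal]
    (hsup : ∀ p, K p ⊔ N = L p ⊔ N) : ∃ n ∈ N, ∀ p, MulAut.conj n • K p = L p := by
  classical
  suffices key : ∀ s : Finset Nat.Primes, ∃ n ∈ N, ∀ p ∈ s, MulAut.conj n • K p = L p by
    obtain ⟨n, hn, hp⟩ := key (primeSet G)
    refine ⟨n, hn, fun p => ?_⟩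
    by_cases h : p ∈ primeSet G
    · exact hp p h
    · rw [mem_primeSet] at h
      rw [complementSystem_eq_top hL h]
      exact Subgroup.eq_top_of_card_eq _ (by
        rw [card_conj_smul, complementSystem_eq_top hK h, Subgroup.card_top])
  intro s
  induction s using Finset.induction_on with
  | empty => exact ⟨1, N.one_mem, by simp⟩
  | insert q s hqs ih =>
    obtain ⟨n, hn, hs⟩ := ih
    set M := L q ⊔ N with hM
    have hle : MulAut.conj n • K q ≤ M := by
      rintro _ ⟨x, hx, rfl⟩
      have hxM : x ∈ M := (hsup q).le (Subgroup.mem_sup_left hx)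
      exact M.mul_mem (M.mul_mem (Subgroup.mem_sup_right hn) hxM)
        (M.inv_mem (Subgroup.mem_sup_right hn))
    have hof : ∀ T : Nat.Primes → Subgroup G, Cfsg.IsComplementSystem T → T q ≤ M →
        Cfsg.IsPiHallOf {r : ℕ | r ≠ (q : ℕ)} (T q) M := by
      intro T hT hTM
      refine ⟨hTM, (isPiHall_complement hT q).1, fun r hr hrπ hd => ?_⟩
      exact (isPiHall_complement hT q).2 r hr hrπ
        (hd.trans ⟨_, (Subgroup.relIndex_mul_index hTM).symm⟩)
    obtain ⟨x, hxM, hx⟩ := piHallOf_conj (hof _ (conj_smul_complementSystem hK n) hle)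
      (hof L hL le_sup_left)
    obtain ⟨a, ha, l, hl, hal⟩ := exists_mul_of_mem_sup (A := N) (H := L q)
      Subgroup.le_normalizer_of_normal (show x⁻¹ ∈ N ⊔ L q by
        rw [sup_comm]; exact M.inv_mem hxM)
    have hxe : x = l⁻¹ * a⁻¹ := by rw [← inv_inv x, ← hal, mul_inv_rev]
    rw [hxe, map_mul, mul_smul] at hx
    have hA : ∀ H : Subgroup G, (H ⊓ N).subgroupOf N = H.subgroupOf N := fun H =>
      Subgroup.inf_subgroupOf_right H N
    have hco : ((L q).subgroupOf N).index.Coprime ((s.inf L).subgroupOf N).index := by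
      refine Nat.coprime_of_dvd fun r hr h1 h2 => ?_
      have e1 := IsPiHall.inf_normal (isPiHall_complement hL q) N
      have e2 := IsPiHall.inf_normal (isPiHall_inf hL s) N
      rw [hA] at e1 e2
      have hrq : r = (q : ℕ) := by_contra fun h => e1.2 r hr h h1
      exact e2.2 r hr (fun p hp hpr => hqs (by
        rwa [show q = p from Subtype.ext (hrq.symm.trans hpr.symm)])) h2
    obtain ⟨u, hu, y, hy, huy⟩ := (inf_index_of_coprime _ _ hco).2 ⟨a⁻¹, N.inv_mem ha⟩
    refine ⟨(y : G) * n, N.mul_mem y.2 hn, fun p hp => ?_⟩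
    rw [map_mul, mul_smul]
    rcases Finset.mem_insert.mp hp with rfl | hps
    · have h1 : MulAut.conj a⁻¹ • MulAut.conj n • K p = L p := by
        have := congrArg (fun H => MulAut.conj l • H) hx
        simp only [← mul_smul, ← map_mul, mul_inv_cancel_left, Subgroup.conj_smul_eq_self_of_mem hl]
          at this
        rwa [map_mul, mul_smul] at this
      have h2 := congrArg (fun H => MulAut.conj (u : G)⁻¹ • H) h1
      simp only [← mul_smul, ← map_mul] at h2
      have huy' : a⁻¹ = (u : G) * (y : G) := congrArg Subtype.val huy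
      rw [huy', mul_assoc (u : G), inv_mul_cancel_left, map_mul, mul_smul] at h2
      rw [h2]
      exact Subgroup.conj_smul_eq_self_of_mem ((L p).inv_mem hu)
    · rw [hs p hps]
      exact Subgroup.conj_smul_eq_self_of_mem ((Finset.inf_le hps : s.inf L ≤ L p) hy)

theorem systemNormalizer_map (hK : Cfsg.IsComplementSystem K) (N : Subgroup G) [N.Normal] :
    Cfsg.systemNormalizer (fun p => (K p).map (QuotientGroup.mk' N)) =
      (Cfsg.systemNormalizer K).map (QuotientGroup.mk' N) := by
  set π := QuotientGroup.mk' N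
  apply le_antisymm
  · intro x hx
    obtain ⟨g, rfl⟩ := QuotientGroup.mk'_surjective N x
    rw [Cfsg.systemNormalizer, Subgroup.mem_iInf] at hx
    have hsup : ∀ p, MulAut.conj g • K p ⊔ N = K p ⊔ N := by
      intro p
      have h1 : (MulAut.conj g • K p).map π = (K p).map π := by
        rw [← conj_smul_eq_of_mem_normalizer (hx p)]
        ext z
        constructor
        · rintro ⟨_, ⟨v, hv, rfl⟩, rfl⟩
          exact ⟨π v, ⟨v, hv, rfl⟩, by simp [π, MulAut.conj_apply]⟩
        · rintro ⟨_, ⟨v, hv, rfl⟩, rfl⟩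
          exact ⟨g * v * g⁻¹, ⟨v, hv, rfl⟩, by simp [π, MulAut.conj_apply]⟩
      have h2 := congrArg (Subgroup.comap π) h1
      simpa only [π, Subgroup.comap_map_eq, QuotientGroup.ker_mk'] using h2
    obtain ⟨n, hn, hp⟩ := systems_conj_in_normal (conj_smul_complementSystem hK g) hK N hsup
    refine ⟨n * g, ?_, ?_⟩
    · rw [Cfsg.systemNormalizer, SetLike.mem_coe, Subgroup.mem_iInf]
      intro p
      exact mem_normalizer_of_conj_smul_eq (by rw [map_mul, mul_smul]; exact hp p)
    · rw [map_mul, show π n = 1 from (QuotientGroup.eq_one_iff n).mpr hn, one_mul]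
  · refine le_iInf fun p => ?_
    refine le_trans (Subgroup.map_mono (iInf_le _ p)) ?_
    exact Subgroup.le_normalizer_map (H := K p) π

/-- A normal p-subgroup `B` with `B ≤ ⁅B, S⁆` for a p-group `S` is trivial. -/
theorem eq_bot_of_le_commutator {X : Type*} [Group X] [Finite X] {r : ℕ} [Fact r.Prime]
    {B S : Subgroup X} [B.Normal] (hB : IsPGroup r B) (hS : IsPGroup r S) (h : B ≤ ⁅B, S⁆) :
    B = ⊥ := by
  haveI := (hB.to_sup_of_normal_left hS).isNilpotent
  obtain ⟨n, hn⟩ := (Subgroup.isNilpotent_iff_lowerCentralSeries (B ⊔ S)).mp inferInstance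
  have key : ∀ m, B ≤ (B ⊔ S).lowerCentralSeries m := by
    intro m
    induction m with
    | zero => exact le_sup_left
    | succ m ih => exact h.trans (Subgroup.commutator_mono ih le_sup_right)
  exact le_bot_iff.mp (hn ▸ key n)

theorem center_or_avoid (hK : Cfsg.IsComplementSystem K) {B : Subgroup G} (hB : IsMinNormal B)
    (hnc : ¬ B ≤ Subgroup.center G) : B ⊓ Cfsg.systemNormalizer K = ⊥ := by
  haveI := hB.1
  obtain ⟨r, hr, habel, hrB, -⟩ := hB.elementaryAbelian
  haveI := Fact.mk hr
  set C := Subgroup.centralizer (B : Set G) with hC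
  haveI : C.Normal := Subgroup.normal_centralizer
  have hCt : C ≠ ⊤ := by
    intro ht
    apply hnc
    intro b hb
    rw [Subgroup.mem_center_iff]
    intro g
    have hg : g ∈ C := ht ▸ Subgroup.mem_top g
    exact (hg b hb).symm
  haveI : Nontrivial (G ⧸ C) := by
    rw [← Finite.one_lt_card_iff_nontrivial]
    exact Nat.lt_of_le_of_ne Nat.card_pos (fun e => hCt (Subgroup.index_eq_one.mp e.symm))
  obtain ⟨M', hM'⟩ := exists_isMinNormal (G := G ⧸ C)
  haveI := hM'.1
  obtain ⟨q, hq, -, hqM, -⟩ := hM'.elementaryAbelian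
  haveI := Fact.mk hq
  set π := QuotientGroup.mk' C
  have hπ : Function.Surjective π := QuotientGroup.mk'_surjective C
  set M := M'.comap π with hMdef
  have hCM : C ≤ M := fun x hx => by
    rw [hMdef, Subgroup.mem_comap, show π x = 1 from (QuotientGroup.eq_one_iff x).mpr hx]
    exact one_mem _
  have hMC : ¬ M ≤ C := by
    intro h
    apply hM'.2.1
    rw [← Subgroup.map_comap_eq_self_of_surjective hπ M', ← hMdef, eq_bot_iff,
      Subgroup.map_le_iff_le_comap]
    intro x hx
    rw [Subgroup.mem_comap, Subgroup.mem_bot]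
    exact (QuotientGroup.eq_one_iff x).mpr (h hx)
  by_cases hqr : q = r
  · subst hqr
    exfalso
    have T : Sylow q M := default
    set S := (T : Subgroup M).map M.subtype
    have hCS : M ≤ C ⊔ S := by
      have h1 : (C ⊔ S).relIndex M = 1 := by
        obtain ⟨j, hj⟩ := hqM.exists_card_eq
        have e1 : (C ⊔ S).relIndex M ∣ q ^ j := by
          refine (Subgroup.relIndex_dvd_of_le_left M (le_sup_left : C ≤ C ⊔ S)).trans ?_
          have e := Subgroup.card_mul_index (C.subgroupOf M)
          rw [Nat.card_congr (Subgroup.subgroupOfEquivOfLe hCM).toEquiv, card_comap_mk', hj,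
            mul_comm] at e
          change C.relIndex M ∣ _
          rw [show C.relIndex M = q ^ j from Nat.eq_of_mul_eq_mul_right Nat.card_pos e]
        have e2 : (C ⊔ S).relIndex M ∣ (T : Subgroup M).index := by
          refine (Subgroup.relIndex_dvd_of_le_left M (le_sup_right : S ≤ C ⊔ S)).trans ?_
          rw [Subgroup.relIndex, Subgroup.subgroupOf,
            Subgroup.comap_map_eq_self_of_injective M.subtype_injective]
        exact Nat.eq_one_of_dvd_coprimes
          ((hq.coprime_iff_not_dvd.mpr T.not_dvd_index).pow_left j) e1 e2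
      exact Subgroup.relIndex_eq_one.mp h1
    rcases hB.2.2 ⁅B, M⁆ inferInstance (Subgroup.commutator_le_left B M) with h | h
    · exact hMC (Subgroup.le_centralizer_iff.mp
        (Subgroup.commutator_eq_bot_iff_le_centralizer.mp h))
    · refine hB.2.1 (eq_bot_of_le_commutator hrB (T.2.map M.subtype) ?_)
      conv_lhs => rw [← h]
      rw [Subgroup.commutator_le]
      intro b hb m hm
      obtain ⟨c, hc, s, hs, rfl⟩ := exists_mul_of_mem_sup Subgroup.le_normalizer_of_normal (hCS hm)
      have h1 : b * c = c * b := hc b hb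
      have h2 : ⁅b, s⁆ ∈ B := Subgroup.commutator_le_left B S
        (Subgroup.commutator_mem_commutator hb hs)
      have h3 : ⁅b, c * s⁆ = c * ⁅b, s⁆ * c⁻¹ := by
        simp only [commutatorElement_def, mul_inv_rev]
        calc b * (c * s) * b⁻¹ * (s⁻¹ * c⁻¹) = (b * c) * s * b⁻¹ * s⁻¹ * c⁻¹ := by group
          _ = (c * b) * s * b⁻¹ * s⁻¹ * c⁻¹ := by rw [h1]
          _ = c * (b * s * b⁻¹ * s⁻¹) * c⁻¹ := by group
      rw [h3, ← (hc _ h2 : ⁅b, s⁆ * c = c * ⁅b, s⁆), mul_inv_cancel_right]
      exact Subgroup.commutator_mem_commutator hb hs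
  · -- `M` is covered by the `r`-complement
    let pr : Nat.Primes := ⟨r, hr⟩
    have hMle : M ≤ K pr ⊔ C := by
      have hH := IsPiHall.map_mk' (isPiHall_complement hK pr) C
      have hsup : Cfsg.IsPiSubgroup {s : ℕ | s ≠ (pr : ℕ)} (M' ⊔ (K pr).map π) :=
        isPiSubgroup_sup (isPiSubgroup_of_isPGroup hq hqr hqM) hH.1
      have h1 : M' ≤ (K pr).map π := (IsPiHall.eq_of_le hH le_sup_right hsup) ▸ le_sup_left
      have h2 := Subgroup.comap_mono (f := π) h1
      simpa only [π, Subgroup.comap_map_eq, QuotientGroup.ker_mk'] using h2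
    rw [eq_bot_iff]
    intro x hx
    obtain ⟨hxB, hxD⟩ := hx
    by_contra hx1
    rw [Subgroup.mem_bot] at hx1
    replace hxD : x ∈ Cfsg.systemNormalizer K := hxD
    rw [Cfsg.systemNormalizer, Subgroup.mem_iInf] at hxD
    have hxK : ∀ k ∈ K pr, k * x = x * k := by
      intro k hk
      have hbot : B ⊓ K pr = ⊥ := inf_eq_bot_of_coprime_card
        (Nat.coprime_of_dvd fun s hs h1 h2 => by
          obtain ⟨j, hj⟩ := hrB.exists_card_eq
          rw [hj] at h1
          obtain rfl := (Nat.prime_dvd_prime_iff_eq hs hr).mp (hs.dvd_of_dvd_pow h1)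
          exact not_dvd_card_complement hK pr h2)
      have h1 : k * x * k⁻¹ * x⁻¹ ∈ B ⊓ K pr := by
        refine ⟨B.mul_mem (hB.1.conj_mem x hxB k) (B.inv_mem hxB), ?_⟩
        rw [show k * x * k⁻¹ * x⁻¹ = k * (x * k⁻¹ * x⁻¹) by group]
        exact (K pr).mul_mem hk ((Subgroup.mem_normalizer_iff.mp (hxD pr) _).mp ((K pr).inv_mem hk))
      rw [hbot, Subgroup.mem_bot, mul_inv_eq_one, mul_inv_eq_iff_eq_mul] at h1
      exact h1
    have hxM : x ∈ Subgroup.centralizer (M : Set G) := by
      have : K pr ⊔ C ≤ Subgroup.centralizer ({x} : Set G) := by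
        refine sup_le (fun k hk => ?_) (fun c hc => ?_)
        · rw [Subgroup.mem_centralizer_singleton_iff]; exact hxK k hk
        · rw [Subgroup.mem_centralizer_singleton_iff]; exact (hc x hxB).symm
      intro m hm
      exact Subgroup.mem_centralizer_singleton_iff.mp (this (hMle hm))
    haveI : (Subgroup.centralizer (M : Set G)).Normal := Subgroup.normal_centralizer
    rcases hB.2.2 (B ⊓ Subgroup.centralizer (M : Set G)) inferInstance inf_le_left with h | h
    · exact hx1 (Subgroup.mem_bot.mp (h ▸ ⟨hxB, hxM⟩))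
    · exact hMC (Subgroup.le_centralizer_iff.mp (inf_eq_left.mp h))

theorem covering_avoidance (hK : Cfsg.IsComplementSystem K) (A B : Subgroup G) [A.Normal]
    [B.Normal] (hAB : A < B)
    (hchief : ∀ N : Subgroup G, N.Normal → A ≤ N → N ≤ B → N = A ∨ N = B) :
    (⁅B, (⊤ : Subgroup G)⁆ ≤ A → B ≤ A ⊔ Cfsg.systemNormalizer K) ∧
      (¬ ⁅B, (⊤ : Subgroup G)⁆ ≤ A → B ⊓ Cfsg.systemNormalizer K ≤ A) := by
  set π := QuotientGroup.mk' A
  have hπ : Function.Surjective π := QuotientGroup.mk'_surjective A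
  have hmin : IsMinNormal (B.map π) := by
    refine ⟨Subgroup.Normal.map inferInstance _ hπ, ?_, ?_⟩
    · intro h
      apply hAB.not_ge
      intro b hb
      have : π b ∈ B.map π := Subgroup.mem_map_of_mem π hb
      rw [h, Subgroup.mem_bot] at this
      exact (QuotientGroup.eq_one_iff b).mp this
    · intro L hL hLB
      have h1 : L.comap π ≤ B := by
        have := Subgroup.comap_mono (f := π) hLB
        simpa only [π, Subgroup.comap_map_eq, QuotientGroup.ker_mk', sup_eq_left.mpr hAB.le] using this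
      have h2 : A ≤ L.comap π := fun a ha => by
        rw [Subgroup.mem_comap, show π a = 1 from (QuotientGroup.eq_one_iff a).mpr ha]
        exact one_mem _
      rcases hchief _ inferInstance h2 h1 with h | h
      · left; rw [← Subgroup.map_comap_eq_self_of_surjective hπ L, h, QuotientGroup.map_mk'_self]
      · right; rw [← Subgroup.map_comap_eq_self_of_surjective hπ L, h]
  have hK' := map_isComplementSystem hK A
  have hD := systemNormalizer_map hK A
  have hcen : ⁅B, (⊤ : Subgroup G)⁆ ≤ A ↔ B.map π ≤ Subgroup.center (G ⧸ A) := by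
    constructor
    · intro h y hy
      obtain ⟨b, hb, rfl⟩ := hy
      rw [Subgroup.mem_center_iff]
      intro g
      obtain ⟨g, rfl⟩ := hπ g
      have hm := h (Subgroup.commutator_mem_commutator hb (Subgroup.mem_top g))
      have h1 : π ⁅b, g⁆ = 1 := (QuotientGroup.eq_one_iff _).mpr hm
      rw [map_commutatorElement, commutatorElement_eq_one_iff_mul_comm] at h1
      exact h1.symm
    · intro h
      rw [Subgroup.commutator_le]
      intro b hb g _
      have h1 := Subgroup.mem_center_iff.mp (h (Subgroup.mem_map_of_mem π hb)) (π g)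
      rw [← QuotientGroup.eq_one_iff]
      change π ⁅b, g⁆ = 1
      rw [map_commutatorElement, commutatorElement_eq_one_iff_mul_comm]
      exact h1.symm
  refine ⟨fun hc => ?_, fun hc => ?_⟩
  · have h1 : B.map π ≤ Cfsg.systemNormalizer (fun p => (K p).map π) :=
      le_iInf fun p => ((hcen.mp hc).trans (Subgroup.center_le_centralizer _)).trans
        (Subgroup.centralizer_le_normalizer _)
    rw [hD] at h1
    intro b hb
    obtain ⟨d, hd, hdb⟩ := h1 (Subgroup.mem_map_of_mem π hb)
    have h2 : d⁻¹ * b ∈ A := QuotientGroup.eq.mp hdb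
    have : b = d * (d⁻¹ * b) := by simp
    rw [this, sup_comm]
    exact Subgroup.mul_mem_sup hd h2
  · have h1 := center_or_avoid hK' hmin (fun h => hc (hcen.mpr h))
    rw [hD] at h1
    intro x hx
    have : π x ∈ B.map π ⊓ (Cfsg.systemNormalizer K).map π :=
      ⟨Subgroup.mem_map_of_mem π hx.1, Subgroup.mem_map_of_mem π hx.2⟩
    rw [h1, Subgroup.mem_bot] at this
    exact (QuotientGroup.eq_one_iff x).mp this

theorem normalClosure_systemNormalizer (hK : Cfsg.IsComplementSystem K) :
    Subgroup.normalClosure ((Cfsg.systemNormalizer K : Subgroup G) : Set G) = ⊤ := by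
  set R := Subgroup.normalClosure ((Cfsg.systemNormalizer K : Subgroup G) : Set G)
  by_contra hne
  haveI : Nontrivial (G ⧸ R) := by
    rw [← Finite.one_lt_card_iff_nontrivial]
    exact Nat.lt_of_le_of_ne Nat.card_pos (fun e => hne (Subgroup.index_eq_one.mp e.symm))
  obtain ⟨M', hM'n, hM'p⟩ := exists_normal_prime_index (G := G ⧸ R)
  haveI := hM'n
  set M := M'.comap (QuotientGroup.mk' R) with hMdef
  have hidx : M.index.Prime := by
    rw [hMdef, Subgroup.index_comap_of_surjective _ (QuotientGroup.mk'_surjective R)]; exact hM'p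
  have hMt : M ≠ ⊤ := fun h => hidx.ne_one (Subgroup.index_eq_one.mpr h)
  have hRM : R ≤ M := fun x hx => by
    rw [hMdef, Subgroup.mem_comap,
      show QuotientGroup.mk' R x = 1 from (QuotientGroup.eq_one_iff x).mpr hx]
    exact one_mem _
  have hcov := (covering_avoidance hK M ⊤ (lt_top_iff_ne_top.mpr hMt) (fun N hN hMN _ => by
    have hd : N.index ∣ M.index := Subgroup.index_dvd_of_le hMN
    rcases (Nat.dvd_prime hidx).mp hd with h | h
    · exact Or.inr (Subgroup.index_eq_one.mp h)
    · refine Or.inl (Subgroup.eq_of_le_of_card_ge hMN ?_).symm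
      have h1 := M.card_mul_index
      rw [← N.card_mul_index, h] at h1
      exact (Nat.eq_of_mul_eq_mul_right (Nat.pos_of_ne_zero Subgroup.index_ne_zero_of_finite) h1).ge)).1
  refine hMt (top_le_iff.mp ((hcov ?_).trans (sup_le le_rfl (le_trans Subgroup.le_normalClosure hRM))))
  haveI : Fact M.index.Prime := ⟨hidx⟩
  haveI : IsCyclic (G ⧸ M) := isCyclic_of_prime_card (p := M.index) rfl
  rw [Subgroup.commutator_le]
  intro a _ b _
  rw [← QuotientGroup.eq_one_iff]
  change QuotientGroup.mk' M ⁅a, b⁆ = 1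
  rw [map_commutatorElement, commutatorElement_eq_one_iff_mul_comm]
  letI := IsCyclic.commGroup (α := G ⧸ M)
  exact mul_comm _ _

theorem image_conj_mul (g : G) (A B : Subgroup G) :
    ((MulAut.conj g • A : Subgroup G) : Set G) * ((MulAut.conj g • B : Subgroup G) : Set G) =
      (MulAut.conj g) '' ((A : Set G) * (B : Set G)) := by
  rw [Set.image_mul]; rfl

theorem permutable_normal_hall (H M A B : Subgroup G)
    (hHM : ∀ g : G, ∃ h ∈ H, ∃ k ∈ M, g = h * k) (hA : A ≤ H) (hAn : (A.subgroupOf H).Normal)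
    (hB : B ≤ M) (hBn : (B.subgroupOf M).Normal) (hAh : (Nat.card A).Coprime A.index)
    (hBh : (Nat.card B).Coprime B.index) (x y : G) :
    ∃ S : Subgroup G,
      (S : Set G) = ((MulAut.conj x • A : Subgroup G) : Set G) * ((MulAut.conj y • B : Subgroup G) : Set G) := by
  classical
  obtain ⟨K, hK⟩ := exists_complementSystem (G := G)
  have hfind : ∀ X : Subgroup G, (Nat.card X).Coprime X.index →
      ∃ (s : Finset Nat.Primes) (a : G), MulAut.conj a • s.inf K = X := by
    intro X hX
    refine ⟨(primeSet G).filter (fun p : Nat.Primes => ¬ (p : ℕ) ∣ Nat.card X), ?_⟩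
    refine pi_conj (isPiHall_inf hK _) ⟨?_, ?_⟩
    · intro r hr hd p hp hpr
      subst hpr
      exact (Finset.mem_filter.mp hp).2 hd
    · intro r hr hrπ hd
      by_cases h : r ∣ Nat.card X
      · exact hr.ne_one (Nat.eq_one_of_dvd_coprimes hX h hd)
      · exact hrπ ⟨r, hr⟩ (Finset.mem_filter.mpr
          ⟨(mem_primeSet _).mpr (hd.trans X.index_dvd_card), h⟩) rfl
  obtain ⟨s, a, ha⟩ := hfind A hAh
  obtain ⟨t, b, hb⟩ := hfind B hBh
  have hnA : ∀ h ∈ H, MulAut.conj h • A = A := fun h hh =>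
    conj_smul_eq_of_mem_normalizer ((Subgroup.normal_subgroupOf_iff_le_normalizer hA).mp hAn hh)
  have hnB : ∀ k ∈ M, MulAut.conj k • B = B := fun k hk =>
    conj_smul_eq_of_mem_normalizer ((Subgroup.normal_subgroupOf_iff_le_normalizer hB).mp hBn hk)
  have hred : ∀ z : G, ∃ h : G, ((A : Subgroup G) : Set G) * ((MulAut.conj z • B : Subgroup G) : Set G) =
      (MulAut.conj h) '' ((A : Set G) * (B : Set G)) := by
    intro z
    obtain ⟨h, hh, k, hk, rfl⟩ := hHM z
    refine ⟨h, ?_⟩
    rw [map_mul, mul_smul, hnB k hk, ← image_conj_mul, hnA h hh]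
  obtain ⟨J, hJ⟩ : ∃ J : Subgroup G, (J : Set G) = (A : Set G) * (B : Set G) := by
    obtain ⟨h, hh⟩ := hred (a * b⁻¹)
    have e : MulAut.conj (a * b⁻¹) • B = MulAut.conj a • t.inf K := by
      rw [← hb, ← mul_smul, ← map_mul, inv_mul_cancel_right]
    rw [e] at hh
    have e2 : (A : Set G) * ((MulAut.conj a • t.inf K : Subgroup G) : Set G) =
        (MulAut.conj a) '' (((s ∩ t).inf K : Subgroup G) : Set G) := by
      rw [← inf_mul_inf hK s t, ← image_conj_mul, ha]
    refine ⟨MulAut.conj h⁻¹ • MulAut.conj a • (s ∩ t).inf K, ?_⟩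
    change (MulAut.conj h⁻¹) '' ((MulAut.conj a) '' (((s ∩ t).inf K : Subgroup G) : Set G)) = _
    rw [← e2, hh, Set.image_image]
    simp [MulAut.conj_apply, mul_assoc]
  obtain ⟨h, hh⟩ := hred (x⁻¹ * y)
  refine ⟨MulAut.conj x • MulAut.conj h • J, ?_⟩
  change (MulAut.conj x) '' ((MulAut.conj h) '' (J : Set G)) = _
  rw [hJ, ← hh, ← image_conj_mul, ← mul_smul, ← map_mul, mul_inv_cancel_left]

theorem primitive_maximal_conj (U V : Subgroup G) (hU : IsCoatom U) (hV : IsCoatom V)
    (hUc : U.normalCore = ⊥) (hVc : V.normalCore = ⊥) : ∃ g : G, MulAut.conj g • U = V := by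
  haveI : Nontrivial G := by
    rcases subsingleton_or_nontrivial G with h | h
    · exact absurd (Subsingleton.elim U ⊤) hU.1
    · exact h
  obtain ⟨N, hN⟩ := exists_isMinNormal (G := G)
  haveI := hN.1
  obtain ⟨r, hr, habel, hrN, -⟩ := hN.elementaryAbelian
  haveI := Fact.mk hr
  haveI := habel
  have hself : N ≤ Subgroup.centralizer (N : Set G) := N.le_centralizer
  have hcompl : ∀ W : Subgroup G, IsCoatom W → W.normalCore = ⊥ → N ⊔ W = ⊤ ∧ N ⊓ W = ⊥ := by
    intro W hW hWc
    have hnle : ¬ N ≤ W := fun h => hN.2.1 (le_bot_iff.mp (hWc ▸ Subgroup.normal_le_normalCore.mpr h))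
    have htop : N ⊔ W = ⊤ := by
      refine hW.2 _ (lt_of_le_not_ge le_sup_right fun h => hnle (le_sup_left.trans h))
    refine ⟨htop, ?_⟩
    have hn : (N ⊓ W).Normal := by
      rw [← Subgroup.normalizer_eq_top_iff, eq_top_iff, ← htop]
      refine sup_le (fun n hn => ?_) (fun w hw => ?_)
      · refine Subgroup.centralizer_le_normalizer _ ?_
        intro z hz
        exact hself hn z hz.1
      · refine mem_normalizer_of_conj_smul_eq ?_
        apply Subgroup.eq_of_le_of_card_ge
        · rintro _ ⟨z, hz, rfl⟩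
          exact ⟨hN.1.conj_mem z hz.1 w, W.mul_mem (W.mul_mem hw hz.2) (W.inv_mem hw)⟩
        · rw [card_conj_smul]
    exact le_bot_iff.mp (hWc ▸ Subgroup.normal_le_normalCore.mpr (inf_le_right : N ⊓ W ≤ W))
  obtain ⟨hUt, hUb⟩ := hcompl U hU hUc
  obtain ⟨hVt, hVb⟩ := hcompl V hV hVc
  set C := Subgroup.centralizer (N : Set G) with hC
  haveI : C.Normal := Subgroup.normal_centralizer
  have hCN : C ≤ N := by
    have hn : (C ⊓ U).Normal := by
      rw [← Subgroup.normalizer_eq_top_iff, eq_top_iff, ← hUt]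
      refine sup_le (fun n hn => ?_) (fun w hw => ?_)
      · refine Subgroup.centralizer_le_normalizer _ ?_
        intro z hz
        exact (hz.1 n hn).symm
      · refine mem_normalizer_of_conj_smul_eq ?_
        apply Subgroup.eq_of_le_of_card_ge
        · rintro _ ⟨z, hz, rfl⟩
          exact ⟨(inferInstance : C.Normal).conj_mem z hz.1 w,
            U.mul_mem (U.mul_mem hw hz.2) (U.inv_mem hw)⟩
        · rw [card_conj_smul]
    have hb : C ⊓ U = ⊥ :=
      le_bot_iff.mp (hUc ▸ Subgroup.normal_le_normalCore.mpr (inf_le_right : C ⊓ U ≤ U))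
    intro c hc
    obtain ⟨n, hn, u, hu, rfl⟩ := exists_mul_of_mem_sup Subgroup.le_normalizer_of_normal
      (show c ∈ N ⊔ U by rw [hUt]; trivial)
    have : u ∈ C ⊓ U := ⟨by simpa using C.mul_mem (C.inv_mem (hself hn)) hc, hu⟩
    rw [hb, Subgroup.mem_bot] at this
    rw [this, mul_one]; exact hn
  by_cases hNt : N = ⊤
  · rw [hNt, top_inf_eq] at hUb hVb
    exact ⟨1, by rw [map_one, one_smul, hUb, hVb]⟩
  haveI : Nontrivial (G ⧸ N) := by
    rw [← Finite.one_lt_card_iff_nontrivial]
    exact Nat.lt_of_le_of_ne Nat.card_pos (fun e => hNt (Subgroup.index_eq_one.mp e.symm))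
  obtain ⟨M', hM'⟩ := exists_isMinNormal (G := G ⧸ N)
  haveI := hM'.1
  obtain ⟨q, hq, -, hqM, -⟩ := hM'.elementaryAbelian
  haveI := Fact.mk hq
  set π := QuotientGroup.mk' N
  have hπ : Function.Surjective π := QuotientGroup.mk'_surjective N
  set M := M'.comap π with hMdef
  have hNM : N ≤ M := fun x hx => by
    rw [hMdef, Subgroup.mem_comap, show π x = 1 from (QuotientGroup.eq_one_iff x).mpr hx]
    exact one_mem _
  have hMN : ¬ M ≤ N := by
    intro h
    apply hM'.2.1
    rw [← Subgroup.map_comap_eq_self_of_surjective hπ M', ← hMdef, eq_bot_iff,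
      Subgroup.map_le_iff_le_comap]
    intro x hx
    rw [Subgroup.mem_comap, Subgroup.mem_bot]
    exact (QuotientGroup.eq_one_iff x).mpr (h hx)
  have hqr : q ≠ r := by
    intro h
    subst h
    have hMp : IsPGroup q M := hqM.comap_of_ker_isPGroup π (by rw [QuotientGroup.ker_mk']; exact hrN)
    rcases hN.2.2 ⁅N, M⁆ inferInstance (Subgroup.commutator_le_left N M) with h | h
    · exact hMN ((Subgroup.le_centralizer_iff.mp
        (Subgroup.commutator_eq_bot_iff_le_centralizer.mp h)).trans hCN)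
    · exact hN.2.1 (eq_bot_of_le_commutator hrN hMp h.ge)
  have hpart : ∀ W : Subgroup G, N ⊔ W = ⊤ → N ⊓ W = ⊥ →
      N ⊔ (W ⊓ M) = M ∧ (Nat.card N).Coprime (Nat.card (W ⊓ M : Subgroup G)) := by
    intro W h1 h2
    have hsup : N ⊔ (W ⊓ M) = M := by
      refine le_antisymm (sup_le hNM inf_le_right) fun m hm => ?_
      obtain ⟨n, hn, w, hw, rfl⟩ := exists_mul_of_mem_sup Subgroup.le_normalizer_of_normal
        (show m ∈ N ⊔ W by rw [h1]; trivial)
      exact Subgroup.mul_mem_sup hn ⟨hw, by simpa using M.mul_mem (M.inv_mem (hNM hn)) hm⟩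
    refine ⟨hsup, ?_⟩
    have hcs := card_sup_mul_card_inf N (W ⊓ M)
    rw [hsup, show N ⊓ (W ⊓ M) = ⊥ from le_bot_iff.mp (h2 ▸ inf_le_inf_left N inf_le_left),
      Subgroup.card_bot, mul_one, hMdef, card_comap_mk', mul_comm] at hcs
    rw [← Nat.eq_of_mul_eq_mul_left Nat.card_pos hcs]
    exact IsPGroup.coprime_card_of_ne _ _ (Ne.symm hqr) _ _ hrN hqM
  obtain ⟨hA1, hA2⟩ := hpart U hUt hUb
  obtain ⟨hB1, hB2⟩ := hpart V hVt hVb
  obtain ⟨n, hn, hnAB⟩ := exists_conj_eq_of_sup_eq N (U ⊓ M) (V ⊓ M)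
    Subgroup.le_normalizer_of_normal Subgroup.le_normalizer_of_normal hA2 hB2 (hA1.trans hB1.symm)
  have hUn : ∀ W : Subgroup G, IsCoatom W → W.normalCore = ⊥ → N ⊔ (W ⊓ M) = M →
      Subgroup.normalizer ((W ⊓ M : Subgroup G) : Set G) = W := by
    intro W hW hWc hsup
    have hle : W ≤ Subgroup.normalizer ((W ⊓ M : Subgroup G) : Set G) := by
      intro w hw
      refine mem_normalizer_of_conj_smul_eq ?_
      apply Subgroup.eq_of_le_of_card_ge
      · rintro _ ⟨z, hz, rfl⟩
        exact ⟨W.mul_mem (W.mul_mem hw hz.1) (W.inv_mem hw),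
          (inferInstance : M.Normal).conj_mem z hz.2 w⟩
      · rw [card_conj_smul]
    refine ((hW.le_iff).mp hle).resolve_left fun htop => hMN ?_
    haveI := Subgroup.normalizer_eq_top_iff.mp htop
    have h0 : W ⊓ M = ⊥ :=
      le_bot_iff.mp (hWc ▸ Subgroup.normal_le_normalCore.mpr (inf_le_left : W ⊓ M ≤ W))
    rw [h0, sup_bot_eq] at hsup
    exact hsup.ge
  refine ⟨n, ?_⟩
  have hle : MulAut.conj n • U ≤ V := by
    rw [← hUn V hV hVc hB1, ← hnAB]
    rintro _ ⟨u, hu, rfl⟩
    refine mem_normalizer_of_conj_smul_eq ?_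
    have huN : MulAut.conj u • (U ⊓ M) = U ⊓ M :=
      conj_smul_eq_of_mem_normalizer ((hUn U hU hUc hA1).ge hu)
    change MulAut.conj (n * u * n⁻¹) • MulAut.conj n • (U ⊓ M) = _
    rw [← mul_smul, ← map_mul, inv_mul_cancel_right, map_mul, mul_smul, huN]
  exact ((((MulAut.conj n).mapSubgroup.isCoatom_iff U).mpr hU).le_iff.mp hle).resolve_left hV.1 |>.symm

end Systems

end CfsgLib.Hall
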