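/-
Coprime action on a solvable group: invariant Hall π-subgroups.
-/
import Cfsg.Agent.Hall.Pi
import Cfsg.Agent.Hall.SystemMore
import Cfsg.Agent.CoprimeAction.Invariant

set_option autoImplicit false
set_option linter.style.haveILetI false

namespace CfsgLib.Hall

open scoped Pointwise

universe u

theorem exists_invariant_normal_pgroup {X : Type*} [Group X] [Finite X] (A K : Subgroup X)
    (hAK : A ≤ Subgroup.normalizer (K : Set X)) [Group.IsSolvable K] (hK : K ≠ ⊥) :
    ∃ (N : Subgroup X) (p : ℕ), p.Prime ∧ N ≠ ⊥ ∧ N ≤ K ∧ IsPGroup p N ∧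
      A ⊔ K ≤ Subgroup.normalizer (N : Set X) := by
  obtain ⟨M, ⟨hMne, hMK, hMn⟩, hmin⟩ := (Set.toFinite {M : Subgroup X | M ≠ ⊥ ∧ M ≤ K ∧
    A ⊔ K ≤ Subgroup.normalizer (M : Set X)}).exists_minimal
      ⟨K, hK, le_rfl, sup_le hAK Subgroup.le_normalizer⟩
  have hinv : ∀ g ∈ A ⊔ K, ∀ x ∈ M, g * x * g⁻¹ ∈ M := fun g hg x hx =>
    (Subgroup.mem_normalizer_iff.mp (hMn hg) x).mp hx
  have hcomm : ⁅M, M⁆ = ⊥ := by
    by_contra hne
    have hle : ⁅M, M⁆ ≤ M := Subgroup.commutator_le_self M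
    have hn : A ⊔ K ≤ Subgroup.normalizer ((⁅M, M⁆ : Subgroup X) : Set X) := fun g hg => by
      refine mem_normalizer_of_conj_smul_eq ?_
      change (⁅M, M⁆ : Subgroup X).map (MulAut.conj g).toMonoidHom = _
      rw [Subgroup.map_commutator]
      have hM : M.map (MulAut.conj g).toMonoidHom = M := conj_smul_eq_of_mem_normalizer (hMn hg)
      rw [hM]
    have he : ⁅M, M⁆ = M := le_antisymm hle (hmin ⟨hne, hle.trans hMK, hn⟩ hle)
    haveI : Group.IsSolvable M :=
      Group.isSolvable_of_isSolvable_injective (Subgroup.inclusion_injective hMK)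
    haveI : Nontrivial M := (Subgroup.nontrivial_iff_ne_bot M).mpr hMne
    refine (Group.IsSolvable.commutator_lt_of_ne_bot (G := M) (H := ⊤) bot_ne_top.symm).ne ?_
    apply Subgroup.map_injective (Subgroup.subtype_injective M)
    rw [Subgroup.map_commutator, ← MonoidHom.range_eq_map, Subgroup.range_subtype, he]
  have habel : ∀ x ∈ M, ∀ y ∈ M, x * y = y * x := fun x hx y hy =>
    commutatorElement_eq_one_iff_mul_comm.mp
      (Subgroup.mem_bot.mp (hcomm ▸ Subgroup.commutator_mem_commutator hx hy))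
  obtain ⟨p, hp, hpd⟩ := Nat.exists_prime_and_dvd
    (show Nat.card M ≠ 1 from fun h1 => hMne (Subgroup.card_eq_one.mp h1))
  haveI := Fact.mk hp
  let S : Subgroup X :=
    { carrier := {x | x ∈ M ∧ x ^ p = 1}
      one_mem' := ⟨M.one_mem, one_pow p⟩
      mul_mem' := fun {x y} hx hy => ⟨M.mul_mem hx.1 hy.1, by
        rw [(show Commute x y from habel x hx.1 y hy.1).mul_pow, hx.2, hy.2, one_mul]⟩
      inv_mem' := fun {x} hx => ⟨M.inv_mem hx.1, by rw [inv_pow, hx.2, inv_one]⟩ }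
  refine ⟨S, p, hp, fun hb => ?_, fun x hx => hMK hx.1,
    fun x => ⟨1, by rw [pow_one]; exact Subtype.ext x.2.2⟩, fun g hg => ?_⟩
  · obtain ⟨x, hx⟩ := exists_prime_orderOf_dvd_card' p hpd
    have h1 : (x : X) ∈ S := ⟨x.2, by
      rw [← Subgroup.coe_pow, ← hx, pow_orderOf_eq_one, Subgroup.coe_one]⟩
    rw [hb, Subgroup.mem_bot, OneMemClass.coe_eq_one] at h1
    rw [h1, orderOf_one] at hx
    exact hp.ne_one hx.symm
  · exact Subgroup.mem_normalizer_fintype (fun x hx => ⟨hinv g hg x hx.1, by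
      rw [conj_pow, hx.2, mul_one, mul_inv_cancel]⟩)

theorem isPiHallOf_smul {X : Type*} [Group X] [Finite X] {π : Set ℕ} {H K : Subgroup X}
    (hH : Cfsg.IsPiHallOf π H K) {g : X} (hg : g ∈ Subgroup.normalizer (K : Set X)) :
    Cfsg.IsPiHallOf π (MulAut.conj g • H) K := by
  have he := conj_smul_eq_of_mem_normalizer hg
  have hle : MulAut.conj g • H ≤ K :=
    he ▸ Subgroup.pointwise_smul_le_pointwise_smul_iff.mpr hH.1
  refine ⟨hle, fun p hp hd => hH.2.1 p hp (by rwa [card_conj_smul] at hd), fun p hp hπ => ?_⟩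
  have h1 := Subgroup.relIndex_mul_relIndex ⊥ (MulAut.conj g • H) K bot_le hle
  have h2 := Subgroup.relIndex_mul_relIndex ⊥ H K bot_le hH.1
  rw [Subgroup.relIndex_bot_left, Subgroup.relIndex_bot_left] at h1 h2
  rw [card_conj_smul, ← h2] at h1
  rw [Nat.eq_of_mul_eq_mul_left Nat.card_pos h1]
  exact hH.2.2 p hp hπ

theorem invariant_hall_conj {X : Type*} [Group X] [Finite X] {A K : Subgroup X}
    (hAK : A ≤ Subgroup.normalizer (K : Set X)) (hcop : (Nat.card A).Coprime (Nat.card K))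
    [Group.IsSolvable K] {π : Set ℕ} {H₁ H₂ : Subgroup X} (h₁ : Cfsg.IsPiHallOf π H₁ K)
    (hA₁ : A ≤ Subgroup.normalizer (H₁ : Set X)) (h₂ : Cfsg.IsPiHallOf π H₂ K)
    (hA₂ : A ≤ Subgroup.normalizer (H₂ : Set X)) :
    ∃ c ∈ K ⊓ Subgroup.centralizer (A : Set X), MulAut.conj c • H₁ = H₂ := by
  let : MulAction X (Subgroup X) := MulAction.compHom _ (MulAut.conj : X →* MulAut X)
  exact CfsgLib.CoprimeAction.fixed_transitive hAK hcop (Or.inr inferInstance)
    {H | Cfsg.IsPiHallOf π H K} (fun a ha H hH => isPiHallOf_smul hH (hAK ha))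
    (fun H hH H' hH' => piHallOf_conj hH hH') h₁ h₂
    (fun a ha => conj_smul_eq_of_mem_normalizer (hA₁ ha))
    (fun a ha => conj_smul_eq_of_mem_normalizer (hA₂ ha))

theorem exists_invariant_hall_ge_aux : ∀ (k : ℕ) {X : Type u} [Group X] [Finite X]
    (A K U : Subgroup X) [Group.IsSolvable K] (π : Set ℕ), Nat.card K = k →
    A ≤ Subgroup.normalizer (K : Set X) → (Nat.card A).Coprime (Nat.card K) → U ≤ K →
    A ≤ Subgroup.normalizer (U : Set X) → Cfsg.IsPiSubgroup π U →
    ∃ H : Subgroup X, Cfsg.IsPiHallOf π H K ∧ A ≤ Subgroup.normalizer (H : Set X) ∧ U ≤ H := by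
  intro k
  induction k using Nat.strong_induction_on with
  | _ k IH =>
  intro X _ _ A K U _ π hk hAK hcop hUK hAU hU
  subst hk
  rcases eq_or_ne K ⊥ with hK | hK
  · exact ⟨K, ⟨le_rfl, fun p hp hd => by
      rw [hK, Subgroup.card_bot] at hd; exact absurd (Nat.dvd_one.mp hd) hp.ne_one,
      fun p hp _ hd => by rw [Subgroup.relIndex_self] at hd; exact hp.ne_one (Nat.dvd_one.mp hd)⟩,
      hAK, hUK⟩
  obtain ⟨N, p, hp, hNne, hNK, hNp, hNn⟩ := exists_invariant_normal_pgroup A K hAK hK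
  haveI := Fact.mk hp
  set L := Subgroup.normalizer (N : Set X)
  have hAL : A ≤ L := le_sup_left.trans hNn
  have hKL : K ≤ L := le_sup_right.trans hNn
  set N' := N.subgroupOf L
  haveI : N'.Normal := Subgroup.normal_in_normalizer
  set f := QuotientGroup.mk' N'
  have hfs : Function.Surjective f := QuotientGroup.mk'_surjective N'
  set K' := (K.subgroupOf L).map f with hK'
  set A' := (A.subgroupOf L).map f with hA'
  set U' := (U.subgroupOf L).map f with hU'
  have hKc : K'.comap f = K.subgroupOf L := by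
    rw [hK', Subgroup.comap_map_eq, QuotientGroup.ker_mk', sup_eq_left]
    exact fun x hx => hNK hx
  have hcardK : Nat.card K = Nat.card N * Nat.card K' := by
    have h := card_comap_mk' N' K'
    rw [hKc, Nat.card_congr (Subgroup.subgroupOfEquivOfLe hKL).toEquiv,
      Nat.card_congr (Subgroup.subgroupOfEquivOfLe (Subgroup.le_normalizer : N ≤ L)).toEquiv] at h
    rw [h, mul_comm]
  have hlt : Nat.card K' < Nat.card K := by
    rw [hcardK]; exact lt_mul_of_one_lt_left Nat.card_pos (N.one_lt_card_iff_ne_bot.mpr hNne)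
  haveI : Group.IsSolvable K' := by
    haveI : Group.IsSolvable (K.subgroupOf L) :=
      Group.isSolvable_of_isSolvable_injective (f := (Subgroup.subgroupOfEquivOfLe hKL).toMonoidHom)
        (Subgroup.subgroupOfEquivOfLe hKL).injective
    exact Group.isSolvable_of_surjective (f.subgroupMap_surjective (K.subgroupOf L))
  have hnorm : ∀ B : Subgroup X, A ≤ Subgroup.normalizer (B : Set X) → B ≤ L →
      A' ≤ Subgroup.normalizer (((B.subgroupOf L).map f : Subgroup (L ⧸ N')) : Set (L ⧸ N')) := by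
    intro B hB hBL
    refine le_trans (Subgroup.map_mono ?_) (Subgroup.le_normalizer_map f)
    rw [← Subgroup.subgroupOf_normalizer_eq hBL]
    exact fun x hx => hB hx
  have hA'c : Nat.card A' ∣ Nat.card A := by
    rw [← Nat.card_congr (Subgroup.subgroupOfEquivOfLe hAL).toEquiv]
    exact Subgroup.card_dvd_of_surjective _ (f.subgroupMap_surjective _)
  obtain ⟨Hb, hHb, hAHb, hUHb⟩ := IH _ hlt A' K' U' π rfl (hnorm K hAK hKL)
    ((hcop.coprime_dvd_left hA'c).coprime_dvd_right (Dvd.intro_left _ hcardK.symm))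
    (Subgroup.map_mono fun x hx => hUK hx) (hnorm U hAU (hUK.trans hKL))
    (isPiSubgroup_map f fun q hq hd => hU q hq
      (by rwa [Nat.card_congr (Subgroup.subgroupOfEquivOfLe (hUK.trans hKL)).toEquiv] at hd))
  set R := (Hb.comap f).map L.subtype with hR
  have hRK : R ≤ K := by
    intro x hx
    obtain ⟨y, hy, rfl⟩ := hx
    have hy' : y ∈ K'.comap f := Subgroup.comap_mono hHb.1 hy
    rw [hKc] at hy'
    exact hy'
  have hNR : N ≤ R := fun x hx => ⟨⟨x, Subgroup.le_normalizer hx⟩, by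
    rw [SetLike.mem_coe, Subgroup.mem_comap,
      show f (⟨x, Subgroup.le_normalizer hx⟩ : L) = 1 from (QuotientGroup.eq_one_iff _).mpr hx]
    exact Hb.one_mem, rfl⟩
  have hUR : U ≤ R := fun x hx => ⟨⟨x, hKL (hUK hx)⟩, hUHb ⟨_, hx, rfl⟩, rfl⟩
  have hAR : A ≤ Subgroup.normalizer (R : Set X) := by
    intro a ha
    refine Subgroup.mem_normalizer_fintype fun x hx => ?_
    obtain ⟨y, hy, rfl⟩ := hx
    refine ⟨⟨a, hAL ha⟩ * y * ⟨a, hAL ha⟩⁻¹, ?_, rfl⟩
    rw [SetLike.mem_coe, Subgroup.mem_comap, map_mul, map_mul, map_inv]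
    exact (Subgroup.mem_normalizer_iff.mp (hAHb ⟨⟨a, hAL ha⟩, ha, rfl⟩) _).mp hy
  have hrel : R.relIndex K = Hb.relIndex K' := by
    rw [hR, hK', ← Subgroup.relIndex_comap, ← Subgroup.relIndex_map_map_of_injective (Hb.comap f)
      (K.subgroupOf L) L.subtype_injective, Subgroup.map_subgroupOf_eq_of_le hKL]
  have hRc : Nat.card R = Nat.card N * Nat.card Hb := by
    rw [hR, Subgroup.card_map_of_injective L.subtype_injective, card_comap_mk',
      Nat.card_congr (Subgroup.subgroupOfEquivOfLe (Subgroup.le_normalizer : N ≤ L)).toEquiv, mul_comm]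
  obtain ⟨i, hi⟩ := hNp.exists_card_eq
  by_cases hpπ : p ∈ π
  · refine ⟨R, ⟨hRK, fun q hq hd => ?_, fun q hq hπ => hrel ▸ hHb.2.2 q hq hπ⟩, hAR, hUR⟩
    rw [hRc, hi] at hd
    rcases hq.dvd_mul.mp hd with h | h
    · rwa [(Nat.prime_dvd_prime_iff_eq hq hp).mp (hq.dvd_of_dvd_pow h)]
    · exact hHb.2.1 q hq h
  rcases lt_or_eq_of_le hRK with hlt' | heq
  · haveI : Group.IsSolvable R :=
      Group.isSolvable_of_isSolvable_injective (Subgroup.inclusion_injective hRK)
    obtain ⟨H, hH, hAH, hUH⟩ := IH _ (Set.Finite.card_lt_card (Set.toFinite _) hlt') A R U π rfl hAR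
      (hcop.coprime_dvd_right (Subgroup.card_dvd_of_le hRK)) hUR hAU hU
    refine ⟨H, ⟨hH.1.trans hRK, hH.2.1, fun q hq hπ hd => ?_⟩, hAH, hUH⟩
    rw [← Subgroup.relIndex_mul_relIndex H R K hH.1 hRK, hrel] at hd
    rcases hq.dvd_mul.mp hd with h | h
    · exact hH.2.2 q hq hπ h
    · exact hHb.2.2 q hq hπ h
  · -- `K / N` is a π-group: Hall subgroups are complements of `N`
    set C := N ⊓ Subgroup.centralizer (U : Set X) with hC
    have hAC : A ≤ Subgroup.normalizer (C : Set X) := by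
      intro a ha
      refine Subgroup.mem_normalizer_fintype fun x hx => ⟨?_, ?_⟩
      · exact (Subgroup.mem_normalizer_iff.mp (hNn (Subgroup.mem_sup_left ha)) x).mp hx.1
      · refine Subgroup.mem_centralizer_iff.mpr fun u hu => ?_
        have hu' : a⁻¹ * u * a ∈ U := by
          simpa using (Subgroup.mem_normalizer_iff.mp (hAU (A.inv_mem ha)) u).mp hu
        have hc := Subgroup.mem_centralizer_iff.mp hx.2 _ hu'
        calc u * (a * x * a⁻¹) = a * ((a⁻¹ * u * a) * x) * a⁻¹ := by group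
          _ = a * (x * (a⁻¹ * u * a)) * a⁻¹ := by rw [hc]
          _ = a * x * a⁻¹ * u := by group
    have hcK : (Nat.card A).Coprime (Nat.card C) :=
      hcop.coprime_dvd_right (Subgroup.card_dvd_of_le (inf_le_left.trans hNK))
    haveI : Group.IsSolvable C :=
      Group.isSolvable_of_isSolvable_injective (Subgroup.inclusion_injective (inf_le_left.trans hNK : C ≤ K))
    have hdis : ∀ H : Subgroup X, Cfsg.IsPiHallOf π H K → N ⊓ H = ⊥ := fun H hH =>
      inf_eq_bot_of_coprime_card (by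
        rw [hi]
        exact Nat.Coprime.pow_left _ ((hp.coprime_iff_not_dvd).mpr fun h => hpπ (hH.2.1 p hp h)))
    have hsup : ∀ H : Subgroup X, Cfsg.IsPiHallOf π H K → N ⊔ H = K := by
      intro H hH
      refine le_antisymm (sup_le hNK hH.1) ?_
      have hHL : H ≤ L := hH.1.trans hKL
      have h := card_sup_mul_card_inf N' (H.subgroupOf L)
      rw [← Subgroup.subgroupOf_sup Subgroup.le_normalizer hHL,
        Nat.card_congr (Subgroup.subgroupOfEquivOfLe (sup_le Subgroup.le_normalizer hHL)).toEquiv,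
        show N' ⊓ H.subgroupOf L = (N ⊓ H).subgroupOf L from rfl, hdis H hH, Subgroup.bot_subgroupOf,
        Subgroup.card_bot, mul_one,
        Nat.card_congr (Subgroup.subgroupOfEquivOfLe (Subgroup.le_normalizer : N ≤ L)).toEquiv,
        Nat.card_congr (Subgroup.subgroupOfEquivOfLe hHL).toEquiv] at h
      refine le_of_eq (Subgroup.eq_of_le_of_card_ge (sup_le hNK hH.1) ?_).symm
      rw [h, hcardK]
      refine Nat.mul_le_mul_left _ (Nat.le_of_dvd Nat.card_pos ?_)
      have hHb' : Nat.card K' = Nat.card Hb :=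
        Nat.eq_of_mul_eq_mul_left Nat.card_pos (hcardK.symm.trans (by rw [← heq]; exact hRc))
      have hl := Subgroup.relIndex_mul_relIndex ⊥ H K bot_le hH.1
      rw [Subgroup.relIndex_bot_left, Subgroup.relIndex_bot_left] at hl
      refine (Nat.coprime_of_dvd fun q hq h1 h2 => hH.2.2 q hq (hHb.2.1 q hq (hHb' ▸ h1)) h2
        ).dvd_of_dvd_mul_right (hl ▸ Dvd.intro_left _ hcardK.symm)
    let : MulAction X (Subgroup X) := MulAction.compHom _ (MulAut.conj : X →* MulAut X)
    have hfixU : ∀ g ∈ Subgroup.normalizer (U : Set X), g ∈ Subgroup.normalizer (K : Set X) →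
        ∀ H ∈ {H | Cfsg.IsPiHallOf π H K ∧ U ≤ H},
          MulAut.conj g • H ∈ {H | Cfsg.IsPiHallOf π H K ∧ U ≤ H} :=
      fun g hgU hgK H hH => ⟨isPiHallOf_smul hH.1 hgK, conj_smul_eq_of_mem_normalizer hgU ▸
        Subgroup.pointwise_smul_le_pointwise_smul_iff.mpr hH.2⟩
    obtain ⟨H₀, hH₀⟩ := exists_isPiHallOf K π
    obtain ⟨g, hg, hgU⟩ := piHallOf_dominance hH₀ hUK hU
    obtain ⟨H, ⟨hH, hUH⟩, hfix⟩ := CfsgLib.CoprimeAction.exists_fixed hAC hcK (Or.inr inferInstance)
      {H | Cfsg.IsPiHallOf π H K ∧ U ≤ H}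
      ⟨_, isPiHallOf_smul hH₀ (Subgroup.le_normalizer hg), hgU⟩
      (fun c hc => hfixU c (Subgroup.centralizer_le_normalizer _ hc.2) (Subgroup.le_normalizer (hNK hc.1)))
      (fun a ha => hfixU a (hAU ha) (hAK ha))
      (by
        rintro H ⟨hH, hUH⟩ H' ⟨hH', hUH'⟩
        obtain ⟨g, hg, rfl⟩ := piHallOf_conj hH hH'
        obtain ⟨n, hn, h, hh, rfl⟩ := exists_mul_of_mem_sup (A := N) (H := H)
          (hH.1.trans hKL) (show g ∈ N ⊔ H by rw [hsup H hH]; exact hg)
        have he : MulAut.conj (n * h) • H = MulAut.conj n • H := by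
          rw [map_mul, mul_smul, conj_smul_eq_of_mem_normalizer (Subgroup.le_normalizer hh)]
        refine ⟨n, ⟨hn, Subgroup.mem_centralizer_iff.mpr fun u hu => ?_⟩, he.symm⟩
        have h1 : n * u * n⁻¹ ∈ MulAut.conj (n * h) • H := he ▸ ⟨u, hUH hu, rfl⟩
        have h2 : n * u * n⁻¹ * u⁻¹ ∈ N ⊓ MulAut.conj (n * h) • H := by
          refine ⟨?_, Subgroup.mul_mem _ h1 (Subgroup.inv_mem _ (hUH' hu))⟩
          rw [mul_assoc n, mul_assoc n]
          exact N.mul_mem hn ((Subgroup.mem_normalizer_iff.mp (hKL (hUK hu)) _).mp (N.inv_mem hn))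
        rw [hdis _ hH', Subgroup.mem_bot, mul_inv_eq_one, mul_inv_eq_iff_eq_mul] at h2
        exact h2.symm)
    exact ⟨H, hH, fun a ha => mem_normalizer_of_conj_smul_eq (hfix a ha), hUH⟩

/-- Coprime action on a solvable group and Hall subgroups. -/
theorem coprime_invariant_hall {X : Type*} [Group X] [Finite X] (A G : Subgroup X)
    (hAG : A ≤ Subgroup.normalizer (G : Set X)) (hcop : (Nat.card A).Coprime (Nat.card G))
    (hsolv : Group.IsSolvable G) (π : Set ℕ) :
    (∃ H : Subgroup X, Cfsg.IsPiHallOf π H G ∧ A ≤ Subgroup.normalizer (H : Set X)) ∧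
      (∀ H₁ H₂ : Subgroup X, Cfsg.IsPiHallOf π H₁ G → A ≤ Subgroup.normalizer (H₁ : Set X) →
        Cfsg.IsPiHallOf π H₂ G → A ≤ Subgroup.normalizer (H₂ : Set X) →
        ∃ c ∈ G ⊓ Subgroup.centralizer (A : Set X), H₂ = H₁.map (MulAut.conj c).toMonoidHom) ∧
      (∀ U : Subgroup X, U ≤ G → A ≤ Subgroup.normalizer (U : Set X) →
        (∀ p : ℕ, p.Prime → p ∣ Nat.card U → p ∈ π) →
        ∃ H : Subgroup X, Cfsg.IsPiHallOf π H G ∧ A ≤ Subgroup.normalizer (H : Set X) ∧ U ≤ H) := by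
  haveI := hsolv
  refine ⟨?_, fun H₁ H₂ h₁ a₁ h₂ a₂ => ?_, fun U hU hAU hπ =>
    exists_invariant_hall_ge_aux _ A G U π rfl hAG hcop hU hAU hπ⟩
  · obtain ⟨H, hH, hAH, -⟩ := exists_invariant_hall_ge_aux _ A G ⊥ π rfl hAG hcop bot_le
      (fun a _ => by rw [Subgroup.normalizer_eq_top_iff.mpr inferInstance]; trivial)
      (fun p hp hd => by rw [Subgroup.card_bot] at hd; exact absurd (Nat.dvd_one.mp hd) hp.ne_one)
    exact ⟨H, hH, hAH⟩
  · obtain ⟨c, hc, he⟩ := invariant_hall_conj hAG hcop h₁ a₁ h₂ a₂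
    exact ⟨c, hc, he.symm⟩

end CfsgLib.Hall
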