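/-
Fourth batch: minimal non-abelian and minimal non-nilpotent groups, primitive groups, a normalizer lemma.
-/
import Cfsg.Agent.Hall.StructBatch
import Cfsg.Agent.Hall.Schmidt
import Cfsg.Agent.SolvStruct.FrattiniAux
import Cfsg.Agent.PCore.Basic

set_option autoImplicit false
set_option linter.style.haveILetI false

namespace CfsgLib.Hall.Struct

open scoped Pointwise commutatorElement

variable {G : Type*} [Group G]

theorem primitive_two_minimal [Finite G] (U : Subgroup G) (hU : IsCoatom U) (hcore : U.normalCore = ⊥)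
    (A B : Subgroup G) [A.Normal] [B.Normal] (hA : A ≠ ⊥) (hB : B ≠ ⊥)
    (hAmin : ∀ K : Subgroup G, K.Normal → K ≤ A → K = ⊥ ∨ K = A)
    (hBmin : ∀ K : Subgroup G, K.Normal → K ≤ B → K = ⊥ ∨ K = B) (hAB : A ≠ B) :
    Subgroup.centralizer (B : Set G) = A ∧ Subgroup.centralizer (A : Set G) = B ∧
      Subgroup.IsComplement' A U ∧ Subgroup.IsComplement' B U ∧ ¬ IsMulCommutative A ∧
      Nonempty (A ≃* B) ∧ Nonempty (A ≃* ↥((A ⊔ B) ⊓ U)) := by
  have hinf : A ⊓ B = ⊥ := (hAmin _ inferInstance inf_le_left).resolve_right fun h => by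
    rcases hBmin A inferInstance (h ▸ inf_le_right) with h' | h'
    · exact hA h'
    · exact hAB h'
  have hcA : ∀ a ∈ A, ∀ b ∈ B, a * b = b * a := fun a ha b hb =>
    Subgroup.commute_of_normal_of_disjoint A B inferInstance inferInstance (disjoint_iff.mpr hinf) a b ha hb
  have hCent : ∀ (X Y : Subgroup G) [X.Normal] [Y.Normal], X ≠ ⊥ → Y ≠ ⊥ →
      (∀ a ∈ X, ∀ b ∈ Y, a * b = b * a) → Subgroup.centralizer (Y : Set G) = X := by
    intro X Y _ _ hX hY hc
    have hle : X ≤ Subgroup.centralizer (Y : Set G) := fun a ha =>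
      Subgroup.mem_centralizer_iff.mpr fun b hb => (hc a ha b hb).symm
    rcases (centralizer_inf_core_free U hU hcore Y hY).2 with h | ⟨-, h⟩
    · exact absurd (eq_bot_iff.mpr (h ▸ hle)) hX
    · exact ((h X inferInstance hle).resolve_left hX).symm
  have hCA := hCent B A hB hA (fun b hb a ha => (hcA a ha b hb).symm)
  have hCB := hCent A B hA hB hcA
  have hcompl : ∀ (X Y : Subgroup G) [X.Normal] [Y.Normal], X ≠ ⊥ → Y ≠ ⊥ →
      Subgroup.centralizer (Y : Set G) = X → Subgroup.IsComplement' X U := by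
    intro X Y _ _ hX hY hXY
    have hbot : X ⊓ U = ⊥ := hXY ▸ (centralizer_inf_core_free U hU hcore Y hY).1
    refine Subgroup.isComplement'_of_disjoint_and_mul_eq_univ (disjoint_iff.mpr hbot) ?_
    have htop : X ⊔ U = ⊤ := hU.2 _ (lt_of_le_of_ne le_sup_right fun h => hX (by
      rw [eq_bot_iff, ← hcore]
      exact Subgroup.normal_le_normalCore.mpr (h ▸ le_sup_left)))
    rw [← Subgroup.normal_mul, htop, Subgroup.coe_top]
  have hAU := hcompl A B hA hB hCB
  have hBU := hcompl B A hB hA hCA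
  have hna : ¬ IsMulCommutative A := by
    intro hab
    have hle : A ≤ Subgroup.centralizer (A : Set G) := fun a ha =>
      Subgroup.mem_centralizer_iff.mpr fun b hb => congrArg Subtype.val (hab.is_comm.comm (⟨b, hb⟩ : A) ⟨a, ha⟩)
    rw [hCA] at hle
    exact hA (by rwa [inf_eq_left.mpr hle] at hinf)
  -- the diagonal
  set D := (A ⊔ B) ⊓ U
  have key : ∀ (X Y : Subgroup G) [X.Normal] [Y.Normal], X ⊔ Y = A ⊔ B → X ⊓ Y = ⊥ → Y ⊓ U = ⊥ →
      Subgroup.IsComplement' Y U →
      (∀ a ∈ X, ∀ b ∈ Y, a * b = b * a) → Nonempty (↥((A ⊔ B) ⊓ U) ≃* X) := by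
    intro X Y _ _ hsup hXY hYU hYc hc
    have hex : ∀ d : ↥((A ⊔ B) ⊓ U), ∃ a : X, (a : G)⁻¹ * d ∈ Y := fun d => by
      obtain ⟨a, ha, b, hb, h⟩ := exists_mul_of_mem_sup (A := X) (H := Y)
        (fun g _ => by rw [Subgroup.normalizer_eq_top_iff.mpr ‹X.Normal›]; trivial)
        (show (d : G) ∈ X ⊔ Y by rw [hsup]; exact d.2.1)
      exact ⟨⟨a, ha⟩, by rw [← h]; simpa using hb⟩
    choose φ hφ using hex
    have huniq : ∀ (d : ↥((A ⊔ B) ⊓ U)) (a : X), (a : G)⁻¹ * d ∈ Y → φ d = a := by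
      intro d a ha
      have h : (a : G)⁻¹ * φ d ∈ X ⊓ Y := by
        refine ⟨X.mul_mem (X.inv_mem a.2) (φ d).2, ?_⟩
        have := Y.mul_mem ha (Y.inv_mem (hφ d))
        simpa [mul_assoc] using this
      rw [hXY, Subgroup.mem_bot, inv_mul_eq_one] at h
      exact Subtype.ext h.symm
    refine ⟨MulEquiv.ofBijective (MonoidHom.mk' φ fun d e => huniq _ _ ?_) ⟨fun d e h => ?_, fun a => ?_⟩⟩
    · have h := Y.mul_mem (hφ d) (hφ e)
      change ((φ d : G) * (φ e : G))⁻¹ * ((d : G) * e) ∈ Y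
      have hc' : (φ e : G)⁻¹ * ((φ d : G)⁻¹ * d) = ((φ d : G)⁻¹ * d) * (φ e : G)⁻¹ :=
        hc _ (X.inv_mem (φ e).2) _ (hφ d)
      rw [show ((φ d : G) * (φ e : G))⁻¹ * ((d : G) * e) = ((φ e : G)⁻¹ * ((φ d : G)⁻¹ * d)) * e by group, hc']
      simpa [mul_assoc] using h
    · have h1 : (d : G)⁻¹ * e ∈ Y ⊓ U := by
        refine ⟨?_, U.mul_mem (U.inv_mem d.2.2) e.2.2⟩
        have h2 := Y.mul_mem (Y.inv_mem (hφ d)) (hφ e)
        rw [show φ d = φ e from h] at h2
        simpa [mul_assoc] using h2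
      rw [hYU, Subgroup.mem_bot, inv_mul_eq_one] at h1
      exact Subtype.ext h1
    · obtain ⟨⟨y, u⟩, hyu⟩ := hYc.2 (a : G)
      simp only at hyu
      have hu : (u : G) = (y : G)⁻¹ * a := by rw [← hyu]; group
      have hmem : (u : G) ∈ A ⊔ B := by
        rw [hu, ← hsup]
        exact Subgroup.mul_mem _ (Subgroup.mem_sup_right (Y.inv_mem y.2)) (Subgroup.mem_sup_left a.2)
      refine ⟨⟨u, hmem, u.2⟩, huniq _ _ ?_⟩
      change (a : G)⁻¹ * u ∈ Y
      rw [hu, ← mul_assoc, hc _ (X.inv_mem a.2) _ (Y.inv_mem y.2), mul_assoc, inv_mul_cancel, mul_one]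
      exact Y.inv_mem y.2
  obtain ⟨eA⟩ := key A B rfl hinf hBU.disjoint.eq_bot hBU hcA
  obtain ⟨eB⟩ := key B A (sup_comm B A) (by rw [inf_comm, hinf]) hAU.disjoint.eq_bot hAU
    (fun b hb a ha => (hcA a ha b hb).symm)
  exact ⟨hCB, hCA, hAU, hBU, hna, ⟨eA.symm.trans eB⟩, ⟨eA.symm⟩⟩

theorem pcore_primitive [Finite G] (p : ℕ) [Fact p.Prime] (hL : Cfsg.pCore p G ≠ ⊥) (M : Subgroup G)
    (hM : IsCoatom M) (hcore : M.normalCore = ⊥) :
    Cfsg.IsElementaryAbelian p (Cfsg.pCore p G) ∧ Subgroup.IsComplement' (Cfsg.pCore p G) M ∧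
      (∀ K : Subgroup G, K.Normal → K ≤ Cfsg.pCore p G → K = ⊥ ∨ K = Cfsg.pCore p G) ∧
      Subgroup.centralizer ((Cfsg.pCore p G : Subgroup G) : Set G) = Cfsg.pCore p G ∧
      ∀ (q : ℕ) [Fact q.Prime], Cfsg.pCore q ↥M ≠ ⊥ → Nat.card (Cfsg.pCore p G) % q = 1 % q ∧ q ≠ p := by
  set L := Cfsg.pCore p G with hLdef
  have hLp : IsPGroup p L := CfsgLib.PCore.isPGroup_pCore p G
  haveI hLn : L.Normal := by
    haveI := CfsgLib.PCore.pCore_characteristic p G
    exact inferInstanceAs (Cfsg.pCore p G).Normal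
  obtain ⟨N, hN, hNL⟩ := exists_isMinNormal_le L hL
  haveI := hN.1
  haveI : Group.IsSolvable N := by
    haveI := (hLp.to_le hNL).isNilpotent
    infer_instance
  obtain ⟨q₀, hq₀, hab, hNq, hexp⟩ := hN.elementaryAbelian
  have hNC : N ≤ Subgroup.centralizer (N : Set G) := fun a ha =>
    Subgroup.mem_centralizer_iff.mpr fun b hb => congrArg Subtype.val (hab.is_comm.comm (⟨b, hb⟩ : N) ⟨a, ha⟩)
  have hC := centralizer_inf_core_free M hM hcore N hN.2.1
  have hCeq : Subgroup.centralizer (N : Set G) = N := by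
    rcases hC.2 with h | ⟨-, h⟩
    · exact absurd (eq_bot_iff.mpr (h ▸ hNC)) hN.2.1
    · exact ((h N inferInstance hNC).resolve_left hN.2.1).symm
  have hLN : L = N := by
    refine le_antisymm ?_ hNL
    haveI := hLp.isNilpotent
    haveI : (N.subgroupOf L).Normal := inferInstance
    haveI : Nontrivial (N.subgroupOf L) := by
      rw [Subgroup.nontrivial_iff_ne_bot, Ne, Subgroup.subgroupOf_eq_bot]
      exact fun h => hN.2.1 (disjoint_self.mp (h.mono_right hNL))
    have hne := inf_center_ne_bot (N.subgroupOf L) ((Subgroup.nontrivial_iff_ne_bot _).mp inferInstance)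
    set Z := (Subgroup.center L).map L.subtype
    haveI : Z.Normal := inferInstance
    have hNZ : N ≤ Z := ((hN.2.2 (N ⊓ Z) inferInstance inf_le_left).resolve_left fun hb => hne (by
      rw [eq_bot_iff]
      intro x hx
      have hxx : (x : G) ∈ N ⊓ Z := ⟨hx.1, x, hx.2, rfl⟩
      rw [hb, Subgroup.mem_bot, OneMemClass.coe_eq_one] at hxx
      exact hxx)) ▸ inf_le_right
    intro l hl
    rw [← hCeq, Subgroup.mem_centralizer_iff]
    intro n hn
    obtain ⟨z, hz, rfl⟩ := hNZ hn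
    exact (congrArg Subtype.val (Subgroup.mem_center_iff.mp hz ⟨l, hl⟩)).symm
  have hcompl : Subgroup.IsComplement' L M := by
    have hbot : L ⊓ M = ⊥ := by rw [hLN, ← hCeq]; exact hC.1
    refine Subgroup.isComplement'_of_disjoint_and_mul_eq_univ (disjoint_iff.mpr hbot) ?_
    have htop : L ⊔ M = ⊤ := hM.2 _ (lt_of_le_of_ne le_sup_right fun h => hL (by
      rw [eq_bot_iff, ← hcore]
      exact Subgroup.normal_le_normalCore.mpr (h ▸ le_sup_left)))
    rw [← Subgroup.normal_mul, htop, Subgroup.coe_top]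
  have hq0 : q₀ = p := by
    obtain ⟨a, ha, ha1⟩ := N.bot_or_exists_ne_one.resolve_left hN.2.1
    haveI := Fact.mk hq₀
    obtain ⟨i, hi⟩ := IsPGroup.iff_orderOf.mp (hLp.to_le hNL) ⟨a, ha⟩
    rw [Subgroup.orderOf_mk, orderOf_eq_prime (hexp a ha) ha1] at hi
    exact (Nat.prime_dvd_prime_iff_eq hq₀ (Fact.out : p.Prime)).mp (hq₀.dvd_of_dvd_pow hi.dvd)
  refine ⟨?_, hcompl, ?_, ?_, ?_⟩
  · rw [hLN]; exact ⟨hab, fun a ha => hq0 ▸ hexp a ha⟩
  · rw [hLN]; exact hN.2.2
  · rw [hLN]; exact hCeq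
  intro q _ hQ
  haveI : (Cfsg.pCore q M).Normal := by
    haveI := CfsgLib.PCore.pCore_characteristic q M
    infer_instance
  set Q := (Cfsg.pCore q M).map M.subtype with hQdef
  have hQp : IsPGroup q Q := (CfsgLib.PCore.isPGroup_pCore q M).map _
  have hQM : Q ≤ M := Subgroup.map_subtype_le _
  have hMQ : M ≤ Subgroup.normalizer (Q : Set G) := by
    rw [← Subgroup.normal_subgroupOf_iff_le_normalizer hQM, hQdef, Subgroup.subgroupOf,
      Subgroup.comap_map_eq_self_of_injective M.subtype_injective]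
    infer_instance
  have hQne : Q ≠ ⊥ := by
    rwa [Ne, hQdef, Subgroup.map_eq_bot_iff_of_injective _ M.subtype_injective]
  have hLab : ∀ a ∈ L, ∀ b ∈ L, a * b = b * a := by
    rw [hLN]
    exact fun a ha b hb => congrArg Subtype.val (hab.is_comm.comm (⟨a, ha⟩ : N) ⟨b, hb⟩)
  have htop : L ⊔ M = ⊤ := hcompl.sup_eq_top
  have hqp : q ≠ p := by
    rintro rfl
    have hn : (L ⊔ Q).Normal := by
      rw [← Subgroup.normalizer_eq_top_iff, eq_top_iff, ← htop]
      refine sup_le (le_sup_left.trans Subgroup.le_normalizer) fun m hm => ?_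
      refine Subgroup.mem_normalizer_fintype fun x hx => ?_
      obtain ⟨a, ha, b, hb, rfl⟩ := exists_mul_of_mem_sup (A := L) (H := Q)
        (fun g _ => by rw [Subgroup.normalizer_eq_top_iff.mpr hLn]; trivial) hx
      rw [show m * (a * b) * m⁻¹ = (m * a * m⁻¹) * (m * b * m⁻¹) by group]
      exact Subgroup.mul_mem_sup (hLn.conj_mem a ha m) ((Subgroup.mem_normalizer_iff.mp (hMQ hm) b).mp hb)
    have hp' : IsPGroup q (L ⊔ Q : Subgroup G) :=
      hLp.to_sup_of_normal_left' hQp (fun g _ => by rw [Subgroup.normalizer_eq_top_iff.mpr hLn]; trivial)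
    have hle : L ⊔ Q ≤ L := CfsgLib.PCore.le_pCore hn hp'
    apply hQne
    rw [eq_bot_iff, ← hcompl.disjoint.eq_bot]
    exact le_inf (le_sup_right.trans hle) hQM
  refine ⟨?_, hqp⟩
  -- fixed points of Q on L
  let : MulAction Q L :=
    { smul := fun x l => ⟨(x : G) * l * (x : G)⁻¹, hLn.conj_mem _ l.2 _⟩
      one_smul := fun l => Subtype.ext (by show ((1 : Q) : G) * l * ((1 : Q) : G)⁻¹ = l; simp)
      mul_smul := fun x y l => Subtype.ext (by
        show ((x * y : Q) : G) * l * ((x * y : Q) : G)⁻¹ = (x : G) * ((y : G) * l * (y : G)⁻¹) * (x : G)⁻¹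
        simp [mul_assoc]) }
  have hfix := hQp.card_modEq_card_fixedPoints L
  have hW : ∀ l : L, l ∈ MulAction.fixedPoints Q L → l = 1 := by
    intro l hl
    set W := L ⊓ Subgroup.centralizer (Q : Set G) with hWdef
    have hWn : W.Normal := by
      rw [← Subgroup.normalizer_eq_top_iff, eq_top_iff, ← htop]
      refine sup_le (fun a ha => ?_) fun m hm => ?_
      · refine Subgroup.centralizer_le_normalizer _ (Subgroup.mem_centralizer_iff.mpr fun b hb => ?_)
        exact hLab b hb.1 a ha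
      · refine Subgroup.mem_normalizer_fintype fun x hx => ⟨hLn.conj_mem x hx.1 m, ?_⟩
        refine Subgroup.mem_centralizer_iff.mpr fun b hb => ?_
        have hb' := (Subgroup.mem_normalizer_iff.mp (hMQ (M.inv_mem hm)) b).mp hb
        rw [inv_inv] at hb'
        have hc := Subgroup.mem_centralizer_iff.mp hx.2 _ hb'
        calc b * (m * x * m⁻¹) = m * ((m⁻¹ * b * m) * x) * m⁻¹ := by group
          _ = m * (x * (m⁻¹ * b * m)) * m⁻¹ := by rw [hc]
          _ = m * x * m⁻¹ * b := by group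
    have hWN : W ≤ N := inf_le_left.trans hLN.le
    rcases hN.2.2 W hWn hWN with h | h
    · have hl' : (l : G) ∈ W := ⟨l.2, Subgroup.mem_centralizer_iff.mpr fun b hb => by
        have := congrArg Subtype.val (hl ⟨b, hb⟩)
        exact mul_inv_eq_iff_eq_mul.mp this⟩
      rw [h, Subgroup.mem_bot] at hl'
      exact Subtype.ext hl'
    · exfalso
      apply hQne
      rw [eq_bot_iff]
      intro b hb
      have hbC : b ∈ Subgroup.centralizer (N : Set G) := Subgroup.mem_centralizer_iff.mpr fun n hn => by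
        rw [← h] at hn
        exact (Subgroup.mem_centralizer_iff.mp hn.2 b hb).symm
      rw [← hC.1]
      exact ⟨hbC, hQM hb⟩
  have h1 : Nat.card (MulAction.fixedPoints Q L) = 1 := by
    rw [Nat.card_eq_one_iff_unique]
    exact ⟨⟨fun a b => Subtype.ext ((hW a a.2).trans (hW b b.2).symm)⟩,
      ⟨⟨1, fun x => Subtype.ext (by show (x : G) * ((1 : L) : G) * (x : G)⁻¹ = ((1 : L) : G); simp)⟩⟩⟩
  rw [h1] at hfix
  exact hfix

theorem normalizer_of_conjugates [Finite G] (p : ℕ) [Fact p.Prime] (Z Y : Subgroup G)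
    (h : ∀ g : G, IsPGroup p ↥(⨆ y ∈ Y, MulAut.conj (y * g) • Z)) :
    ∃ P : Sylow p G, Y ≤ Subgroup.normalizer
      ((⨆ g ∈ {g : G | MulAut.conj g • Z ≤ (P : Subgroup G)}, MulAut.conj g • Z : Subgroup G) : Set G) := by
  classical
  let J : G → Subgroup G := fun g => ⨆ y ∈ Y, MulAut.conj (y * g) • Z
  have hY : ∀ {X : Subgroup G}, (∀ y ∈ Y, MulAut.conj y • X ≤ X) → Y ≤ Subgroup.normalizer (X : Set G) :=
    fun {X} hX y hy => Subgroup.mem_normalizer_fintype fun x hx => hX y hy ⟨x, hx, rfl⟩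
  have hJ : ∀ g, Y ≤ Subgroup.normalizer (J g : Set G) := fun g => hY fun y hy => by
    rw [Subgroup.pointwise_smul_subset_iff]
    refine iSup₂_le fun y' hy' => ?_
    rw [← Subgroup.pointwise_smul_subset_iff, smul_smul, ← map_mul, ← mul_assoc]
    exact le_iSup₂ (f := fun y (_ : y ∈ Y) => MulAut.conj (y * g) • Z) _ (Y.mul_mem hy hy')
  let gen : Subgroup G → Prop := fun X => ∃ S : Set G, X = ⨆ g ∈ S, MulAut.conj g • Z
  obtain ⟨X, ⟨hXp, hXY, S, hXS⟩, hmax⟩ := (Set.toFinite {X : Subgroup G | IsPGroup p X ∧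
      Y ≤ Subgroup.normalizer (X : Set G) ∧ gen X}).exists_maximal
    ⟨⊥, IsPGroup.of_bot, fun y _ => by rw [Subgroup.normalizer_eq_top_iff.mpr inferInstance]; trivial, ∅, by simp⟩
  obtain ⟨P, hXP⟩ := hXp.exists_le_sylow
  refine ⟨P, ?_⟩
  set W : Subgroup G := ⨆ g ∈ {g : G | MulAut.conj g • Z ≤ (P : Subgroup G)}, MulAut.conj g • Z with hW
  have hXW : X ≤ W := by
    rw [hXS]
    refine iSup₂_le fun g hg => le_iSup₂_of_le g ?_ le_rfl
    exact le_trans (le_trans (le_iSup₂ (f := fun g _ => MulAut.conj g • Z) g hg) hXS.ge) hXP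
  have hWP : W ≤ P := iSup₂_le fun g hg => hg
  -- every conjugate of Z inside N(X) ∩ P lies in X
  have hkey : ∀ g : G, MulAut.conj g • Z ≤ (P : Subgroup G) → MulAut.conj g • Z ≤ Subgroup.normalizer (X : Set G) →
      MulAut.conj g • Z ≤ X := by
    intro g _ hgN
    have hJN : J g ≤ Subgroup.normalizer (X : Set G) := iSup₂_le fun y hy => by
      rintro _ ⟨z, hz, rfl⟩
      have h1 : g * z * g⁻¹ ∈ Subgroup.normalizer (X : Set G) := hgN ⟨z, hz, rfl⟩
      change y * g * z * (y * g)⁻¹ ∈ Subgroup.normalizer (X : Set G)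
      rw [show y * g * z * (y * g)⁻¹ = y * (g * z * g⁻¹) * y⁻¹ by group]
      exact Subgroup.mul_mem _ (Subgroup.mul_mem _ (hXY hy) h1) (Subgroup.inv_mem _ (hXY hy))
    have hmem : X ⊔ J g ∈ {X : Subgroup G | IsPGroup p X ∧ Y ≤ Subgroup.normalizer (X : Set G) ∧ gen X} := by
      refine ⟨hXp.to_sup_of_normal_left' (h g) hJN, hY fun y hy => ?_, S ∪ {x | ∃ y ∈ Y, x = y * g}, ?_⟩
      · rw [Subgroup.smul_sup]
        refine sup_le_sup ?_ ?_
        · rintro _ ⟨x, hx, rfl⟩
          exact (Subgroup.mem_normalizer_iff.mp (hXY hy) x).mp hx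
        · rintro _ ⟨x, hx, rfl⟩
          exact (Subgroup.mem_normalizer_iff.mp (hJ g hy) x).mp hx
      · rw [iSup_union, ← hXS]
        congr 1
        exact le_antisymm (iSup₂_le fun y hy => le_iSup₂_of_le (y * g) ⟨y, hy, rfl⟩ le_rfl)
          (iSup₂_le fun x ⟨y, hy, hx⟩ => hx ▸ le_iSup₂_of_le y hy le_rfl)
    have hle : X ⊔ J g ≤ X := hmax hmem le_sup_left
    refine le_trans ?_ (le_sup_right.trans hle)
    exact le_iSup₂_of_le 1 Y.one_mem (by rw [one_mul])
  suffices hWX : W ≤ X by rw [← le_antisymm hXW hWX] at *; exact hXY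
  -- N_W(X) is self-normalizing in the p-group W
  set X₁ := W ⊓ Subgroup.normalizer (X : Set G) with hX₁
  have hnorm : ∀ w ∈ W, (∀ x ∈ X₁, w * x * w⁻¹ ∈ X₁) → w ∈ Subgroup.normalizer (X : Set G) := by
    intro w hw hwx
    refine Subgroup.mem_normalizer_fintype fun x hx => ?_
    have hle : MulAut.conj w • X ≤ X := by
      conv_lhs => rw [hXS]
      rw [Subgroup.pointwise_smul_subset_iff]
      refine iSup₂_le fun g hg => ?_
      rw [← Subgroup.pointwise_smul_subset_iff, smul_smul, ← map_mul]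
      have hgX : MulAut.conj g • Z ≤ X :=
        (le_iSup₂ (f := fun g _ => MulAut.conj g • Z) g hg).trans hXS.ge
      have hwg : MulAut.conj (w * g) • Z ≤ X₁ := by
        rintro _ ⟨z, hz, rfl⟩
        change w * g * z * (w * g)⁻¹ ∈ X₁
        rw [show w * g * z * (w * g)⁻¹ = w * (g * z * g⁻¹) * w⁻¹ by group]
        exact hwx _ ⟨hXW (hgX ⟨z, hz, rfl⟩), Subgroup.le_normalizer (hgX ⟨z, hz, rfl⟩)⟩
      exact hkey (w * g) (hwg.trans (inf_le_left.trans hWP)) (hwg.trans inf_le_right)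
    exact hle ⟨x, hx, rfl⟩
  haveI := (P.2.to_le hWP).isNilpotent
  have hX₁W : X₁ = W := by
    have htop : X₁.subgroupOf W = ⊤ := by
      refine (normalizerCondition_iff_only_full_group_self_normalizing.mp
        Group.normalizerCondition_of_isNilpotent) _ (le_antisymm (fun w hw => ?_) Subgroup.le_normalizer)
      refine Subgroup.mem_subgroupOf.mpr ⟨w.2, hnorm w w.2 fun x hx => ?_⟩
      have := (Subgroup.mem_normalizer_iff.mp hw ⟨x, hx.1⟩).mp (show (⟨x, hx.1⟩ : W) ∈ X₁.subgroupOf W from hx)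
      exact this
    exact le_antisymm inf_le_left (Subgroup.subgroupOf_eq_top.mp htop)
  exact iSup₂_le fun g hg => hkey g hg
    (le_trans (le_iSup₂ (f := fun g _ => MulAut.conj g • Z) g hg) (hX₁W.ge.trans inf_le_right))

theorem commute_of_coprime_fix [Finite G] {q : ℕ} (Q : Subgroup G) [Q.Normal] [IsMulCommutative Q]
    (hQ : IsPGroup q Q) (a : G) (hco : (orderOf a).Coprime (Nat.card Q))
    (hΩ : ∀ x ∈ Q, x ^ q = 1 → a * x = x * a) : ∀ x ∈ Q, a * x = x * a := by
  suffices h : ∀ (k : ℕ) (x : G), x ∈ Q → x ^ q ^ k = 1 → a * x = x * a by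
    intro x hx
    obtain ⟨k, hk⟩ := hQ ⟨x, hx⟩
    exact h k x hx (congrArg Subtype.val hk)
  intro k
  induction k with
  | zero => intro x _ hx; rw [pow_zero, pow_one] at hx; simp [hx]
  | succ k ih =>
    intro x hx hxk
    have hq : a * x ^ q = x ^ q * a := ih _ (Q.pow_mem hx q) (by rw [← pow_mul, ← pow_succ']; exact hxk)
    set c := a * x * a⁻¹ * x⁻¹ with hc
    have hax : a * x * a⁻¹ ∈ Q := Subgroup.Normal.conj_mem inferInstance x hx a
    have hcQ : c ∈ Q := Q.mul_mem hax (Q.inv_mem hx)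
    have hcomm : Commute (a * x * a⁻¹) x⁻¹ :=
      congrArg Subtype.val (mul_comm' (⟨_, hax⟩ : Q) ⟨_, Q.inv_mem hx⟩)
    have hcq : c ^ q = 1 := by
      rw [hc, hcomm.mul_pow, conj_pow, hq, mul_inv_cancel_right, inv_pow, mul_inv_cancel]
    have hfix := hΩ c hcQ hcq
    have hiter : ∀ m : ℕ, a ^ m * x * (a ^ m)⁻¹ = c ^ m * x := by
      intro m
      induction m with
      | zero => simp
      | succ m ihm =>
        have hcm : a * c ^ m * a⁻¹ = c ^ m := by
          rw [← conj_pow, hfix, mul_inv_cancel_right]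
        calc a ^ (m + 1) * x * (a ^ (m + 1))⁻¹ = a * (a ^ m * x * (a ^ m)⁻¹) * a⁻¹ := by rw [pow_succ']; group
          _ = (a * c ^ m * a⁻¹) * (a * x * a⁻¹) := by rw [ihm]; group
          _ = c ^ (m + 1) * x := by rw [hcm, pow_succ, mul_assoc, hc]; group
    have h1 := hiter (orderOf a)
    rw [pow_orderOf_eq_one, one_mul, inv_one, mul_one] at h1
    have hc1 : c = 1 := orderOf_eq_one_iff.mp (Nat.eq_one_of_dvd_coprimes hco
      (orderOf_dvd_of_pow_eq_one (right_eq_mul.mp h1)) (Q.orderOf_dvd_natCard hcQ))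
    rw [hc, mul_inv_eq_one, mul_inv_eq_iff_eq_mul] at hc1
    exact hc1

theorem minimal_nonabelian [Finite G] (hna : ¬ IsMulCommutative G)
    (h : ∀ H : Subgroup G, H ≠ ⊤ → IsMulCommutative H) :
    (∃ p : ℕ, p.Prime ∧ IsPGroup p G) ∨ ∃ p q : ℕ, p.Prime ∧ q.Prime ∧ p ≠ q ∧
      ∃ (P : Sylow p G) (Q : Sylow q G), IsCyclic P ∧ (Q : Subgroup G).Normal ∧
        Cfsg.IsElementaryAbelian q (Q : Subgroup G) ∧ (P : Subgroup G) ⊔ Q = ⊤ := by
  by_cases hnil : Group.IsNilpotent G
  · left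
    by_contra hcon
    apply hna
    haveI := hnil
    obtain ⟨e⟩ := (Group.isNilpotent_of_finite_tfae.out 0 4).mp hnil
    have hP : ∀ (p : ℕ) [Fact p.Prime] (P : Sylow p G), IsMulCommutative (P : Subgroup G) := by
      intro p hp P
      refine h _ fun htop => hcon ⟨p, hp.out, ?_⟩
      exact P.2.of_equiv ((MulEquiv.subgroupCongr htop).trans Subgroup.topEquiv)
    refine ⟨⟨fun a b => e.symm.injective ?_⟩⟩
    rw [map_mul, map_mul]
    funext p P
    haveI : Fact (p : ℕ).Prime := ⟨Nat.prime_of_mem_primeFactors p.2⟩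
    exact (hP p P).is_comm.comm _ _
  · right
    have hmn : Cfsg.IsMinimalNonNilpotent G := ⟨hnil, fun H hH => by
      haveI := h H hH
      open scoped IsMulCommutative in exact inferInstance⟩
    obtain ⟨p, q, hp, hq, hpq, P, Q, hPc, hQn, hsup⟩ := CfsgLib.Hall.schmidt_structure hmn
    haveI := Fact.mk hp
    haveI := Fact.mk hq
    refine ⟨p, q, hp, hq, hpq, P, Q, hPc, hQn, ?_, hsup⟩
    have hQtop : (Q : Subgroup G) ≠ ⊤ := fun htop => hnil (by
      haveI := (Q.2.of_equiv ((MulEquiv.subgroupCongr htop).trans Subgroup.topEquiv)).isNilpotent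
      infer_instance)
    haveI := h _ hQtop
    refine ⟨inferInstance, ?_⟩
    -- the subgroup of elements of order dividing q
    let Ω : Subgroup G :=
      { carrier := {x | x ∈ (Q : Subgroup G) ∧ x ^ q = 1}
        one_mem' := ⟨Subgroup.one_mem _, one_pow q⟩
        mul_mem' := fun {x y} hx hy => ⟨Subgroup.mul_mem _ hx.1 hy.1, by
          rw [(show Commute x y from congrArg Subtype.val (mul_comm' (⟨x, hx.1⟩ : (Q : Subgroup G)) ⟨y, hy.1⟩)).mul_pow,
            hx.2, hy.2, one_mul]⟩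
        inv_mem' := fun {x} hx => ⟨Subgroup.inv_mem _ hx.1, by rw [inv_pow, hx.2, inv_one]⟩ }
    haveI : Ω.Normal := ⟨fun x hx g => ⟨hQn.conj_mem x hx.1 g, by rw [conj_pow, hx.2, mul_one, mul_inv_cancel]⟩⟩
    by_cases htop : (P : Subgroup G) ⊔ Ω = ⊤
    · intro a ha
      obtain ⟨b, hb, c, hc, hbc⟩ := exists_mul_of_mem_sup (A := Ω) (H := (P : Subgroup G))
        (fun g _ => by rw [Subgroup.normalizer_eq_top_iff.mpr inferInstance]; trivial)
        (show a ∈ Ω ⊔ (P : Subgroup G) by rw [sup_comm, htop]; trivial)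
      have hc' : c ∈ (P : Subgroup G) ⊓ Q := ⟨hc, by
        have : c = b⁻¹ * a := by rw [← hbc]; group
        exact this ▸ Subgroup.mul_mem _ (Subgroup.inv_mem _ hb.1) ha⟩
      rw [inf_eq_bot_of_coprime_card (by
        obtain ⟨i, hi⟩ := P.2.exists_card_eq
        obtain ⟨j, hj⟩ := Q.2.exists_card_eq
        rw [hi, hj]; exact Nat.Coprime.pow _ _ ((Nat.coprime_primes hp hq).mpr hpq)), Subgroup.mem_bot] at hc'
      rw [← hbc, hc', mul_one]; exact hb.2
    · exfalso
      apply hna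
      have hPab : IsMulCommutative (P : Subgroup G) := by
        haveI := hPc
        infer_instance
      have hcent : ∀ a ∈ (P : Subgroup G), ∀ x ∈ (Q : Subgroup G), a * x = x * a := by
        intro a ha
        refine commute_of_coprime_fix (Q : Subgroup G) Q.2 a ?_ fun x hx hxq => ?_
        · obtain ⟨i, hi⟩ := IsPGroup.iff_orderOf.mp P.2 ⟨a, ha⟩
          obtain ⟨j, hj⟩ := Q.2.exists_card_eq
          rw [Subgroup.orderOf_mk] at hi
          rw [hi, hj]; exact Nat.Coprime.pow _ _ ((Nat.coprime_primes hp hq).mpr hpq)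
        · exact congrArg Subtype.val ((h _ htop).is_comm.comm
            ⟨a, Subgroup.mem_sup_left ha⟩ ⟨x, Subgroup.mem_sup_right (show x ∈ Ω from ⟨hx, hxq⟩)⟩)
      refine ⟨⟨fun a b => ?_⟩⟩
      have hdec : ∀ g : G, ∃ x ∈ (Q : Subgroup G), ∃ y ∈ (P : Subgroup G), x * y = g := fun g =>
        exists_mul_of_mem_sup (fun g _ => by rw [Subgroup.normalizer_eq_top_iff.mpr hQn]; trivial)
          (show g ∈ (Q : Subgroup G) ⊔ P by rw [sup_comm, hsup]; trivial)
      obtain ⟨x₁, hx₁, y₁, hy₁, rfl⟩ := hdec a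
      obtain ⟨x₂, hx₂, y₂, hy₂, rfl⟩ := hdec b
      have c1 : Commute x₁ x₂ := congrArg Subtype.val (mul_comm' (⟨x₁, hx₁⟩ : (Q : Subgroup G)) ⟨x₂, hx₂⟩)
      have c2 : Commute y₁ y₂ := congrArg Subtype.val (hPab.is_comm.comm (⟨y₁, hy₁⟩ : (P : Subgroup G)) ⟨y₂, hy₂⟩)
      have c3 : Commute y₁ x₂ := hcent y₁ hy₁ x₂ hx₂
      have c4 : Commute y₂ x₁ := hcent y₂ hy₂ x₁ hx₁
      exact ((c1.mul_right c4.symm).mul_left (c3.mul_right c2)).eq

theorem minimal_nonnilpotent_quotient [Finite G] (hG : Cfsg.IsMinimalNonNilpotent G) (q : ℕ) [Fact q.Prime]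
    (hq : q ∣ Nat.card G)
    (Q : Sylow q G) (hQ : (Q : Subgroup G).Normal) (D : Subgroup G) [D.Normal]
    (hD : D = (commutator ↥(Q : Subgroup G)).map (Q : Subgroup G).subtype) :
    ¬ IsMulCommutative (G ⧸ D) ∧ ∀ K : Subgroup (G ⧸ D), K ≠ ⊤ → IsMulCommutative K := by
  have hDQ : D ≤ (Q : Subgroup G) := hD ▸ Subgroup.map_subtype_le _
  haveI := Q.2.isNilpotent
  have hfr : D ≤ frattini G := by
    refine CfsgLib.SolvStruct.le_frattini_of_le_frattini D (Q : Subgroup G) hDQ ?_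
    rw [hD, Subgroup.subgroupOf, Subgroup.comap_map_eq_self_of_injective (Q : Subgroup G).subtype_injective]
    exact CfsgLib.SolvStruct.commutator_le_frattini
  refine ⟨fun hab => hG.1 ?_, fun K hK => ?_⟩
  · have : Group.IsNilpotent (⊤ : Subgroup G) := by
      refine nilpotent_of_quotient_le_frattini (⊤ : Subgroup G) D le_top hfr ?_
      have e : ((⊤ : Subgroup G) ⧸ D.subgroupOf ⊤) ≃* (G ⧸ D) :=
        QuotientGroup.congr _ _ Subgroup.topEquiv (by
          ext x
          simp [Subgroup.mem_subgroupOf])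
      haveI : Group.IsNilpotent (G ⧸ D) := by
        open scoped IsMulCommutative in exact inferInstance
      exact Group.nilpotent_of_mulEquiv e.symm
    exact Group.nilpotent_of_mulEquiv Subgroup.topEquiv
  · set L := K.comap (QuotientGroup.mk' D) with hL
    have hLtop : L ≠ ⊤ := fun htop => hK (by
      rw [← Subgroup.map_comap_eq_self_of_surjective (QuotientGroup.mk'_surjective D) K, ← hL, htop,
        Subgroup.map_top_of_surjective _ (QuotientGroup.mk'_surjective D)])
    haveI := hG.2 L hLtop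
    obtain ⟨p, q', hp, hq', hpq, P, Q', hPc, hQn', hsup⟩ := CfsgLib.Hall.schmidt_structure hG
    haveI := Fact.mk hp
    haveI := Fact.mk hq'
    have hpr : ∀ r : ℕ, r.Prime → r ∣ Nat.card G → r = p ∨ r = q' := by
      intro r hr hrG
      have hc : Nat.card G ∣ Nat.card (Q' : Subgroup G) * Nat.card (P : Subgroup G) := by
        haveI := hQn'
        have h := card_sup_mul_card_inf (Q' : Subgroup G) (P : Subgroup G)
        rw [sup_comm, hsup, Subgroup.card_top] at h
        exact ⟨_, h.symm⟩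
      obtain ⟨i, hi⟩ := P.2.exists_card_eq
      obtain ⟨j, hj⟩ := Q'.2.exists_card_eq
      rw [hi, hj] at hc
      rcases hr.dvd_mul.mp (hrG.trans hc) with h | h
      · exact Or.inr ((Nat.prime_dvd_prime_iff_eq hr hq').mp (hr.dvd_of_dvd_pow h))
      · exact Or.inl ((Nat.prime_dvd_prime_iff_eq hr hp).mp (hr.dvd_of_dvd_pow h))
    have hqq : q = q' := by
      rcases hpr q Fact.out hq with h | h
      · exfalso
        subst h
        refine hG.1 ((Group.isNilpotent_of_finite_tfae.out 0 3).mpr fun r hr R => ?_)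
        haveI := hr
        by_cases hrG : r ∣ Nat.card G
        · rcases hpr r hr.out hrG with h | h
          · subst h
            obtain ⟨g, hg⟩ := MulAction.exists_smul_eq G Q R
            haveI := hQ
            rw [Sylow.smul_eq_of_normal] at hg
            exact hg ▸ hQ
          · subst h
            obtain ⟨g, hg⟩ := MulAction.exists_smul_eq G Q' R
            haveI := hQn'
            rw [Sylow.smul_eq_of_normal] at hg
            exact hg ▸ hQn'
        · have hR1 : (R : Subgroup G) = ⊥ := by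
            rw [← Subgroup.card_eq_one, R.card_eq_multiplicity, Nat.factorization_eq_zero_of_not_dvd hrG, pow_zero]
          rw [hR1]; infer_instance
      · exact h
    subst hqq
    -- every proper subgroup of the quotient has commutative Sylow subgroups
    have hmap : Subgroup.map (QuotientGroup.mk' D) L = K :=
      Subgroup.map_comap_eq_self_of_surjective (QuotientGroup.mk'_surjective D) K
    haveI : Group.IsNilpotent K := by
      rw [← hmap]
      exact Group.nilpotent_of_surjective _ ((QuotientGroup.mk' D).subgroupMap_surjective L)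
    obtain ⟨e⟩ := (Group.isNilpotent_of_finite_tfae.out 0 4).mp (inferInstance : Group.IsNilpotent K)
    refine ⟨⟨fun a b => e.symm.injective ?_⟩⟩
    rw [map_mul, map_mul]
    funext r R
    haveI : Fact (r : ℕ).Prime := ⟨Nat.prime_of_mem_primeFactors r.2⟩
    obtain ⟨S, hS⟩ := (R.2.map K.subtype).exists_le_sylow
    have hScomm : IsMulCommutative (S : Subgroup (G ⧸ D)) := by
      obtain ⟨S₀, rfl⟩ := Sylow.mapSurjective_surjective (QuotientGroup.mk'_surjective D) r S
      rw [Sylow.coe_mapSurjective]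
      have hrG : (r : ℕ) ∣ Nat.card G := (Nat.dvd_of_mem_primeFactors r.2).trans
        (K.card_subgroup_dvd_card.trans D.card_quotient_dvd_card)
      by_cases hrq : (r : ℕ) = q
      · refine ⟨⟨fun x y => Subtype.ext ?_⟩⟩
        obtain ⟨u, hu, hux⟩ := x.2
        obtain ⟨v, hv, hvy⟩ := y.2
        have hp' : IsPGroup q (S₀ : Subgroup G) := hrq ▸ S₀.2
        have hSQ : ∀ w ∈ (S₀ : Subgroup G), w ∈ (Q : Subgroup G) := fun w hw =>
          by
          haveI := hQ
          exact (Q.3 (hp'.to_sup_of_normal_right Q.2) le_sup_right).le (Subgroup.mem_sup_left hw)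
        change (x : G ⧸ D) * y = y * x
        rw [← hux, ← hvy, ← map_mul, ← map_mul]
        refine (QuotientGroup.eq).mpr ?_
        rw [hD]
        refine ⟨⁅(⟨v, hSQ v hv⟩ : (Q : Subgroup G))⁻¹, ⟨u, hSQ u hu⟩⁻¹⁆,
          Subgroup.commutator_mem_commutator (Subgroup.mem_top _) (Subgroup.mem_top _), ?_⟩
        simp [commutatorElement_def, mul_assoc]
      · have hrp : (r : ℕ) = p := (hpr r Fact.out hrG).resolve_right hrq
        subst hrp
        haveI := hPc
        haveI : IsCyclic (S₀ : Subgroup G) := isCyclic_of_surjective _ (Sylow.equiv P S₀).surjective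
        infer_instance
    have hR : IsMulCommutative (R : Subgroup K) := ⟨⟨fun x y => Subtype.ext (K.subtype_injective
      (congrArg Subtype.val (hScomm.is_comm.comm
        (⟨((x : K) : G ⧸ D), hS ⟨_, x.2, rfl⟩⟩ : (S : Subgroup (G ⧸ D))) ⟨((y : K) : G ⧸ D), hS ⟨_, y.2, rfl⟩⟩)))⟩⟩
    exact hR.is_comm.comm _ _

end CfsgLib.Hall.Struct
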