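/-
An elementary abelian 2-group acting faithfully on a nilpotent group of odd order fixes enough
independent subgroups of prime order.
-/
import Cfsg.Agent.Hall.Fitting
import Cfsg.Agent.Hall.StructBatch4

set_option autoImplicit false
set_option linter.style.haveILetI false

namespace CfsgLib.Hall.EvenAction

open scoped Pointwise

variable {S : Type*} [Group S]

theorem sq_one (I : Subgroup S) (hI : Cfsg.IsElementaryAbelian 2 I) {a : S} (ha : a ∈ I) : a * a = 1 := by
  rw [← pow_two]; exact hI.2 a ha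

theorem inv_eq_self (I : Subgroup S) (hI : Cfsg.IsElementaryAbelian 2 I) {a : S} (ha : a ∈ I) : a⁻¹ = a :=
  inv_eq_of_mul_eq_one_right (sq_one I hI ha)

theorem pow_ne_inv [Finite S] {x : S} (hx : x ≠ 1) (hodd : Odd (orderOf x)) : x ≠ x⁻¹ := by
  intro h
  have h2 : orderOf x ∣ 2 := orderOf_dvd_of_pow_eq_one (by rw [pow_two]; exact mul_eq_one_iff_eq_inv.mpr h)
  rcases (Nat.dvd_prime Nat.prime_two).mp h2 with h1 | h1
  · exact hx (orderOf_eq_one_iff.mp h1)
  · rw [h1] at hodd; exact absurd hodd (by decide)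

/-- Refining an element to a common eigenvector of `I`, keeping a property stable under the refinement. -/
theorem exists_eigen [Finite S] (A : Subgroup S) [IsMulCommutative A] (I : Subgroup S)
    (hI : Cfsg.IsElementaryAbelian 2 I) (hIA : I ≤ Subgroup.normalizer (A : Set S)) (hodd : Odd (Nat.card A))
    (P : S → Prop) (hP : ∀ x ∈ A, P x → ∀ s ∈ I, P (s * x * s⁻¹) ∧ (P (x * (s * x * s⁻¹)) ∨ s * x * s⁻¹ = x⁻¹))
    {x₀ : S} (hx₀ : x₀ ∈ A) (hx₀P : P x₀) :
    ∃ x ∈ A, P x ∧ ∀ s ∈ I, s * x * s⁻¹ = x ∨ s * x * s⁻¹ = x⁻¹ := by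
  classical
  have hmem : ∀ {s x : S}, s ∈ I → x ∈ A → s * x * s⁻¹ ∈ A := fun hs hx =>
    (Subgroup.mem_normalizer_iff.mp (hIA hs) _).mp hx
  haveI : Fintype I := Fintype.ofFinite I
  suffices key : ∀ T : Finset I, ∃ x ∈ A, P x ∧ ∀ s ∈ T, (s : S) * x * (s : S)⁻¹ = x ∨ (s : S) * x * (s : S)⁻¹ = x⁻¹ by
    obtain ⟨x, hx, hxP, h⟩ := key Finset.univ
    exact ⟨x, hx, hxP, fun s hs => h ⟨s, hs⟩ (Finset.mem_univ _)⟩
  intro T
  induction T using Finset.induction_on with
  | empty => exact ⟨x₀, hx₀, hx₀P, fun s hs => absurd hs (Finset.notMem_empty s)⟩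
  | insert s T hsT ih =>
    obtain ⟨x, hx, hxP, hT⟩ := ih
    set y := (s : S) * x * (s : S)⁻¹ with hy
    rcases (hP x hx hxP s s.2).2 with hnew | hinv
    swap
    · refine ⟨x, hx, hxP, fun t ht => ?_⟩
      rcases Finset.mem_insert.mp ht with rfl | ht
      · exact Or.inr hinv
      · exact hT t ht
    refine ⟨x * y, A.mul_mem hx (hmem s.2 hx), hnew, fun t ht => ?_⟩
    have hcomm : x * y = y * x := congrArg Subtype.val (mul_comm' (⟨x, hx⟩ : A) ⟨y, hmem s.2 hx⟩)
    rcases Finset.mem_insert.mp ht with rfl | ht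
    · left
      have hyy : (t : S) * y * (t : S)⁻¹ = x := by
        rw [hy, inv_eq_self I hI t.2]
        calc (t : S) * ((t : S) * x * t) * t = ((t : S) * t) * x * ((t : S) * t) := by group
          _ = x := by rw [sq_one I hI t.2, one_mul, mul_one]
      calc (t : S) * (x * y) * (t : S)⁻¹ = ((t : S) * x * (t : S)⁻¹) * ((t : S) * y * (t : S)⁻¹) := by group
        _ = x * y := by rw [hyy, ← hy, hcomm]
    · have hts : (t : S) * y * (t : S)⁻¹ = (s : S) * ((t : S) * x * (t : S)⁻¹) * (s : S)⁻¹ := by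
        have h1 : (t : S) * s = s * t := congrArg Subtype.val (hI.1.is_comm.comm t s)
        rw [hy]
        calc (t : S) * ((s : S) * x * (s : S)⁻¹) * (t : S)⁻¹ = ((t : S) * s) * x * ((t : S) * s)⁻¹ := by group
          _ = ((s : S) * t) * x * ((s : S) * t)⁻¹ := by rw [h1]
          _ = _ := by group
      rcases hT t ht with h | h
      · left
        calc (t : S) * (x * y) * (t : S)⁻¹ = ((t : S) * x * (t : S)⁻¹) * ((t : S) * y * (t : S)⁻¹) := by group
          _ = x * y := by rw [hts, h, ← hy]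
      · right
        calc (t : S) * (x * y) * (t : S)⁻¹ = ((t : S) * x * (t : S)⁻¹) * ((t : S) * y * (t : S)⁻¹) := by group
          _ = x⁻¹ * ((s : S) * x⁻¹ * (s : S)⁻¹) := by rw [hts, h]
          _ = (x * y)⁻¹ := by rw [hcomm, hy]; group

theorem exists_inverted_line [Finite S] (A : Subgroup S) [IsMulCommutative A] (I : Subgroup S)
    (hI : Cfsg.IsElementaryAbelian 2 I) (hIA : I ≤ Subgroup.normalizer (A : Set S)) (hodd : Odd (Nat.card A))
    {t : S} (ht : t ∈ I) {a : S} (ha : a ∈ A) (hta : t * a * t⁻¹ ≠ a) :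
    ∃ x ∈ A, (orderOf x).Prime ∧ t * x * t⁻¹ = x⁻¹ ∧ ∀ s ∈ I, s * x * s⁻¹ = x ∨ s * x * s⁻¹ = x⁻¹ := by
  have hmem : ∀ {s x : S}, s ∈ I → x ∈ A → s * x * s⁻¹ ∈ A := fun hs hx =>
    (Subgroup.mem_normalizer_iff.mp (hIA hs) _).mp hx
  set b := a⁻¹ * (t * a * t⁻¹) with hb
  have hbA : b ∈ A := A.mul_mem (A.inv_mem ha) (hmem ht ha)
  have hb1 : b ≠ 1 := fun h => hta ((inv_mul_eq_one.mp h).symm)
  have htb : t * b * t⁻¹ = b⁻¹ := by
    rw [hb, inv_eq_self I hI ht]
    calc t * (a⁻¹ * (t * a * t)) * t = (t * a⁻¹ * t) * a * (t * t) := by group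
      _ = (a⁻¹ * (t * a * t⁻¹))⁻¹ := by rw [sq_one I hI ht, inv_eq_self I hI ht]; group; rw [show t ^ (-1 : ℤ) = t by rw [zpow_neg_one, inv_eq_self I hI ht]]
      _ = _ := by rw [inv_eq_self I hI ht]
  set q := (orderOf b).minFac with hq
  have hqp : q.Prime := Nat.minFac_prime fun h => hb1 (orderOf_eq_one_iff.mp h)
  set y := b ^ (orderOf b / q) with hy
  have hyo : orderOf y = q := by
    rw [hy, orderOf_pow_orderOf_div (orderOf_pos b).ne' (Nat.minFac_dvd _)]
  obtain ⟨x, hx, ⟨hxo, hxt⟩, hxI⟩ := exists_eigen A I hI hIA hodd (fun x => orderOf x = q ∧ t * x * t⁻¹ = x⁻¹)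
    (fun x hx ⟨hxo, hxt⟩ s hs => by
      have h1 : t * (s * x * s⁻¹) * t⁻¹ = (s * x * s⁻¹)⁻¹ := by
        have h2 : t * s = s * t := congrArg Subtype.val (hI.1.is_comm.comm (⟨t, ht⟩ : I) ⟨s, hs⟩)
        calc t * (s * x * s⁻¹) * t⁻¹ = (t * s) * x * (t * s)⁻¹ := by group
          _ = (s * t) * x * (s * t)⁻¹ := by rw [h2]
          _ = s * (t * x * t⁻¹) * s⁻¹ := by group
          _ = _ := by rw [hxt]; group
      have h3 : orderOf (s * x * s⁻¹) = q := by
        rw [← hxo]; exact orderOf_injective (MulAut.conj s).toMonoidHom (MulAut.conj s).injective x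
      refine ⟨⟨h3, h1⟩, ?_⟩
      by_cases hc : x * (s * x * s⁻¹) = 1
      · exact Or.inr (eq_inv_of_mul_eq_one_right hc)
      have hcomm : Commute x (s * x * s⁻¹) :=
        congrArg Subtype.val (mul_comm' (⟨x, hx⟩ : A) ⟨_, hmem hs hx⟩)
      refine Or.inl ⟨?_, ?_⟩
      · haveI := Fact.mk hqp
        refine orderOf_eq_prime ?_ hc
        rw [hcomm.mul_pow]
        nth_rewrite 1 [← hxo]
        rw [pow_orderOf_eq_one, one_mul, ← h3, pow_orderOf_eq_one]
      · calc t * (x * (s * x * s⁻¹)) * t⁻¹ = (t * x * t⁻¹) * (t * (s * x * s⁻¹) * t⁻¹) := by group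
          _ = (x * (s * x * s⁻¹))⁻¹ := by rw [hxt, h1, ← mul_inv_rev, hcomm.eq])
    (A.pow_mem hbA _) ⟨hyo, by rw [← conj_pow, htb, inv_pow]⟩
  exact ⟨x, hx, hxo ▸ hqp, hxt, hxI⟩

theorem exists_lines_aux [Finite S] (A : Subgroup S) [IsMulCommutative A] (I : Subgroup S)
    (hI : Cfsg.IsElementaryAbelian 2 I) (hIA : I ≤ Subgroup.normalizer (A : Set S)) (hodd : Odd (Nat.card A)) :
    ∀ (m : ℕ) (J : Subgroup S), J ≤ I → Nat.card J = 2 ^ m → J ⊓ Subgroup.centralizer (A : Set S) = ⊥ →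
      ∃ f : Fin m → Subgroup S, (∀ i, (Nat.card ↥(f i)).Prime) ∧ (∀ i, f i ≤ A) ∧
        (∀ i, I ≤ Subgroup.normalizer ((f i) : Set S)) ∧ Nat.card ↥(⨆ i, f i) = ∏ i, Nat.card ↥(f i) ∧
        J ⊓ Subgroup.centralizer ((⨆ i, f i : Subgroup S) : Set S) = ⊥ ∧
        ∀ y ∈ ⨆ i, f i, (∀ s ∈ J, s * y = y * s) → y = 1 := by
  intro m
  induction m with
  | zero =>
    intro J _ hJ _
    refine ⟨fun i => i.elim0, fun i => i.elim0, fun i => i.elim0, fun i => i.elim0, ?_, ?_, fun y hy _ => ?_⟩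
    · rw [show (⨆ i : Fin 0, (i.elim0 : Subgroup S)) = ⊥ from iSup_of_empty _, Subgroup.card_bot]; simp
    · rw [Subgroup.card_eq_one.mp (hJ.trans (pow_zero 2)), bot_inf_eq]
    · rwa [show (⨆ i : Fin 0, (i.elim0 : Subgroup S)) = ⊥ from iSup_of_empty _, Subgroup.mem_bot] at hy
  | succ m ih =>
    intro J hJI hJ hfaith
    obtain ⟨t, htJ, ht1⟩ : ∃ t ∈ J, t ≠ 1 := J.bot_or_exists_ne_one.resolve_left (fun h => by
      rw [h, Subgroup.card_bot] at hJ
      exact absurd hJ.symm (Nat.one_lt_pow (Nat.succ_ne_zero m) (by norm_num)).ne')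
    obtain ⟨a, ha, hta⟩ : ∃ a ∈ A, t * a * t⁻¹ ≠ a := by
      by_contra h
      push Not at h
      exact ht1 (Subgroup.mem_bot.mp (hfaith ▸ ⟨htJ, Subgroup.mem_centralizer_iff.mpr fun a ha =>
        (mul_inv_eq_iff_eq_mul.mp (h a ha)).symm⟩))
    obtain ⟨x, hx, hxp, hxt, hxI⟩ := exists_inverted_line A I hI hIA hodd (hJI htJ) ha hta
    have hxne : x ≠ 1 := fun h => by rw [h, orderOf_one] at hxp; exact Nat.not_prime_one hxp
    have hxx : x ≠ x⁻¹ := pow_ne_inv hxne (hodd.of_dvd_nat (A.orderOf_dvd_natCard hx))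
    set J₀ := J ⊓ Subgroup.centralizer ({x} : Set S) with hJ₀
    have hrel : ∀ s ∈ J, s ∈ J₀ ∨ s * t ∈ J₀ := by
      intro s hs
      rcases hxI s (hJI hs) with h | h
      · exact Or.inl ⟨hs, Subgroup.mem_centralizer_singleton_iff.mpr (mul_inv_eq_iff_eq_mul.mp h)⟩
      · refine Or.inr ⟨J.mul_mem hs htJ, Subgroup.mem_centralizer_singleton_iff.mpr (mul_inv_eq_iff_eq_mul.mp ?_)⟩
        calc s * t * x * (s * t)⁻¹ = s * (t * x * t⁻¹) * s⁻¹ := by group
          _ = (s * x * s⁻¹)⁻¹ := by rw [hxt]; group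
          _ = x := by rw [h, inv_inv]
    have htJ₀ : t ∉ J₀ := fun h => hxx (by
      rw [← hxt, Subgroup.mem_centralizer_singleton_iff.mp h.2, mul_inv_cancel_right])
    have hJ₀c : Nat.card J₀ = 2 ^ m := by
      have hi : (J₀.subgroupOf J).index = 2 := by
        rw [Subgroup.index_eq_two_iff]
        refine ⟨⟨t, htJ⟩, fun s => ?_⟩
        rcases hrel s s.2 with h | h
        · refine Or.inr ⟨h, fun hst => htJ₀ ?_⟩
          have := J₀.mul_mem (J₀.inv_mem h) (Subgroup.mem_subgroupOf.mp hst)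
          simpa using this
        · refine Or.inl ⟨h, fun hs => htJ₀ ?_⟩
          have := J₀.mul_mem (J₀.inv_mem (Subgroup.mem_subgroupOf.mp hs)) h
          simpa using this
      have h := (J₀.subgroupOf J).card_mul_index
      rw [hi, Nat.card_congr (Subgroup.subgroupOfEquivOfLe (inf_le_left : J₀ ≤ J)).toEquiv, hJ, pow_succ] at h
      exact Nat.eq_of_mul_eq_mul_right (by norm_num) h
    obtain ⟨f, hfp, hfA, hfI, hfc, hff, hffix⟩ := ih J₀ (inf_le_left.trans hJI) hJ₀c
      (le_bot_iff.mp (hfaith ▸ inf_le_inf_right _ inf_le_left))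
    set L := Subgroup.zpowers x with hL
    have hLI : I ≤ Subgroup.normalizer (L : Set S) := fun s hs => Subgroup.mem_normalizer_fintype fun y hy => by
      obtain ⟨i, rfl⟩ := Subgroup.mem_zpowers_iff.mp hy
      rw [← conj_zpow]
      rcases hxI s hs with h | h <;> rw [h]
      · exact L.zpow_mem (Subgroup.mem_zpowers x) i
      · exact L.zpow_mem (L.inv_mem (Subgroup.mem_zpowers x)) i
    have hLA : L ≤ A := Subgroup.zpowers_le.mpr hx
    have hsupA : (⨆ i, f i) ≤ A := iSup_le hfA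
    have hAc : ∀ u ∈ A, ∀ v ∈ A, u * v = v * u := fun u hu v hv =>
      congrArg Subtype.val (mul_comm' (⟨u, hu⟩ : A) ⟨v, hv⟩)
    have hxfix : ∀ y ∈ L, ∀ s ∈ J₀, s * y = y * s := by
      intro y hy s hs
      obtain ⟨i, rfl⟩ := Subgroup.mem_zpowers_iff.mp hy
      exact ((show Commute s x from Subgroup.mem_centralizer_singleton_iff.mp hs.2).zpow_right i).eq
    have hdisj : (⨆ i, f i) ⊓ L = ⊥ := eq_bot_iff.mpr fun y hy =>
      Subgroup.mem_bot.mpr (hffix y hy.1 (hxfix y hy.2))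
    set f' : Fin (m + 1) → Subgroup S := Fin.cons L f with hf'
    have hsup : (⨆ i, f' i) = L ⊔ ⨆ i, f i := by
      refine le_antisymm (iSup_le fun i => ?_) (sup_le ?_ (iSup_le fun i => ?_))
      · cases i using Fin.cases with
        | zero => exact le_sup_left
        | succ j => rw [hf', Fin.cons_succ]; exact (le_iSup f j).trans le_sup_right
      · exact le_of_eq_of_le (Fin.cons_zero (α := fun _ => Subgroup S) L f).symm (le_iSup f' 0)
      · exact le_of_eq_of_le (Fin.cons_succ (α := fun _ => Subgroup S) L f i).symm (le_iSup f' i.succ)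
    refine ⟨f', Fin.cases (by rw [hf', Fin.cons_zero, hL, Nat.card_zpowers]; exact hxp)
      (fun i => by rw [hf', Fin.cons_succ]; exact hfp i), Fin.cases (by rw [hf', Fin.cons_zero]; exact hLA)
      (fun i => by rw [hf', Fin.cons_succ]; exact hfA i), Fin.cases (by rw [hf', Fin.cons_zero]; exact hLI)
      (fun i => by rw [hf', Fin.cons_succ]; exact hfI i), ?_, ?_, ?_⟩
    · rw [hsup, Fin.prod_univ_succ, hf', Fin.cons_zero]
      simp only [Fin.cons_succ]
      rw [← hfc]
      have h := card_sup_mul_card_inf ((⨆ i, f i).subgroupOf A) (L.subgroupOf A)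
      rw [← Subgroup.subgroupOf_sup hsupA hLA,
        show (⨆ i, f i).subgroupOf A ⊓ L.subgroupOf A = ((⨆ i, f i) ⊓ L).subgroupOf A from rfl,
        hdisj, Subgroup.bot_subgroupOf, Subgroup.card_bot, mul_one,
        Nat.card_congr (Subgroup.subgroupOfEquivOfLe (sup_le hsupA hLA)).toEquiv,
        Nat.card_congr (Subgroup.subgroupOfEquivOfLe hsupA).toEquiv,
        Nat.card_congr (Subgroup.subgroupOfEquivOfLe hLA).toEquiv] at h
      rw [sup_comm, h, mul_comm]
    · rw [eq_bot_iff]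
      rintro s ⟨hs, hsc⟩
      rw [hsup] at hsc
      rcases hrel s hs with h | h
      · rw [← hff]
        exact ⟨h, Subgroup.centralizer_le (le_sup_right : (⨆ i, f i) ≤ L ⊔ ⨆ i, f i) hsc⟩
      · exfalso
        have h1 : s * x = x * s :=
          (Subgroup.mem_centralizer_iff.mp hsc x (Subgroup.mem_sup_left (Subgroup.mem_zpowers x))).symm
        have h2 : s * t * x = x * (s * t) := Subgroup.mem_centralizer_singleton_iff.mp h.2
        apply htJ₀
        refine ⟨htJ, Subgroup.mem_centralizer_singleton_iff.mpr (mul_left_cancel (a := s) ?_)⟩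
        rw [← mul_assoc, h2, ← mul_assoc, ← h1, mul_assoc]
    · intro y hy hyfix
      rw [hsup, sup_comm] at hy
      obtain ⟨u, hu, v, hv, rfl⟩ := exists_mul_of_mem_sup (A := ⨆ i, f i) (H := L)
        (fun l hl => Subgroup.centralizer_le_normalizer _ (Subgroup.mem_centralizer_iff.mpr fun w hw =>
          hAc w (hsupA hw) l (hLA hl))) hy
      have hu1 : u = 1 := hffix u hu fun s hs => by
        have h1 := hyfix s hs.1
        have h2 := hxfix v hv s hs
        refine mul_right_cancel (b := v) ?_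
        rw [mul_assoc, h1, mul_assoc u s v, h2, ← mul_assoc]
      rw [hu1, one_mul] at hyfix ⊢
      obtain ⟨i, rfl⟩ := Subgroup.mem_zpowers_iff.mp hv
      have h1 : x ^ i = (x ^ i)⁻¹ := by
        rw [← inv_zpow, ← hxt, conj_zpow, hyfix t htJ, mul_inv_cancel_right]
      by_contra hne
      exact pow_ne_inv hne (hodd.of_dvd_nat (A.orderOf_dvd_natCard (A.zpow_mem hx i))) h1

/-- An abelian normal self-centralising invariant subgroup. -/
theorem exists_selfcentralizing [Finite S] (F : Subgroup S) [F.Normal] [Group.IsNilpotent F] (I : Subgroup S)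
    (hI : Cfsg.IsElementaryAbelian 2 I) (hodd : Odd (Nat.card F)) :
    ∃ A : Subgroup S, A ≤ F ∧ IsMulCommutative A ∧ F ≤ Subgroup.normalizer (A : Set S) ∧
      I ≤ Subgroup.normalizer (A : Set S) ∧ F ⊓ Subgroup.centralizer (A : Set S) ≤ A := by
  obtain ⟨A, ⟨hAF, hAab, hFA, hIA⟩, hmax⟩ := (Set.toFinite {A : Subgroup S | A ≤ F ∧ IsMulCommutative A ∧
      F ≤ Subgroup.normalizer (A : Set S) ∧ I ≤ Subgroup.normalizer (A : Set S)}).exists_maximal
    ⟨⊥, bot_le, inferInstance, by rw [Subgroup.normalizer_eq_top_iff.mpr inferInstance]; exact le_top,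
      by rw [Subgroup.normalizer_eq_top_iff.mpr inferInstance]; exact le_top⟩
  refine ⟨A, hAF, hAab, hFA, hIA, ?_⟩
  by_contra hC
  haveI := hAab
  set C := F ⊓ Subgroup.centralizer (A : Set S) with hCdef
  set W := Subgroup.normalizer (A : Set S) with hW
  -- work in `F`
  haveI : (A.subgroupOf F).Normal := (Subgroup.normal_subgroupOf_iff_le_normalizer hAF).mpr hFA
  set f := QuotientGroup.mk' (A.subgroupOf F) with hf
  have hfs : Function.Surjective f := QuotientGroup.mk'_surjective _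
  haveI : (C.subgroupOf F).Normal := ⟨fun x hx g => ⟨F.mul_mem (F.mul_mem g.2 x.2) (F.inv_mem g.2),
    Subgroup.mem_centralizer_iff.mpr fun a ha => by
      have ha' : (g : S)⁻¹ * a * g ∈ A := (Subgroup.mem_normalizer_iff''.mp (hFA g.2) a).mp ha
      have h := Subgroup.mem_centralizer_iff.mp hx.2 _ ha'
      push_cast
      calc a * ((g : S) * x * (g : S)⁻¹) = g * (((g : S)⁻¹ * a * g) * x) * (g : S)⁻¹ := by group
        _ = g * ((x : S) * ((g : S)⁻¹ * a * g)) * (g : S)⁻¹ :=
          congrArg (fun u => (g : S) * u * (g : S)⁻¹) h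
        _ = (g : S) * x * (g : S)⁻¹ * a := by group⟩⟩
  haveI : ((C.subgroupOf F).map f).Normal := Subgroup.Normal.map inferInstance f hfs
  have hne : (C.subgroupOf F).map f ≠ ⊥ := by
    rw [Ne, Subgroup.map_eq_bot_iff, QuotientGroup.ker_mk']
    exact fun hle => hC fun c hc => hle (show (⟨c, hc.1⟩ : F) ∈ C.subgroupOf F from hc)
  haveI : Group.IsNilpotent (F ⧸ A.subgroupOf F) := Group.nilpotent_of_surjective f hfs
  obtain ⟨z, hz, hz1⟩ := ((C.subgroupOf F).map f ⊓ Subgroup.center _).bot_or_exists_ne_one.resolve_left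
    (Struct.inf_center_ne_bot _ hne)
  -- the predicate: an element of `C`, central modulo `A`, outside `A`
  let P : S → Prop := fun c => c ∈ C ∧ c ∉ A ∧ ∀ g ∈ F, g * c * g⁻¹ * c⁻¹ ∈ A
  obtain ⟨⟨c, hcC, rfl⟩, hzc⟩ := hz
  have hP0 : P c := by
    refine ⟨hcC, fun h => hz1 ((QuotientGroup.eq_one_iff c).mpr h), fun g hg => ?_⟩
    have h := Subgroup.mem_center_iff.mp hzc (f ⟨g, hg⟩)
    have h2 : f (⟨g, hg⟩ * c * ⟨g, hg⟩⁻¹ * c⁻¹) = 1 := by
      rw [map_mul, map_mul, map_mul, map_inv, map_inv, h, mul_inv_cancel_right, mul_inv_cancel]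
    have h3 := (QuotientGroup.eq_one_iff ((⟨g, hg⟩ : F) * c * (⟨g, hg⟩ : F)⁻¹ * c⁻¹)).mp h2
    exact h3
  -- refine `c` by the elements of `I`
  haveI : Fintype I := Fintype.ofFinite I
  have hPconj : ∀ x, P x → ∀ s ∈ I, P (s * x * s⁻¹) := by
    rintro x ⟨hxC, hxA, hxF⟩ s hs
    refine ⟨⟨Subgroup.Normal.conj_mem inferInstance x hxC.1 s, Subgroup.mem_centralizer_iff.mpr fun a ha => ?_⟩,
      fun h => hxA ((Subgroup.mem_normalizer_iff.mp (hIA hs) x).mpr h), fun g hg => ?_⟩
    · have ha' : s⁻¹ * a * s ∈ A := (Subgroup.mem_normalizer_iff''.mp (hIA hs) a).mp ha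
      have h := Subgroup.mem_centralizer_iff.mp hxC.2 _ ha'
      calc a * (s * x * s⁻¹) = s * ((s⁻¹ * a * s) * x) * s⁻¹ := by group
        _ = s * (x * (s⁻¹ * a * s)) * s⁻¹ := by rw [h]
        _ = s * x * s⁻¹ * a := by group
    · have h := hxF _ (Subgroup.Normal.conj_mem' inferInstance g hg s)
      have h2 := (Subgroup.mem_normalizer_iff.mp (hIA hs) _).mp h
      convert h2 using 1
      group
  have key : ∀ T : Finset I, ∃ x, P x ∧ ∀ s ∈ T, x⁻¹ * ((s : S) * x * (s : S)⁻¹) ∈ A ∨ x * ((s : S) * x * (s : S)⁻¹) ∈ A := by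
    classical
    intro T
    induction T using Finset.induction_on with
    | empty => exact ⟨c, hP0, fun s hs => absurd hs (Finset.notMem_empty s)⟩
    | insert s T hsT ih =>
      obtain ⟨x, hx, hT⟩ := ih
      set y := (s : S) * x * (s : S)⁻¹ with hy
      by_cases hxy : x * y ∈ A
      · refine ⟨x, hx, fun t ht => ?_⟩
        rcases Finset.mem_insert.mp ht with rfl | ht
        · exact Or.inr hxy
        · exact hT t ht
      have hy' : P y := hPconj x hx s s.2
      have hnew : P (x * y) := by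
        refine ⟨C.mul_mem hx.1 hy'.1, hxy, fun g hg => ?_⟩
        have h1 := hx.2.2 g hg
        have h2 := (Subgroup.mem_normalizer_iff.mp (hFA (hx.1.1)) _).mp (hy'.2.2 g hg)
        have h3 := A.mul_mem h1 h2
        convert h3 using 1
        group
      -- `x` and `y` commute modulo `A`
      have hcomm : x * y * x⁻¹ * y⁻¹ ∈ A := hy'.2.2 x hx.1.1
      refine ⟨x * y, hnew, fun t ht => ?_⟩
      rcases Finset.mem_insert.mp ht with rfl | ht
      · left
        have hyy : (t : S) * y * (t : S)⁻¹ = x := by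
          rw [hy, inv_eq_self I hI t.2]
          calc (t : S) * ((t : S) * x * t) * t = ((t : S) * t) * x * ((t : S) * t) := by group
            _ = x := by rw [sq_one I hI t.2, one_mul, mul_one]
        have h3 : (t : S) * (x * y) * (t : S)⁻¹ = y * x := by
          calc (t : S) * (x * y) * (t : S)⁻¹ = ((t : S) * x * (t : S)⁻¹) * ((t : S) * y * (t : S)⁻¹) := by group
            _ = y * x := by rw [hyy]
        rw [h3]
        have hmem : y * x ∈ F := F.mul_mem hy'.1.1 hx.1.1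
        have h4 : (x * y)⁻¹ * (y * x) = (x * y)⁻¹ * (x * y * x⁻¹ * y⁻¹)⁻¹ * (x * y) := by group
        rw [h4]
        exact (Subgroup.mem_normalizer_iff''.mp (hFA (F.mul_mem hx.1.1 hy'.1.1)) _).mp (A.inv_mem hcomm)
      · have hts : (t : S) * y * (t : S)⁻¹ = (s : S) * ((t : S) * x * (t : S)⁻¹) * (s : S)⁻¹ := by
          have h1 : (t : S) * s = s * t := congrArg Subtype.val (hI.1.is_comm.comm t s)
          rw [hy]
          calc (t : S) * ((s : S) * x * (s : S)⁻¹) * (t : S)⁻¹ = ((t : S) * s) * x * ((t : S) * s)⁻¹ := by group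
            _ = ((s : S) * t) * x * ((s : S) * t)⁻¹ := by rw [h1]
            _ = _ := by group
        set x' := (t : S) * x * (t : S)⁻¹ with hx'
        have hxy' : (t : S) * (x * y) * (t : S)⁻¹ = x' * ((s : S) * x' * (s : S)⁻¹) := by
          rw [← hts, hx']; group
        rw [hxy']
        have hs' : ∀ a ∈ A, (s : S) * a * (s : S)⁻¹ ∈ A := fun a ha =>
          (Subgroup.mem_normalizer_iff.mp (hIA s.2) a).mp ha
        have hCA : ∀ a ∈ A, ∀ d ∈ C, a * d = d * a := fun a ha d hd => Subgroup.mem_centralizer_iff.mp hd.2 a ha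
        rcases hT t ht with h | h
        · left
          have h5 : x' = x * (x⁻¹ * x') := by group
          set a := x⁻¹ * x' with ha
          rw [h5, show (s : S) * (x * a) * (s : S)⁻¹ = y * ((s : S) * a * (s : S)⁻¹) by rw [hy]; group,
            show x * a * (y * ((s : S) * a * (s : S)⁻¹)) = x * (a * y) * ((s : S) * a * (s : S)⁻¹) by group,
            hCA a h y hy'.1, show (x * y)⁻¹ * (x * (y * a) * ((s : S) * a * (s : S)⁻¹)) = a * ((s : S) * a * (s : S)⁻¹) by group]
          exact A.mul_mem h (hs' a h)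
        · right
          have h5 : x' = x⁻¹ * (x * x') := by group
          set a := x * x' with ha
          rw [h5, show (s : S) * (x⁻¹ * a) * (s : S)⁻¹ = y⁻¹ * ((s : S) * a * (s : S)⁻¹) by rw [hy]; group,
            show x * y * (x⁻¹ * a * (y⁻¹ * ((s : S) * a * (s : S)⁻¹))) = x * y * x⁻¹ * (a * y⁻¹) * ((s : S) * a * (s : S)⁻¹) by group,
            hCA a h y⁻¹ (C.inv_mem hy'.1),
            show x * y * x⁻¹ * (y⁻¹ * a) * ((s : S) * a * (s : S)⁻¹) = (x * y * x⁻¹ * y⁻¹) * a * ((s : S) * a * (s : S)⁻¹) by group]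
          exact A.mul_mem (A.mul_mem hcomm h) (hs' a h)
  obtain ⟨x, ⟨hxC, hxA, hxF⟩, hxI⟩ := key Finset.univ
  set B := A ⊔ Subgroup.zpowers x with hB
  have hxB : x ∈ B := Subgroup.mem_sup_right (Subgroup.mem_zpowers x)
  have hnormB : ∀ g : S, g ∈ Subgroup.normalizer (A : Set S) →
      (g * x * g⁻¹ ∈ B) → g ∈ Subgroup.normalizer (B : Set S) := by
    intro g hgA hgx
    refine Subgroup.mem_normalizer_fintype fun b hb => ?_
    have hle : B ≤ B.comap (MulAut.conj g).toMonoidHom := sup_le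
      (fun a ha => Subgroup.mem_sup_left ((Subgroup.mem_normalizer_iff.mp hgA a).mp ha))
      (Subgroup.zpowers_le.mpr hgx)
    exact hle hb
  have hBF : F ≤ Subgroup.normalizer (B : Set S) := fun g hg => hnormB g (hFA hg) (by
    have h := B.mul_mem (Subgroup.mem_sup_left (hxF g hg)) hxB
    simpa using h)
  have hBI : I ≤ Subgroup.normalizer (B : Set S) := fun s hs => hnormB s (hIA hs) (by
    rcases hxI ⟨s, hs⟩ (Finset.mem_univ _) with h | h
    · have h' := B.mul_mem hxB (Subgroup.mem_sup_left h)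
      simpa using h'
    · have h' := B.mul_mem (B.inv_mem hxB) (Subgroup.mem_sup_left h)
      simpa using h')
  have hBab : IsMulCommutative B := by
    have hle : B ≤ Subgroup.centralizer (B : Set S) := by
      refine sup_le ?_ (Subgroup.zpowers_le.mpr ?_)
      · rw [Subgroup.le_centralizer_iff]
        exact sup_le (fun a ha => Subgroup.mem_centralizer_iff.mpr fun b hb =>
          congrArg Subtype.val (mul_comm' (⟨b, hb⟩ : A) ⟨a, ha⟩)) (Subgroup.zpowers_le.mpr hxC.2)
      · have h1 : B ≤ Subgroup.centralizer ({x} : Set S) := sup_le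
          (fun a ha => Subgroup.mem_centralizer_singleton_iff.mpr (Subgroup.mem_centralizer_iff.mp hxC.2 a ha))
          (Subgroup.zpowers_le.mpr (Subgroup.mem_centralizer_singleton_iff.mpr rfl))
        exact Subgroup.mem_centralizer_iff.mpr fun b hb => Subgroup.mem_centralizer_singleton_iff.mp (h1 hb)
    exact ⟨⟨fun u v => Subtype.ext (Subgroup.mem_centralizer_iff.mp (hle v.2) u u.2)⟩⟩
  exact hxA (hmax ⟨sup_le hAF (Subgroup.zpowers_le.mpr hxC.1), hBab, hBF, hBI⟩ le_sup_left hxB)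

theorem exists_lines [Finite S] [Group.IsSolvable S] (hF : Odd (Nat.card ↥(Cfsg.fittingSubgroup S)))
    (I : Subgroup S) (hI : Cfsg.IsElementaryAbelian 2 I) (n : ℕ) (hIn : Nat.card ↥I = 2 ^ n) :
    ∃ f : Fin n → Subgroup S, (∀ i, (Nat.card ↥(f i)).Prime) ∧ (∀ i, f i ≤ Cfsg.fittingSubgroup S) ∧
      (∀ i, I ≤ Subgroup.normalizer ((f i) : Set S)) ∧ (∀ i j, i ≠ j → ∀ a ∈ f i, ∀ b ∈ f j, a * b = b * a) ∧
      Nat.card ↥(⨆ i, f i) = ∏ i, Nat.card ↥(f i) ∧ I ⊓ Subgroup.centralizer ((⨆ i, f i : Subgroup S) : Set S) = ⊥ := by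
  set F := Cfsg.fittingSubgroup S with hFdef
  haveI : F.Normal := Components.fittingSubgroup_normal
  haveI : Group.IsNilpotent F := Components.fittingSubgroup_isNilpotent
  obtain ⟨A, hAF, hAab, hFA, hIA, hC⟩ := exists_selfcentralizing F I hI hF
  haveI := hAab
  have hoddA : Odd (Nat.card A) := hF.of_dvd_nat (Subgroup.card_dvd_of_le hAF)
  have hfaith : I ⊓ Subgroup.centralizer (A : Set S) = ⊥ := by
    rw [eq_bot_iff]
    rintro i ⟨hi, hic⟩
    have hiF : i ∈ Subgroup.centralizer (F : Set S) := Subgroup.mem_centralizer_iff.mpr fun g hg => by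
      set d := g⁻¹ * (i * g * i⁻¹) with hd
      have hdF : d ∈ F := F.mul_mem (F.inv_mem hg) (Subgroup.Normal.conj_mem inferInstance g hg i)
      have hdA : d ∈ A := hC ⟨hdF, Subgroup.mem_centralizer_iff.mpr fun a ha => by
        have ha' : g * a * g⁻¹ ∈ A := (Subgroup.mem_normalizer_iff.mp (hFA hg) a).mp ha
        have h1 : g * a * g⁻¹ * i = i * (g * a * g⁻¹) := Subgroup.mem_centralizer_iff.mp hic _ ha'
        have h2 : a * i = i * a := Subgroup.mem_centralizer_iff.mp hic a ha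
        have h4 : a * i⁻¹ = i⁻¹ * a := (show Commute a i from h2).inv_right.eq
        rw [hd]
        calc a * (g⁻¹ * (i * g * i⁻¹)) = g⁻¹ * ((g * a * g⁻¹) * i) * g * i⁻¹ := by group
          _ = g⁻¹ * (i * (g * a * g⁻¹)) * g * i⁻¹ := by rw [h1]
          _ = g⁻¹ * i * g * (a * i⁻¹) := by group
          _ = g⁻¹ * (i * g * i⁻¹) * a := by rw [h4]; group⟩
      have hdi : i * d * i⁻¹ = d := by rw [← Subgroup.mem_centralizer_iff.mp hic d hdA, mul_inv_cancel_right]
      have hig : i * g * i⁻¹ = g * d := by rw [hd]; group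
      have h3 : g = g * d * d := by
        calc g = i * (i * g * i⁻¹) * i⁻¹ := by
              rw [inv_eq_self I hI hi]
              calc g = (i * i) * g * (i * i) := by rw [sq_one I hI hi, one_mul, mul_one]
                _ = _ := by group
          _ = i * (g * d) * i⁻¹ := by rw [hig]
          _ = (i * g * i⁻¹) * (i * d * i⁻¹) := by group
          _ = g * d * d := by rw [hdi, hig]
      have hd1 : d = 1 := by
        by_contra hne
        refine pow_ne_inv hne (hoddA.of_dvd_nat (A.orderOf_dvd_natCard hdA)) ?_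
        exact eq_inv_of_mul_eq_one_left (by rwa [mul_assoc, left_eq_mul] at h3)
      rw [hd1, mul_one] at hig
      exact (mul_inv_eq_iff_eq_mul.mp hig).symm
    have h1 := centralizer_fitting_le hiF
    rw [Subgroup.mem_bot]
    by_contra hne
    have h2 : orderOf i = 2 := orderOf_eq_prime (hI.2 i hi) hne
    have h5 := hF.of_dvd_nat (Subgroup.orderOf_dvd_natCard _ h1)
    rw [h2] at h5
    exact absurd h5 (by decide)
  obtain ⟨f, h1, h2, h3, h4, h5, -⟩ := exists_lines_aux A I hI hIA hoddA n I le_rfl hIn hfaith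
  exact ⟨f, h1, fun i => (h2 i).trans hAF, h3, fun i j _ a ha b hb =>
    congrArg Subtype.val (mul_comm' (⟨a, h2 i ha⟩ : A) ⟨b, h2 j hb⟩), h4, h5⟩

end CfsgLib.Hall.EvenAction
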