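/-
Frobenius' theorem on the number of solutions of `x ^ n = 1`, and the solvable case of
Frobenius' conjecture.
-/
import Cfsg.Agent.Hall.Basic

set_option autoImplicit false
set_option linter.style.haveILetI false

namespace CfsgLib.Hall

theorem pow_eq_one_iff_gcd {G : Type*} [Group G] [Finite G] (x : G) (n : ℕ) :
    x ^ n = 1 ↔ x ^ n.gcd (Nat.card G) = 1 :=
  ⟨fun h => pow_gcd_eq_one.mpr ⟨h, pow_card_eq_one'⟩, fun h => by
    obtain ⟨c, hc⟩ := Nat.gcd_dvd_left n (Nat.card G)
    rw [hc, pow_mul, h, one_pow]⟩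

theorem card_commute_pow_eq_card_quotient {G : Type*} [Group G] [Finite G] (u : G) (m : ℕ)
    (hco : (orderOf u).Coprime m)
    [((Subgroup.zpowers u).subgroupOf (Subgroup.centralizer {u})).Normal] :
    Nat.card {v : G // v ^ m = 1 ∧ Commute u v} =
      Nat.card {w : Subgroup.centralizer {u} ⧸
        (Subgroup.zpowers u).subgroupOf (Subgroup.centralizer {u}) // w ^ m = 1} := by
  set C := Subgroup.centralizer {u} with hC
  set Z := (Subgroup.zpowers u).subgroupOf C with hZ
  have hmem : ∀ {v : G}, v ∈ C ↔ Commute u v := fun {v} => by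
    rw [hC, Subgroup.mem_centralizer_singleton_iff]; exact ⟨fun h => h.symm, fun h => h.symm⟩
  have huC : Subgroup.zpowers u ≤ C := Subgroup.zpowers_le.mpr (hmem.mpr (Commute.refl u))
  have hZc : (Nat.card Z).Coprime m := by
    rw [hZ, Nat.card_congr (Subgroup.subgroupOfEquivOfLe huC).toEquiv, Nat.card_zpowers]; exact hco
  refine Nat.card_congr (Equiv.ofBijective (fun v => ⟨QuotientGroup.mk' Z ⟨v.1, hmem.mpr v.2.2⟩, by
    rw [← map_pow, show (⟨v.1, hmem.mpr v.2.2⟩ : C) ^ m = 1 from Subtype.ext v.2.1, map_one]⟩)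
    ⟨?_, ?_⟩)
  · rintro ⟨v, hv, hvc⟩ ⟨v', hv', hvc'⟩ h
    have h1 : QuotientGroup.mk' Z ⟨v, hmem.mpr hvc⟩ = QuotientGroup.mk' Z ⟨v', hmem.mpr hvc'⟩ :=
      congrArg Subtype.val h
    obtain ⟨z, hz, hz'⟩ := (QuotientGroup.mk'_eq_mk' Z).mp h1
    have hzu : (z : G) ∈ Subgroup.zpowers u := hz
    have hcv : Commute v (z : G) := by
      obtain ⟨k, hk⟩ := Subgroup.mem_zpowers_iff.mp hzu
      rw [← hk]; exact (hvc.symm).zpow_right k
    have hvz : v * (z : G) = v' := congrArg Subtype.val hz'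
    have hzm : (z : G) ^ m = 1 := by
      have := hcv.mul_pow m
      rw [hvz, hv, hv', one_mul] at this
      exact this.symm
    have hz1 : z = 1 := by
      have h2 : (⟨z, hz⟩ : Z) ^ m = 1 := Subtype.ext (Subtype.ext hzm)
      have h3 : (⟨z, hz⟩ : Z) = 1 := (powCoprime hZc).injective (by simpa using h2)
      exact congrArg Subtype.val h3
    subst hz1
    exact Subtype.ext (by simpa using hvz)
  · rintro ⟨w, hw⟩
    obtain ⟨v, rfl⟩ := QuotientGroup.mk'_surjective Z w
    have hvm : v ^ m ∈ Z := by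
      rw [← map_pow] at hw
      exact (QuotientGroup.eq_one_iff _).mp hw
    obtain ⟨z, hz⟩ := (powCoprime hZc).surjective (⟨v ^ m, hvm⟩ : Z)⁻¹
    have hzu : ((z : C) : G) ∈ Subgroup.zpowers u := z.2
    have hcv : Commute v (z : C) := by
      obtain ⟨k, hk⟩ := Subgroup.mem_zpowers_iff.mp hzu
      apply Subtype.ext
      change (v : G) * ((z : C) : G) = ((z : C) : G) * (v : G)
      rw [← hk]; exact ((hmem.mp v.2).symm).zpow_right k
    have hpow : (v * (z : C)) ^ m = 1 := by
      rw [hcv.mul_pow]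
      have : ((z : C)) ^ m = (v ^ m)⁻¹ := by
        have := congrArg Subtype.val hz
        simpa using this
      rw [this, mul_inv_cancel]
    refine ⟨⟨(v * (z : C) : C), congrArg Subtype.val hpow, hmem.mp (v * (z : C)).2⟩, Subtype.ext ?_⟩
    exact QuotientGroup.mk_mul_of_mem v z.2

theorem frobenius_step {G : Type*} [Group G] [Finite G] {p : ℕ} [Fact p.Prime] (m e : ℕ)
    (hpm : ¬ p ∣ m) (hd : p ^ (e + 1) * m ∣ Nat.card G)
    (ih : ∀ u : G, orderOf u = p ^ (e + 1) →
      m.gcd (Nat.card (Subgroup.centralizer {u}) / p ^ (e + 1)) ∣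
        Nat.card {v : G // v ^ m = 1 ∧ Commute u v}) :
    p ^ e * m ∣ Nat.card {x : G // x ^ (p ^ (e + 1) * m) = 1 ∧ x ^ (p ^ e * m) ≠ 1} := by
  classical
  haveI : Fintype G := Fintype.ofFinite G
  have hp : p.Prime := Fact.out
  have hpa : (p ^ (e + 1)).Coprime m := Nat.Coprime.pow_left _ ((hp.coprime_iff_not_dvd).mpr hpm)
  set U : Finset G := Finset.univ.filter fun u => orderOf u = p ^ (e + 1) with hU
  set c : G → ℕ := fun u => Nat.card {v : G // v ^ m = 1 ∧ Commute u v} with hc
  have hcount : Nat.card {x : G // x ^ (p ^ (e + 1) * m) = 1 ∧ x ^ (p ^ e * m) ≠ 1} = ∑ u ∈ U, c u := by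
    rw [← Finset.sum_coe_sort U, ← Nat.card_sigma]
    refine (Nat.card_congr (Equiv.ofBijective
      (fun q => (⟨q.1.1 * q.2.1, ?_, ?_⟩ : {x : G // x ^ (p ^ (e + 1) * m) = 1 ∧ x ^ (p ^ e * m) ≠ 1}))
      ⟨?_, ?_⟩)).symm
    · obtain ⟨⟨u, hu⟩, v, hv, huv⟩ := q
      have hu' : orderOf u = p ^ (e + 1) := (Finset.mem_filter.mp hu).2
      simp only
      rw [huv.mul_pow, pow_mul, ← hu', pow_orderOf_eq_one, one_pow, mul_comm, pow_mul, hv, one_pow,
        one_mul]
    · obtain ⟨⟨u, hu⟩, v, hv, huv⟩ := q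
      have hu' : orderOf u = p ^ (e + 1) := (Finset.mem_filter.mp hu).2
      simp only
      rw [huv.mul_pow, show v ^ (p ^ e * m) = 1 by rw [mul_comm, pow_mul, hv, one_pow], mul_one]
      intro h
      have := orderOf_dvd_of_pow_eq_one h
      rw [hu'] at this
      have h2 := (Nat.pow_dvd_pow_iff_le_right hp.one_lt).mp (hpa.dvd_of_dvd_mul_right this)
      omega
    · rintro ⟨⟨u, hu⟩, v, hv, huv⟩ ⟨⟨u', hu0⟩, v', hv', huv'⟩ h
      have hu' : orderOf u = p ^ (e + 1) := (Finset.mem_filter.mp hu).2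
      have hu'' : orderOf u' = p ^ (e + 1) := (Finset.mem_filter.mp hu0).2
      have h1 : u * v = u' * v' := congrArg Subtype.val h
      have huu : u = u' := by
        have h2 : u ^ m = u' ^ m := by
          have := congrArg (· ^ m) h1
          simpa [huv.mul_pow, huv'.mul_pow, hv, hv'] using this
        have e1 : (⟨u, hu'⟩ : {g : G // orderOf g = p ^ (e + 1)}).1 ∈ Subgroup.zpowers u :=
          Subgroup.mem_zpowers u
        have key : ∀ w : G, orderOf w = p ^ (e + 1) → ∀ s t : ℤ,
            (m : ℤ) * s + (p ^ (e + 1) : ℕ) * t = 1 → w = (w ^ m) ^ s := by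
          intro w hw s t hst
          conv_lhs => rw [← zpow_one w, ← hst]
          rw [zpow_add, zpow_mul, zpow_mul, zpow_natCast, zpow_natCast, ← hw, pow_orderOf_eq_one,
            one_zpow, mul_one]
        obtain ⟨s, t, hst⟩ := Int.isCoprime_iff_gcd_eq_one.mpr (show Int.gcd (m : ℤ) (p ^ (e + 1) : ℕ) = 1 from hpa.symm)
        rw [key u hu' s t (by linarith), key u' hu'' s t (by linarith), h2]
      subst huu
      have hvv : v = v' := mul_left_cancel h1
      subst hvv
      rfl
    · rintro ⟨x, hx, hxn⟩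
      obtain ⟨s, t, hst⟩ := Int.isCoprime_iff_gcd_eq_one.mpr (show Int.gcd (m : ℤ) (p ^ (e + 1) : ℕ) = 1 from hpa.symm)
      have hxu : (x ^ (s * m)) ^ (p ^ (e + 1)) = 1 := by
        rw [← zpow_natCast, ← zpow_mul, mul_assoc, ← Nat.cast_mul, mul_comm m, mul_comm, zpow_mul,
          zpow_natCast, hx, one_zpow]
      have hxv : (x ^ (t * (p ^ (e + 1) : ℕ))) ^ m = 1 := by
        rw [← zpow_natCast, ← zpow_mul, mul_assoc, ← Nat.cast_mul, mul_comm, zpow_mul,
          zpow_natCast, hx, one_zpow]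
      have hxeq : x ^ (s * m) * x ^ (t * (p ^ (e + 1) : ℕ)) = x := by
        rw [← zpow_add, hst, zpow_one]
      have hcomm : Commute (x ^ (s * m)) (x ^ (t * (p ^ (e + 1) : ℕ))) :=
        (Commute.refl x).zpow_zpow _ _
      have hord : orderOf (x ^ (s * m)) = p ^ (e + 1) := by
        refine orderOf_eq_prime_pow (fun h => hxn ?_) hxu
        rw [← hxeq, hcomm.mul_pow, pow_mul, h, one_pow, one_mul, mul_comm (p ^ e) m, pow_mul, hxv, one_pow]
      exact ⟨⟨⟨x ^ (s * m), Finset.mem_filter.mpr ⟨Finset.mem_univ _, hord⟩⟩, _, hxv, hcomm⟩,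
        Subtype.ext hxeq⟩
  rw [hcount]
  refine Nat.Coprime.mul_dvd_of_dvd_of_dvd (Nat.Coprime.pow_left _ ((hp.coprime_iff_not_dvd).mpr hpm)) ?_ ?_
  · rw [← Finset.sum_fiberwise_of_maps_to (g := Subgroup.zpowers) (t := U.image Subgroup.zpowers)
      fun u hu => Finset.mem_image_of_mem _ hu]
    refine Finset.dvd_sum fun K hK => ?_
    obtain ⟨u, hu, rfl⟩ := Finset.mem_image.mp hK
    have hu' : orderOf u = p ^ (e + 1) := (Finset.mem_filter.mp hu).2
    have hconst : ∀ w ∈ U.filter (fun w => Subgroup.zpowers w = Subgroup.zpowers u), c w = c u := by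
      intro w hw
      have hwu := (Finset.mem_filter.mp hw).2
      refine Nat.card_congr (Equiv.subtypeEquivRight fun v => and_congr_right fun _ => ?_)
      obtain ⟨i, hi⟩ := Subgroup.mem_zpowers_iff.mp (hwu ▸ Subgroup.mem_zpowers w)
      obtain ⟨j, hj⟩ := Subgroup.mem_zpowers_iff.mp (hwu ▸ Subgroup.mem_zpowers u)
      exact ⟨fun h => by rw [← hj]; exact h.zpow_left j, fun h => by rw [← hi]; exact h.zpow_left i⟩
    rw [Finset.sum_congr rfl hconst, Finset.sum_const, smul_eq_mul]
    refine Dvd.dvd.mul_right ?_ _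
    have htot : (U.filter (fun w => Subgroup.zpowers w = Subgroup.zpowers u)).card =
        Nat.totient (p ^ (e + 1)) := by
      rw [← IsCyclic.card_orderOf_eq_totient (α := Subgroup.zpowers u)
        (d := p ^ (e + 1)) (by rw [Fintype.card_zpowers, hu'])]
      refine Finset.card_bij (fun w hw => ⟨w, (Finset.mem_filter.mp hw).2 ▸ Subgroup.mem_zpowers w⟩)
        (fun w hw => ?_) (fun a _ b _ hab => congrArg Subtype.val hab) (fun w hw => ?_)
      · simp only [Finset.mem_filter, Finset.mem_univ, true_and]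
        rw [Subgroup.orderOf_mk]
        exact (Finset.mem_filter.mp (Finset.mem_filter.mp hw).1).2
      · have hwo : orderOf (w : G) = p ^ (e + 1) := by
          rw [Subgroup.orderOf_coe]; exact (Finset.mem_filter.mp hw).2
        refine ⟨w, Finset.mem_filter.mpr ⟨Finset.mem_filter.mpr ⟨Finset.mem_univ _, hwo⟩, ?_⟩, rfl⟩
        exact Subgroup.eq_of_le_of_card_ge (Subgroup.zpowers_le.mpr w.2)
          (by rw [Nat.card_zpowers, Nat.card_zpowers, hwo, hu'])
    rw [htot, Nat.totient_prime_pow hp e.succ_pos]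
    simp
  · rw [← Finset.sum_fiberwise_of_maps_to (g := ConjClasses.mk) (t := U.image ConjClasses.mk)
      fun u hu => Finset.mem_image_of_mem _ hu]
    refine Finset.dvd_sum fun K hK => ?_
    obtain ⟨u, hu, rfl⟩ := Finset.mem_image.mp hK
    have hu' : orderOf u = p ^ (e + 1) := (Finset.mem_filter.mp hu).2
    have hconst : ∀ w ∈ U.filter (fun w => ConjClasses.mk w = ConjClasses.mk u), c w = c u := by
      intro w hw
      obtain ⟨g, hg⟩ := isConj_iff.mp (ConjClasses.mk_eq_mk_iff_isConj.mp (Finset.mem_filter.mp hw).2)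
      refine Nat.card_congr ((MulAut.conj g).toEquiv.subtypeEquiv fun v => ?_)
      change _ ↔ (MulAut.conj g v) ^ m = 1 ∧ Commute u (MulAut.conj g v)
      rw [← hg, ← map_pow, MulEquiv.map_eq_one_iff, ← MulAut.conj_apply g w]
      refine and_congr_right fun _ => ⟨fun h => h.map _, fun h => ?_⟩
      have := h.map (MulAut.conj g).symm
      simpa only [MulEquiv.symm_apply_apply] using this
    rw [Finset.sum_congr rfl hconst, Finset.sum_const, smul_eq_mul]
    have hcl : (U.filter (fun w => ConjClasses.mk w = ConjClasses.mk u)).card =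
        (Subgroup.centralizer {u}).index := by
      have hset : (U.filter (fun w => ConjClasses.mk w = ConjClasses.mk u) : Set G) =
          (ConjClasses.mk u).carrier := by
        ext w
        simp only [Finset.coe_filter, Set.mem_ofPred_eq, ConjClasses.mem_carrier_iff_mk_eq]
        refine ⟨fun h => h.2, fun h => ⟨Finset.mem_filter.mpr ⟨Finset.mem_univ _, ?_⟩, h⟩⟩
        obtain ⟨g, hg⟩ := isConj_iff.mp (ConjClasses.mk_eq_mk_iff_isConj.mp h)
        rw [← hu', ← hg, ← MulAut.conj_apply g w, MulEquiv.orderOf_eq]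
      rw [← Set.ncard_coe_finset, hset, ← Nat.card_coe_set_eq, ← ConjAct.orbit_eq_carrier_conjClasses,
        Subgroup.centralizer_eq_comap_stabilizer]
      refine (Eq.trans ?_ (Subgroup.index_comap_of_surjective _ ConjAct.toConjAct.surjective).symm)
      rw [MulAction.index_stabilizer, Nat.card_coe_set_eq]
    rw [hcl]
    have hk : p ^ (e + 1) ∣ Nat.card (Subgroup.centralizer {u}) := by
      rw [← hu']
      exact (Subgroup.centralizer {u}).orderOf_dvd_natCard
        (Subgroup.mem_centralizer_singleton_iff.mpr rfl)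
    refine dvd_trans ?_ (Nat.mul_dvd_mul_left _ (ih u hu'))
    rw [← Nat.gcd_mul_left]
    refine Nat.dvd_gcd (dvd_mul_left _ _) ?_
    rw [← Nat.mul_div_assoc _ hk, Subgroup.index_mul_card]
    exact (Nat.dvd_div_iff_mul_dvd ((dvd_mul_right _ _).trans hd)).mpr hd

/-- **Frobenius' theorem**: if `n` divides `|G|` then `n` divides the number of solutions of `x ^ n = 1`. -/
theorem frobenius_count {G : Type*} [Group G] [Finite G] {n : ℕ} (hn : n ∣ Nat.card G) :
    n ∣ Nat.card {x : G // x ^ n = 1} := by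
  induction hk : Nat.card G using Nat.strong_induction_on generalizing G n with
  | _ k IH =>
  subst hk
  induction hj : Nat.card G / n using Nat.strong_induction_on generalizing n with
  | _ j IHn =>
  have hn0 : 0 < n := Nat.pos_of_dvd_of_pos hn Nat.card_pos
  rcases eq_or_ne n (Nat.card G) with h | h
  · rw [h, Nat.card_congr (Equiv.subtypeUnivEquiv fun x => pow_card_eq_one')]
  · obtain ⟨q, hq⟩ := hn
    have hq1 : q ≠ 1 := by rintro rfl; exact h (by simpa using hq.symm)
    have hp := Nat.minFac_prime hq1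
    set p := q.minFac
    haveI := Fact.mk hp
    have hnp : n * p ∣ Nat.card G := hq ▸ Nat.mul_dvd_mul_left n q.minFac_dvd
    obtain ⟨e, m, hpm, hem⟩ : ∃ e m, ¬ p ∣ m ∧ n = p ^ e * m :=
      Nat.exists_eq_pow_mul_and_not_dvd hn0.ne' p hp.ne_one
    have hpn : p ^ (e + 1) * m = n * p := by rw [hem, pow_succ]; ring
    have h1 : n ∣ Nat.card {x : G // x ^ (n * p) = 1} := by
      refine dvd_trans (dvd_mul_right n p) (IHn _ ?_ hnp rfl)
      rw [← hj, ← Nat.div_div_eq_div_mul]
      exact Nat.div_lt_self (Nat.div_pos (Nat.le_of_dvd Nat.card_pos ⟨q, hq⟩) hn0) hp.one_lt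
    have h2 := frobenius_step (G := G) m e hpm (hpn ▸ hnp) (fun u hu => by
      set C := Subgroup.centralizer {u}
      haveI : ((Subgroup.zpowers u).subgroupOf C).Normal := by
        refine ⟨fun a ha g => ?_⟩
        obtain ⟨k, hk⟩ := Subgroup.mem_zpowers_iff.mp (Subgroup.mem_subgroupOf.mp ha)
        have hga : Commute (g : G) (a : G) := by
          rw [← hk]; exact Commute.zpow_right (Subgroup.mem_centralizer_singleton_iff.mp g.2) k
        rw [show g * a * g⁻¹ = a from mul_inv_eq_of_eq_mul (Subtype.ext hga)]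
        exact ha
      rw [card_commute_pow_eq_card_quotient u m
        (hu ▸ Nat.Coprime.pow_left _ ((hp.coprime_iff_not_dvd).mpr hpm))]
      set Z := (Subgroup.zpowers u).subgroupOf C
      have hZ : Nat.card Z = p ^ (e + 1) := by
        rw [Nat.card_congr (Subgroup.subgroupOfEquivOfLe (Subgroup.zpowers_le.mpr
          (Subgroup.mem_centralizer_singleton_iff.mpr rfl))).toEquiv, Nat.card_zpowers, hu]
      have hcq : Nat.card (C ⧸ Z) = Nat.card C / p ^ (e + 1) := by
        rw [← hZ, Z.card_eq_card_quotient_mul_card_subgroup, Nat.mul_div_cancel _ Nat.card_pos]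
      rw [← hcq, Nat.card_congr (Equiv.subtypeEquivRight fun w => pow_eq_one_iff_gcd w m)]
      refine IH _ ?_ (Nat.gcd_dvd_right _ _) rfl
      rw [hcq]
      refine lt_of_lt_of_le (Nat.div_lt_self Nat.card_pos ?_) (Subgroup.card_le_card_group C)
      exact Nat.one_lt_pow e.succ_ne_zero hp.one_lt)
    rw [hpn, ← hem] at h2
    have hsum : Nat.card {x : G // x ^ (n * p) = 1} = Nat.card {x : G // x ^ n = 1} +
        Nat.card {x : G // x ^ (n * p) = 1 ∧ x ^ n ≠ 1} := by
      classical
      haveI : Fintype G := Fintype.ofFinite G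
      simp only [Nat.card_eq_fintype_card, Fintype.card_subtype]
      rw [← Finset.card_filter_add_card_filter_not (s := Finset.univ.filter fun x : G => x ^ (n * p) = 1)
        (p := fun x => x ^ n = 1)]
      congr 1 <;> rw [Finset.filter_filter]
      congr 1; ext x
      simp only [Finset.mem_filter, Finset.mem_univ, true_and, and_iff_right_iff_imp]
      exact fun hx => by rw [pow_mul, hx, one_pow]
    rw [hsum] at h1
    exact (Nat.dvd_add_left h2).mp h1

/-- **Frobenius' conjecture for solvable groups**. -/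
theorem frobenius_conjecture_solvable {G : Type*} [Group G] [Finite G] [Group.IsSolvable G] (n : ℕ)
    (hn : n ∣ Nat.card G) (hcount : Nat.card {x : G // x ^ n = 1} = n) :
    ∃ H : Subgroup G, H.Normal ∧ (H : Set G) = {x : G | x ^ n = 1} := by
  induction hk : Nat.card G using Nat.strong_induction_on generalizing G n with
  | _ k IH =>
  subst hk
  rcases subsingleton_or_nontrivial G with hsub | hnt
  · exact ⟨⊤, inferInstance, by ext x; simp [Subsingleton.elim x 1]⟩
  obtain ⟨N, hN⟩ := exists_isMinNormal (G := G)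
  haveI := hN.1
  obtain ⟨p, hp, -, hNp, hexp⟩ := hN.elementaryAbelian
  haveI := Fact.mk hp
  obtain ⟨i, hi⟩ := hNp.exists_card_eq
  have hi0 : i ≠ 0 := by
    rintro rfl; exact hN.2.1 (Subgroup.card_eq_one.mp (by simpa using hi))
  have hqc := N.card_eq_card_quotient_mul_card_subgroup
  rw [hi] at hqc
  have hqlt : Nat.card (G ⧸ N) < Nat.card G := by
    rw [hqc]; exact lt_mul_of_one_lt_right Nat.card_pos (Nat.one_lt_pow hi0 hp.one_lt)
  set f := QuotientGroup.mk' N
  have hpre : ∀ S : Set (G ⧸ N), Nat.card (f ⁻¹' S) = p ^ i * Nat.card S := fun S => by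
    rw [← hi]
    exact (Nat.card_congr (QuotientGroup.preimageMkEquivSubgroupProdSet N S)).trans (Nat.card_prod _ _)
  by_cases hpn : p ∣ n
  · -- `N` consists of solutions
    obtain ⟨j, n₁, hn₁, hjn⟩ := Nat.exists_eq_pow_mul_and_not_dvd
      (Nat.pos_of_dvd_of_pos hn Nat.card_pos).ne' p hp.ne_one
    have hj0 : j ≠ 0 := by rintro rfl; exact hn₁ (by simpa [hjn] using hpn)
    set m := p ^ (j - i) * n₁ with hm
    have hmq : m ∣ Nat.card (G ⧸ N) := by
      refine Nat.Coprime.mul_dvd_of_dvd_of_dvd (Nat.Coprime.pow_left _ ((hp.coprime_iff_not_dvd).mpr hn₁)) ?_ ?_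
      · by_cases hji : j ≤ i
        · simp [Nat.sub_eq_zero_of_le hji]
        · have h1 : p ^ (j - i) * p ^ i ∣ Nat.card (G ⧸ N) * p ^ i := by
            rw [← pow_add, Nat.sub_add_cancel (by omega), ← hqc]
            exact (Dvd.intro n₁ hjn.symm).trans hn
          exact Nat.dvd_of_mul_dvd_mul_right (pow_pos hp.pos i) h1
      · have h1 : n₁ ∣ Nat.card (G ⧸ N) * p ^ i := hqc ▸ (Dvd.intro_left _ hjn.symm).trans hn
        exact (Nat.Coprime.pow_right _ ((hp.coprime_iff_not_dvd).mpr hn₁).symm).dvd_of_dvd_mul_right h1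
    have hmp : m * p ∣ n := by
      rw [hm, hjn, show p ^ (j - i) * n₁ * p = p ^ (j - i + 1) * n₁ by ring]
      exact Nat.mul_dvd_mul_right (pow_dvd_pow p (by omega)) n₁
    have hsubset : f ⁻¹' {w | w ^ m = 1} ⊆ {x : G | x ^ n = 1} := by
      intro x hx
      have hxm : x ^ m ∈ N := by
        rw [Set.mem_preimage, Set.mem_ofPred_eq, ← map_pow] at hx
        exact (QuotientGroup.eq_one_iff _).mp hx
      obtain ⟨c, hc⟩ := hmp
      rw [Set.mem_ofPred_eq, hc, pow_mul, pow_mul, hexp _ hxm, one_pow]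
    have hc := Nat.card_mono (Set.toFinite _) hsubset
    rw [hpre] at hc
    obtain ⟨k, hk⟩ := frobenius_count hmq
    have hk' : Nat.card ({w | w ^ m = 1} : Set (G ⧸ N)) = m * k := hk
    haveI : Nonempty {w : G ⧸ N // w ^ m = 1} := ⟨⟨1, one_pow _⟩⟩
    have hk0 : 0 < k := Nat.pos_of_ne_zero fun h0 => by
      rw [h0, mul_zero] at hk
      exact (Nat.card_pos (α := {w : G ⧸ N // w ^ m = 1})).ne' hk
        |>.elim
    have hcn : Nat.card ({x : G | x ^ n = 1} : Set G) = n := hcount
    rw [hk', hcn] at hc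
    have hle : n ≤ p ^ i * m := by
      rw [hm, hjn, ← mul_assoc, ← pow_add]
      exact Nat.mul_le_mul_right _ (Nat.pow_le_pow_right hp.pos (by omega))
    have hk1 : k = 1 := by
      have hpos : 0 < p ^ i * m := Nat.mul_pos (pow_pos hp.pos i) (Nat.pos_of_dvd_of_pos hmq Nat.card_pos)
      have h2 : p ^ i * m * k ≤ p ^ i * m * 1 := by rw [mul_one, mul_assoc]; omega
      exact le_antisymm (Nat.le_of_mul_le_mul_left h2 hpos) hk0
    rw [hk1, mul_one] at hk hc
    obtain ⟨L, hL, hLs⟩ := IH _ hqlt m hmq hk rfl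
    haveI := hL
    refine ⟨L.comap f, inferInstance, ?_⟩
    rw [Subgroup.coe_comap, hLs]
    exact Set.eq_of_subset_of_ncard_le hsubset (by
      rw [← Nat.card_coe_set_eq, ← Nat.card_coe_set_eq, hpre, hcn]
      change _ ≤ p ^ i * Nat.card {w : G ⧸ N // w ^ m = 1}
      rw [hk]; omega)
  · -- each solution of the quotient lifts
    have hco : (p ^ i).Coprime n := Nat.Coprime.pow_left _ ((hp.coprime_iff_not_dvd).mpr hpn)
    have hnq : n ∣ Nat.card (G ⧸ N) := hco.symm.dvd_of_dvd_mul_right (hqc ▸ hn)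
    let φ : {x : G // x ^ n = 1} → {w : G ⧸ N // w ^ n = 1} :=
      fun x => ⟨f x.1, by rw [← map_pow, x.2, map_one]⟩
    have hφ : Function.Surjective φ := by
      rintro ⟨w, hw⟩
      obtain ⟨x, rfl⟩ := QuotientGroup.mk'_surjective N w
      have hxn : x ^ n ∈ N := by
        rw [← map_pow] at hw
        exact (QuotientGroup.eq_one_iff _).mp hw
      obtain ⟨s, t, hst⟩ := Int.isCoprime_iff_gcd_eq_one.mpr (show Int.gcd ((p ^ i : ℕ) : ℤ) n = 1 from hco)
      refine ⟨⟨x ^ (s * (p ^ i : ℕ)), ?_⟩, Subtype.ext ?_⟩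
      · rw [← zpow_natCast, ← zpow_mul, mul_assoc, mul_comm, mul_comm ((p ^ i : ℕ) : ℤ), mul_assoc,
          zpow_mul, zpow_natCast, zpow_mul, zpow_natCast]
        have : (x ^ n) ^ (p ^ i) = 1 := by
          have h1 := pow_card_eq_one' (x := (⟨_, hxn⟩ : N))
          rw [hi] at h1
          exact congrArg Subtype.val h1
        rw [this, one_zpow]
      · change f (x ^ (s * (p ^ i : ℕ))) = f x
        rw [eq_sub_iff_add_eq.mpr hst, zpow_sub, map_mul, zpow_one, map_inv, map_zpow, mul_comm, zpow_mul,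
          zpow_natCast, ← map_pow, show f (x ^ n) = 1 from hw ▸ map_pow f x n, one_zpow, inv_one, mul_one]
    have hc := Nat.card_le_card_of_surjective φ hφ
    rw [hcount] at hc
    have hk := frobenius_count hnq
    haveI : Nonempty {w : G ⧸ N // w ^ n = 1} := ⟨⟨1, one_pow _⟩⟩
    have hceq : Nat.card {w : G ⧸ N // w ^ n = 1} = n :=
      le_antisymm hc (Nat.le_of_dvd Nat.card_pos hk)
    obtain ⟨L, hL, hLs⟩ := IH _ hqlt n hnq hceq rfl
    haveI := hL
    set K := L.comap f with hK
    have hKc : Nat.card K = p ^ i * n := by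
      have h1 : Nat.card (f ⁻¹' (L : Set (G ⧸ N))) = p ^ i * n := by
        rw [hpre, hLs]; exact congrArg _ hceq
      exact h1
    have hNK : N ≤ K := fun x hx => by
      rw [hK, Subgroup.mem_comap, show f x = 1 from (QuotientGroup.eq_one_iff x).mpr hx]
      exact L.one_mem
    have hNKc : Nat.card (N.subgroupOf K) = p ^ i := by
      rw [Nat.card_congr (Subgroup.subgroupOfEquivOfLe hNK).toEquiv, hi]
    have hidx : (N.subgroupOf K).index = n := by
      have h1 := (N.subgroupOf K).card_mul_index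
      rw [hNKc, hKc] at h1
      exact Nat.eq_of_mul_eq_mul_left (pow_pos hp.pos i) h1
    obtain ⟨M, hM⟩ := Subgroup.exists_right_complement'_of_coprime (N := N.subgroupOf K)
      (by rw [hNKc, hidx]; exact hco)
    have hMc : Nat.card M = n := by
      have h1 := hM.card_mul_card
      rw [hNKc, hKc] at h1
      exact Nat.eq_of_mul_eq_mul_left (pow_pos hp.pos i) h1
    have hMs : ((M.map K.subtype : Subgroup G) : Set G) = {x : G | x ^ n = 1} := by
      refine Set.eq_of_subset_of_ncard_le (fun x hx => ?_) ?_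
      · obtain ⟨y, hy, rfl⟩ := hx
        have h1 := pow_card_eq_one' (x := (⟨y, hy⟩ : M))
        rw [hMc] at h1
        exact congrArg (fun z : M => ((z : K) : G)) h1
      · rw [← Nat.card_coe_set_eq, ← Nat.card_coe_set_eq]
        refine (le_of_eq (hcount : Nat.card ({x : G | x ^ n = 1} : Set G) = n)).trans (le_of_eq ?_)
        rw [← hMc, ← Subgroup.card_map_of_injective K.subtype_injective]
        rfl
    refine ⟨_, ⟨fun x hx g => ?_⟩, hMs⟩
    rw [← SetLike.mem_coe, hMs] at hx ⊢
    rw [Set.mem_ofPred_eq] at hx ⊢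
    rw [conj_pow, hx, mul_one, mul_inv_cancel]

end CfsgLib.Hall
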