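/-
An involution outside `O₂(G)` for a group of order 320 with extraspecial `O₂(G)` of minus type.
-/
import Cfsg.Agent.Hall.Basic
import Cfsg.Agent.Hall.Fitting
import Cfsg.Agent.CharBasics.Burnside
import Cfsg.Agent.SolvTwoCore.Basic

set_option autoImplicit false
set_option linter.style.haveILetI false

namespace CfsgLib.Hall.Group320

open scoped commutatorElement

variable {G : Type*} [Group G]

theorem modEq_five [Finite G] (σ : G) (M : Subgroup G) (h5 : σ ^ 5 = 1)
    (hM : ∀ x ∈ M, σ * x * σ⁻¹ ∈ M) :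
    Nat.card M ≡ Nat.card (M ⊓ Subgroup.centralizer ({σ} : Set G) : Subgroup G) [MOD 5] := by
  have hN : σ ∈ Subgroup.normalizer (M : Set G) := Subgroup.mem_normalizer_fintype hM
  have hle : Subgroup.zpowers σ ≤ Subgroup.normalizer (M : Set G) := Subgroup.zpowers_le.mpr hN
  letI : MulAction (Subgroup.zpowers σ) M :=
    { smul := fun g x => ⟨(g : G) * x * (g : G)⁻¹, (Subgroup.mem_normalizer_iff.mp (hle g.2) x).mp x.2⟩
      one_smul := fun x => Subtype.ext (show ((1 : Subgroup.zpowers σ) : G) * x * ((1 : Subgroup.zpowers σ) : G)⁻¹ = x by simp)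
      mul_smul := fun g g' x => Subtype.ext
        (show ((g * g' : Subgroup.zpowers σ) : G) * x * ((g * g' : Subgroup.zpowers σ) : G)⁻¹ =
          (g : G) * ((g' : G) * x * (g' : G)⁻¹) * (g : G)⁻¹ by simp only [Subgroup.coe_mul]; group) }
  haveI : Fact (Nat.Prime 5) := ⟨by norm_num⟩
  have hp : IsPGroup 5 (Subgroup.zpowers σ) := fun g => ⟨1, by
    obtain ⟨g, k, rfl⟩ := g
    apply Subtype.ext
    show (σ ^ k) ^ (5 ^ 1) = 1
    rw [← zpow_natCast (σ ^ k), ← zpow_mul, mul_comm, zpow_mul, zpow_natCast]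
    simp [h5]⟩
  refine (hp.card_modEq_card_fixedPoints M).trans (congrArg (fun n : ℕ => n % 5) ?_)
  have key : ∀ x : M, x ∈ MulAction.fixedPoints (Subgroup.zpowers σ) M ↔ σ * (x : G) = (x : G) * σ := by
    intro x
    constructor
    · intro hx
      have h := congrArg Subtype.val (hx ⟨σ, Subgroup.mem_zpowers σ⟩)
      change σ * (x : G) * σ⁻¹ = x at h
      exact mul_inv_eq_iff_eq_mul.mp h
    · intro hx g
      obtain ⟨g, k, rfl⟩ := g
      apply Subtype.ext
      show σ ^ k * (x : G) * (σ ^ k)⁻¹ = x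
      rw [((show Commute σ (x : G) from hx).zpow_left k).eq, mul_inv_cancel_right]
  exact Nat.card_congr
    { toFun := fun x => ⟨x.1.1, x.1.2, Subgroup.mem_centralizer_singleton_iff.mpr
        (by simpa using ((key x.1).mp x.2).symm)⟩
      invFun := fun y => ⟨⟨y.1, y.2.1⟩, (key _).mpr
        (by simpa using (Subgroup.mem_centralizer_singleton_iff.mp y.2.2).symm)⟩
      left_inv := fun x => rfl
      right_inv := fun y => rfl }

theorem eq_self_of_fixed_free [Finite G] (σ : G) (M : Subgroup G) (h5 : σ ^ 5 = 1)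
    (hM : ∀ x ∈ M, σ * x * σ⁻¹ ∈ M) (hfree : M ⊓ Subgroup.centralizer ({σ} : Set G) = ⊥)
    (hd : Nat.card M ∣ 16) : Nat.card M = 1 ∨ Nat.card M = 16 := by
  have h := modEq_five σ M h5 hM
  rw [hfree, Subgroup.card_bot] at h
  obtain ⟨i, hi, he⟩ := (Nat.dvd_prime_pow Nat.prime_two).mp (show Nat.card M ∣ 2 ^ 4 by simpa using hd)
  rw [he] at h ⊢
  interval_cases i <;> simp_all [Nat.ModEq]

/-- In the quotient by the centre: the fixed space of `T` on the abelian group `W` of order 16. -/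
theorem quotient_fixed [Finite G] (W : Subgroup G) [W.Normal] (hW : Nat.card W = 16) (hidx : W.index = 10)
    (hab : ∀ a ∈ W, ∀ b ∈ W, a * b = b * a) (hC : Subgroup.centralizer (W : Set G) ≤ W)
    (T : G) (hT2 : T ^ 2 = 1) (hTW : T ∉ W) (x₀ : G) (hx₀ : x₀ ∈ W) (hx₀1 : x₀ ≠ 1) (hx₀T : T * x₀ = x₀ * T) :
    Nat.card (W ⊓ Subgroup.centralizer ({T} : Set G) : Subgroup G) ≤ 4 := by
  set K := W ⊓ Subgroup.centralizer ({T} : Set G) with hK
  have memK : ∀ {x : G}, x ∈ K ↔ x ∈ W ∧ T * x = x * T := fun {x} => by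
    rw [hK, Subgroup.mem_inf, Subgroup.mem_centralizer_singleton_iff]
    exact and_congr_right fun _ => eq_comm
  haveI : Fact (Nat.Prime 5) := ⟨by norm_num⟩
  obtain ⟨σ, hσ⟩ := exists_prime_orderOf_dvd_card' (G := G) 5 (by
    rw [← W.card_mul_index, hW, hidx]; norm_num)
  have h5 : σ ^ 5 = 1 := hσ ▸ pow_orderOf_eq_one σ
  have hσW : σ ∉ W := fun h => by
    have := Subgroup.orderOf_dvd_natCard W h
    rw [hσ, hW] at this; norm_num at this
  have hfree : W ⊓ Subgroup.centralizer ({σ} : Set G) = ⊥ := by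
    set D := W ⊓ Subgroup.centralizer ({σ} : Set G) with hD
    have h := modEq_five σ W h5 fun x hx => Subgroup.Normal.conj_mem inferInstance x hx σ
    obtain ⟨i, hi, he⟩ := (Nat.dvd_prime_pow Nat.prime_two).mp
      (show Nat.card D ∣ 2 ^ 4 from (Subgroup.card_dvd_of_le (inf_le_left : D ≤ W)).trans (by rw [hW]; norm_num))
    rw [hW, ← hD, he] at h
    interval_cases i <;> norm_num [Nat.ModEq] at h
    · exact Subgroup.card_eq_one.mp (by rw [he]; norm_num)
    · have hDW : D = W := Subgroup.eq_of_le_of_card_ge inf_le_left (by rw [hW, he]; norm_num)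
      exact absurd (hC (Subgroup.mem_centralizer_iff.mpr fun x hx =>
        Subgroup.mem_centralizer_singleton_iff.mp ((hDW.symm ▸ hx : x ∈ D).2))) hσW
  -- the action of `T` on the cyclic group of order 5 modulo `W`
  set π := QuotientGroup.mk' W
  have hs5 : orderOf (π σ) = 5 := orderOf_eq_prime (by rw [← map_pow, h5, map_one])
    fun h => hσW ((QuotientGroup.eq_one_iff σ).mp h)
  have hQ : Nat.card (G ⧸ W) = 10 := hidx
  haveI : (Subgroup.zpowers (π σ)).Normal := by
    refine Subgroup.normal_of_index_eq_two ?_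
    have := (Subgroup.zpowers (π σ)).card_mul_index
    rw [Nat.card_zpowers, hs5, hQ] at this
    omega
  obtain ⟨k, hk⟩ := Subgroup.mem_zpowers_iff.mp
    (Subgroup.Normal.conj_mem inferInstance _ (Subgroup.mem_zpowers (π σ)) (π T))
  have hkk : π σ ^ (k * k) = π σ := by
    rw [zpow_mul, hk, conj_zpow, hk, ← map_inv]
    simp only [← map_mul]
    congr 1
    rw [show T * (T * σ * T⁻¹) * T⁻¹ = T ^ 2 * σ * (T ^ 2)⁻¹ by rw [pow_two, mul_inv_rev]; group, hT2]
    group
  have hdv : (5 : ℤ) ∣ (k - 1) * (k + 1) := by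
    have h' : π σ ^ ((k - 1) * (k + 1)) = 1 := by
      rw [show (k - 1) * (k + 1) = k * k + (-1) by ring, zpow_add, hkk, zpow_neg_one, mul_inv_cancel]
    have := orderOf_dvd_iff_zpow_eq_one.mpr h'
    rwa [hs5] at this
  rcases (show Prime (5 : ℤ) from Nat.prime_iff_prime_int.mp (by norm_num)).dvd_mul.mp hdv with hd | hd
  · -- `T` centralizes `σ` modulo `W`
    have he : π (T * σ * T⁻¹ * σ⁻¹) = 1 := by
      rw [map_mul, map_mul, map_mul, map_inv π T, map_inv, ← hk,
        show k = (k - 1) + 1 by ring, zpow_add, zpow_one,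
        orderOf_dvd_iff_zpow_eq_one.mp (by rw [hs5]; exact hd), one_mul, mul_inv_cancel]
    set u := T * σ * T⁻¹ * σ⁻¹ with hu
    have huW : u ∈ W := (QuotientGroup.eq_one_iff u).mp he
    have hinv : ∀ x ∈ K, σ * x * σ⁻¹ ∈ K := fun x hx => by
      obtain ⟨hxW, hxT⟩ := memK.mp hx
      have hy : σ * x * σ⁻¹ ∈ W := Subgroup.Normal.conj_mem inferInstance x hxW σ
      refine memK.mpr ⟨hy, ?_⟩
      calc T * (σ * x * σ⁻¹) = u * σ * (T * x) * σ⁻¹ := by rw [hu]; group
        _ = u * σ * (x * T) * σ⁻¹ := by rw [hxT]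
        _ = (u * (σ * x * σ⁻¹)) * (σ * T * σ⁻¹) := by group
        _ = ((σ * x * σ⁻¹) * u) * (σ * T * σ⁻¹) := by rw [hab u huW _ hy]
        _ = σ * x * σ⁻¹ * T := by rw [hu]; group
    have hKf : K ⊓ Subgroup.centralizer ({σ} : Set G) = ⊥ :=
      eq_bot_iff.mpr ((inf_le_inf_right _ inf_le_left).trans hfree.le)
    rcases eq_self_of_fixed_free σ K h5 hinv hKf ((Subgroup.card_dvd_of_le inf_le_left).trans hW.dvd) with h | h
    · exact absurd (Subgroup.mem_bot.mp (Subgroup.card_eq_one.mp h ▸ memK.mpr ⟨hx₀, hx₀T⟩)) hx₀1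
    · refine absurd (hC (Subgroup.mem_centralizer_iff.mpr fun x hx => ?_)) hTW
      exact (memK.mp ((show K = W from Subgroup.eq_of_le_of_card_ge inf_le_left (by omega)).symm ▸ hx : x ∈ K)).2.symm
  · -- `T` inverts `σ` modulo `W`
    have he : π (T * σ * T⁻¹ * σ) = 1 := by
      rw [map_mul, map_mul, map_mul, map_inv, ← hk,
        show k = (k + 1) + (-1) by ring, zpow_add, zpow_neg_one,
        orderOf_dvd_iff_zpow_eq_one.mp (by rw [hs5]; exact hd), one_mul, inv_mul_cancel]
    set u := T * σ * T⁻¹ * σ with hu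
    have huW : u ∈ W := (QuotientGroup.eq_one_iff u).mp he
    set K' := K.map (MulAut.conj σ).toMonoidHom with hK'
    have hK'W : K' ≤ W := by
      rintro _ ⟨x, hx, rfl⟩
      exact Subgroup.Normal.conj_mem inferInstance x (memK.mp hx).1 σ
    have hdisj : Disjoint K K' := by
      rw [disjoint_iff, eq_bot_iff]
      rintro x ⟨hx, y, hy, hyx⟩
      have hyx' : σ * y * σ⁻¹ = x := hyx
      obtain ⟨hxW, hxT⟩ := memK.mp hx
      have c1 : Commute x T := hxT.symm
      have c2 : Commute x (σ * T * σ⁻¹) := by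
        rw [← hyx']
        show σ * y * σ⁻¹ * (σ * T * σ⁻¹) = σ * T * σ⁻¹ * (σ * y * σ⁻¹)
        rw [show σ * y * σ⁻¹ * (σ * T * σ⁻¹) = σ * (y * T) * σ⁻¹ by group, ← (memK.mp hy).2]
        group
      have c4 : Commute x (σ * σ) := by
        have := ((c2.mul_right c1.inv_right).mul_right (show Commute x u from hab x hxW u huW))
        rwa [show σ * T * σ⁻¹ * T⁻¹ * u = σ * σ by simp [hu, mul_assoc]] at this
      have c : Commute x σ := by
        have := c4.pow_right 3
        rwa [show (σ * σ) ^ 3 = σ ^ 5 * σ by simp only [← pow_two, ← pow_mul, ← pow_succ], h5, one_mul] at this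
      exact hfree.le ⟨hxW, Subgroup.mem_centralizer_singleton_iff.mpr c⟩
    have hcard : Nat.card K * Nat.card K' ≤ Nat.card W := by
      rw [← Nat.card_prod]
      exact Nat.card_le_card_of_injective
        (fun a : K × K' => (⟨a.1.1 * a.2.1, W.mul_mem (memK.mp a.1.2).1 (hK'W a.2.2)⟩ : W))
        fun a b h => Subgroup.mul_injective_of_disjoint hdisj (congrArg Subtype.val h)
    rw [Subgroup.card_map_of_injective (MulAut.conj σ).injective, hW] at hcard
    nlinarith

theorem main [Finite G]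
    (hG : Nat.card G = 320) (hHF : Cfsg.pCore 2 G = Cfsg.fittingSubgroup G)
    (hex : Cfsg.IsExtraspecial 2 ↥(Cfsg.pCore 2 G)) (h32 : Nat.card ↥(Cfsg.pCore 2 G) = 32)
    (hminus : ∀ A : Subgroup G, A ≤ Cfsg.pCore 2 G → Cfsg.IsElementaryAbelian 2 A → Nat.card ↥A ≤ 4)
    (T : G) (hT : orderOf T = 2) (hTH : T ∉ Cfsg.pCore 2 G)
    (V : Subgroup G) (hV : V ≤ Cfsg.pCore 2 G ⊓ Subgroup.centralizer ({T} : Set G)) (hV4 : Nat.card ↥V = 4)
    (hVe : Cfsg.IsElementaryAbelian 2 V) :
    Nat.card ↥(Cfsg.pCore 2 G ⊓ Subgroup.centralizer ({T} : Set G)) = 4 ∧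
      Cfsg.IsElementaryAbelian 2 (Cfsg.pCore 2 G ⊓ Subgroup.centralizer ({T} : Set G)) := by
  set H := Cfsg.pCore 2 G with hH
  haveI : H.Normal := Subgroup.sSup_normal _ fun _ h => h.1
  haveI : Fact (Nat.Prime 5) := ⟨by norm_num⟩
  haveI : Fact (Nat.Prime 2) := ⟨Nat.prime_two⟩
  haveI : Group.IsSolvable G := CfsgLib.CharBasics.isSolvable_two_primes 2 5 fun r hr hrd => by
    rw [hG, show 320 = 2 ^ 6 * 5 by norm_num] at hrd
    rcases hr.dvd_mul.mp hrd with h | h
    · exact Or.inl ((Nat.prime_dvd_prime_iff_eq hr Nat.prime_two).mp (hr.dvd_of_dvd_pow h))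
    · exact Or.inr ((Nat.prime_dvd_prime_iff_eq hr (by norm_num)).mp h)
  have hCH : Subgroup.centralizer (H : Set G) ≤ H := by rw [hHF]; exact CfsgLib.Hall.centralizer_fitting_le
  set Z := H ⊓ Subgroup.centralizer (H : Set G) with hZdef
  have hZ2 : Nat.card Z = 2 := by
    rw [← hex.2, ← Subgroup.card_map_of_injective (H.subtype_injective) (K := Subgroup.center H)]
    refine congrArg (fun K : Subgroup G => Nat.card K) ?_
    ext x
    constructor
    · rintro ⟨hx, hx'⟩
      exact ⟨⟨x, hx⟩, Subgroup.mem_center_iff.mpr fun g => Subtype.ext (Subgroup.mem_centralizer_iff.mp hx' g g.2), rfl⟩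
    · rintro ⟨y, hy, rfl⟩
      exact ⟨y.2, Subgroup.mem_centralizer_iff.mpr fun g hg => congrArg Subtype.val (Subgroup.mem_center_iff.mp hy ⟨g, hg⟩)⟩
  have hz2 : ∀ z ∈ Z, z * z = 1 := fun z hz => by
    have := pow_card_eq_one' (G := Z) (x := ⟨z, hz⟩)
    rw [hZ2, pow_two] at this
    exact congrArg Subtype.val this
  have hcomm : ∀ a ∈ H, ∀ b ∈ H, ⁅a, b⁆ ∈ Z := fun a ha b hb => by
    have h' : ⁅(⟨a, ha⟩ : H), ⟨b, hb⟩⁆ ∈ Subgroup.center H := by
      rw [← hex.1.2.2]; exact Subgroup.commutator_mem_commutator (Subgroup.mem_top _) (Subgroup.mem_top _)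
    exact ⟨(⁅(⟨a, ha⟩ : H), (⟨b, hb⟩ : H)⁆).2, Subgroup.mem_centralizer_iff.mpr fun g hg =>
      congrArg Subtype.val (Subgroup.mem_center_iff.mp h' ⟨g, hg⟩)⟩
  have hsq : ∀ a ∈ H, a * a ∈ Z := fun a ha => ⟨H.mul_mem ha ha, Subgroup.mem_centralizer_iff.mpr fun b hb => by
    have hz := hcomm a ha b hb
    have hza : a * ⁅a, b⁆ = ⁅a, b⁆ * a := Subgroup.mem_centralizer_iff.mp hz.2 a ha
    calc b * (a * a) = ⁅a, b⁆ * ⁅a, b⁆ * (b * a * a) := by rw [hz2 _ hz, one_mul, mul_assoc]
      _ = ⁅a, b⁆ * ((⁅a, b⁆ * b * a) * a) := by group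
      _ = (⁅a, b⁆ * a) * (b * a) := by rw [commutatorElement_def]; group
      _ = a * (⁅a, b⁆ * b * a) := by rw [← hza]; group
      _ = a * a * b := by rw [commutatorElement_def]; group⟩
  haveI : Z.Normal := ⟨fun z hz g => ⟨Subgroup.Normal.conj_mem inferInstance z hz.1 g,
    Subgroup.mem_centralizer_iff.mpr fun b hb => by
      have h1 := Subgroup.mem_centralizer_iff.mp hz.2 (g⁻¹ * b * g)
        (by simpa using Subgroup.Normal.conj_mem inferInstance b hb g⁻¹)
      calc b * (g * z * g⁻¹) = g * ((g⁻¹ * b * g) * z) * g⁻¹ := by group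
        _ = g * (z * (g⁻¹ * b * g)) * g⁻¹ := by rw [h1]
        _ = g * z * g⁻¹ * b := by group⟩⟩
  have hzc : ∀ z ∈ Z, ∀ g : G, g * z = z * g := fun z hz g => by
    by_cases h1 : z = 1
    · simp [h1]
    · have hne : g * z * g⁻¹ ≠ 1 := fun h => h1 (conj_eq_one_iff.mp h)
      have hg : g * z * g⁻¹ ∈ Z := Subgroup.Normal.conj_mem inferInstance z hz g
      obtain ⟨a, -, hu⟩ := (Nat.card_eq_two_iff' (1 : Z)).mp hZ2
      have : g * z * g⁻¹ = z := congrArg Subtype.val
        ((hu ⟨_, hg⟩ fun h => hne (congrArg Subtype.val h)).trans (hu ⟨z, hz⟩ fun h => h1 (congrArg Subtype.val h)).symm)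
      exact mul_inv_eq_iff_eq_mul.mp this
  set π := QuotientGroup.mk' Z with hπ
  set W := H.map π with hWdef
  haveI : W.Normal := Subgroup.Normal.map inferInstance π (QuotientGroup.mk'_surjective Z)
  have hZH : Z ≤ H := inf_le_left
  have hcm : W.comap π = H := by
    rw [hWdef, Subgroup.comap_map_eq, QuotientGroup.ker_mk', sup_eq_left]; exact hZH
  have hW16 : Nat.card W = 16 := by
    have := CfsgLib.Hall.card_comap_mk' Z W
    rw [hcm, h32, hZ2] at this; omega
  have hidx : W.index = 10 := by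
    have := Subgroup.index_comap_of_surjective W (QuotientGroup.mk'_surjective Z)
    rw [hcm] at this
    have h2 := H.card_mul_index
    rw [h32, hG, this] at h2; omega
  have hab : ∀ a ∈ W, ∀ b ∈ W, a * b = b * a := by
    rintro _ ⟨a, ha, rfl⟩ _ ⟨b, hb, rfl⟩
    apply commutatorElement_eq_one_iff_mul_comm.mp
    rw [← map_commutatorElement]; exact (QuotientGroup.eq_one_iff _).mpr (hcomm a ha b hb)
  have hCW : Subgroup.centralizer (W : Set (G ⧸ Z)) ≤ W := by
    set N := (Subgroup.centralizer (W : Set (G ⧸ Z))).comap π with hN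
    haveI : N.Normal := Subgroup.Normal.comap Subgroup.normal_centralizer π
    have hno5 : ∀ g ∈ N, orderOf g ≠ 5 := fun g hg ho => by
      have hgC : g ∈ Subgroup.centralizer (H : Set G) := Subgroup.mem_centralizer_iff.mpr fun x hx => by
        have hz : g * x * g⁻¹ * x⁻¹ ∈ Z := (QuotientGroup.eq_one_iff _).mp (by
          change π (g * x * g⁻¹ * x⁻¹) = 1
          simp only [map_mul, map_inv]
          rw [← Subgroup.mem_centralizer_iff.mp hg (π x) ⟨x, hx, rfl⟩, mul_inv_cancel_right, mul_inv_cancel])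
        set z := g * x * g⁻¹ * x⁻¹ with hzd
        have hn : ∀ n : ℕ, g ^ n * x * (g ^ n)⁻¹ = z ^ n * x := by
          intro n
          induction n with
          | zero => simp
          | succ n ih =>
            calc g ^ (n + 1) * x * (g ^ (n + 1))⁻¹ = g * (g ^ n * x * (g ^ n)⁻¹) * g⁻¹ := by
                  rw [pow_succ']; group
              _ = (g * z ^ n) * x * g⁻¹ := by rw [ih]; group
              _ = z ^ n * (z * x) := by rw [hzc _ (Z.pow_mem hz n) g, hzd]; group
              _ = z ^ (n + 1) * x := by rw [pow_succ]; group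
        have h5 := hn 5
        rw [← ho, pow_orderOf_eq_one, ho, one_mul, inv_one, mul_one] at h5
        have hz1 : z = 1 := by
          have : z ^ 5 = 1 := mul_eq_right.mp h5.symm
          rwa [show z ^ 5 = (z * z) * (z * z) * z by simp only [pow_succ, pow_zero, one_mul, mul_assoc], hz2 z hz, one_mul, one_mul] at this
        exact ((mul_inv_eq_iff_eq_mul.mp (mul_inv_eq_one.mp hz1))).symm
      have := Subgroup.orderOf_dvd_natCard H (hCH hgC)
      rw [ho, h32] at this; norm_num at this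
    have hNp : IsPGroup 2 N := by
      obtain ⟨j, hj, he⟩ : ∃ j, j ≤ 6 ∧ Nat.card N = 2 ^ j := by
        have hd : Nat.card N ∣ 2 ^ 6 * 5 := (N.card_subgroup_dvd_card).trans (by rw [hG]; norm_num)
        have hc : (Nat.card N).Coprime 5 := by
          refine ((Nat.Prime.coprime_iff_not_dvd (by norm_num)).mpr fun h => ?_).symm
          obtain ⟨g, hg⟩ := exists_prime_orderOf_dvd_card' (G := N) 5 h
          exact hno5 g g.2 (by rwa [orderOf_submonoid g] at *)
        exact (Nat.dvd_prime_pow Nat.prime_two).mp (hc.dvd_of_dvd_mul_right hd)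
      exact IsPGroup.of_card he
    intro y hy
    obtain ⟨g, rfl⟩ := QuotientGroup.mk'_surjective Z y
    exact ⟨g, (le_sSup ⟨inferInstance, hNp⟩ : N ≤ H) hy, rfl⟩
  set C := H ⊓ Subgroup.centralizer ({T} : Set G) with hC
  have hZC : Z ≤ C := fun z hz => ⟨hz.1, Subgroup.mem_centralizer_singleton_iff.mpr (hzc z hz T).symm⟩
  set K := W ⊓ Subgroup.centralizer ({π T} : Set (G ⧸ Z)) with hK
  have hCK : C.map π ≤ K := by
    rintro _ ⟨c, hc, rfl⟩
    exact ⟨⟨c, hc.1, rfl⟩, Subgroup.mem_centralizer_singleton_iff.mpr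
      (by simp only [← map_mul, Subgroup.mem_centralizer_singleton_iff.mp hc.2])⟩
  have hT2 : T * T = 1 := by rw [← pow_two, ← hT]; exact pow_orderOf_eq_one T
  have hCcard : Nat.card C = Nat.card (C.map π) * 2 := by
    rw [← hZ2, ← CfsgLib.Hall.card_comap_mk' Z (C.map π), Subgroup.comap_map_eq, QuotientGroup.ker_mk',
      sup_eq_left.mpr hZC]
  have h4 : 4 ≤ Nat.card C := hV4.symm.le.trans (Nat.le_of_dvd Nat.card_pos (Subgroup.card_dvd_of_le hV))
  have hex0 : ∃ x₀ ∈ C.map π, x₀ ≠ 1 :=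
    ((C.map π).ne_bot_iff_exists_ne_one.mp fun h => by rw [h, Subgroup.card_bot] at hCcard; omega).elim
      fun a ha => ⟨a, a.2, fun h => ha (Subtype.ext h)⟩
  obtain ⟨x₀, hx₀, hx₀1⟩ := hex0
  have hTW : π T ∉ W := fun h => hTH (hcm ▸ h)
  have hK4 : Nat.card K ≤ 4 := quotient_fixed W hW16 hidx hab hCW (π T)
    (by rw [pow_two, ← map_mul, hT2, map_one]) hTW x₀ (hCK hx₀).1 hx₀1
    (Subgroup.mem_centralizer_singleton_iff.mp (hCK hx₀).2).symm
  have hC4 : Nat.card C = 4 := by
    by_contra hne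
    have hle : Nat.card (C.map π) ≤ Nat.card K := Nat.le_of_dvd Nat.card_pos (Subgroup.card_dvd_of_le hCK)
    have h8 : Nat.card C = 8 := by
      obtain ⟨j, hj, he⟩ := (Nat.dvd_prime_pow Nat.prime_two).mp
        (show Nat.card C ∣ 2 ^ 5 from (Subgroup.card_dvd_of_le (inf_le_left : C ≤ H)).trans (by rw [h32]; norm_num))
      interval_cases j <;> omega
    have hKeq : C.map π = K := Subgroup.eq_of_le_of_card_ge hCK (by omega)
    have hinv : ∀ w ∈ W, w⁻¹ = w := by
      rintro _ ⟨a, ha, rfl⟩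
      rw [inv_eq_iff_mul_eq_one, ← map_mul]; exact (QuotientGroup.eq_one_iff _).mpr (hsq a ha)
    -- the commutator map with `T`
    let φ : W →* G ⧸ Z :=
      { toFun := fun w => ⁅π T, (w : G ⧸ Z)⁆
        map_one' := commutatorElement_one_right _
        map_mul' := fun a b => by
          have hb : ⁅π T, (b : G ⧸ Z)⁆ ∈ W := by
            rw [commutatorElement_def]
            exact W.mul_mem (Subgroup.Normal.conj_mem inferInstance _ b.2 _) (W.inv_mem b.2)
          have := hab a a.2 _ hb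
          calc ⁅π T, ((a * b : W) : G ⧸ Z)⁆ = ⁅π T, (a : G ⧸ Z)⁆ * ((a : G ⧸ Z) * ⁅π T, (b : G ⧸ Z)⁆ * (a : G ⧸ Z)⁻¹) := by
                simp only [Subgroup.coe_mul, commutatorElement_def]; group
            _ = _ := by rw [this, mul_inv_cancel_right] }
    have hrange : φ.range ≤ K := by
      rintro _ ⟨w, rfl⟩
      have hw : ⁅π T, (w : G ⧸ Z)⁆ ∈ W := by
        rw [commutatorElement_def]
        exact W.mul_mem (Subgroup.Normal.conj_mem inferInstance _ w.2 _) (W.inv_mem w.2)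
      refine ⟨hw, Subgroup.mem_centralizer_singleton_iff.mpr ?_⟩
      have hTT : π T * π T = 1 := by rw [← map_mul, hT2, map_one]
      have hTi : (π T)⁻¹ = π T := inv_eq_of_mul_eq_one_right hTT
      change ⁅π T, (w : G ⧸ Z)⁆ * π T = π T * ⁅π T, (w : G ⧸ Z)⁆
      conv_lhs => rw [← hinv _ hw]
      rw [commutatorElement_inv, commutatorElement_def, commutatorElement_def, hTi]
      simp only [mul_assoc]
      rw [hTT, mul_one, ← mul_assoc (π T) (π T), hTT, one_mul]
    have hker : Nat.card φ.ker = Nat.card K := by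
      have : φ.ker = K.subgroupOf W := by
        ext w
        show ⁅π T, (w : G ⧸ Z)⁆ = 1 ↔ (w : G ⧸ Z) ∈ K
        rw [commutatorElement_eq_one_iff_mul_comm, hK, Subgroup.mem_inf, Subgroup.mem_centralizer_singleton_iff]
        exact ⟨fun h => ⟨w.2, h.symm⟩, fun h => h.2.symm⟩
      rw [this]; exact Nat.card_congr (Subgroup.subgroupOfEquivOfLe inf_le_left).toEquiv
    have hreq : φ.range = K := by
      refine Subgroup.eq_of_le_of_card_ge hrange (Nat.le_of_eq ?_)
      have := φ.ker.card_mul_index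
      rw [Subgroup.index_ker, hker, hW16] at this
      have hk : Nat.card K = 4 := by rw [← hKeq]; omega
      rw [hk] at this ⊢; omega
    have hexp : ∀ c ∈ C, c * c = 1 := by
      intro c hc
      obtain ⟨w, hw⟩ := (hreq.symm.le (hKeq.le ⟨c, hc, rfl⟩) : π c ∈ φ.range)
      obtain ⟨x, hx, hxw⟩ := w.2
      have h1 : π ⁅T, x⁆ = π c := by rw [map_commutatorElement, hxw]; exact hw
      have hz : ⁅T, x⁆⁻¹ * c ∈ Z := QuotientGroup.eq.mp h1
      set z := ⁅T, x⁆⁻¹ * c with hzd
      have hcz : ⁅T, x⁆ = c * z⁻¹ := by rw [hzd]; group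
      have hcomm' : T * ⁅T, x⁆ = ⁅T, x⁆ * T := by
        rw [hcz]
        exact ((show Commute T c from (Subgroup.mem_centralizer_singleton_iff.mp hc.2).symm).mul_right
          (show Commute T z⁻¹ from hzc _ (Z.inv_mem hz) T)).eq
      have hTi : T⁻¹ = T := inv_eq_of_mul_eq_one_right hT2
      have hw2 : ⁅T, x⁆ * ⁅T, x⁆ = 1 := by
        have h2 : ⁅T, x⁆ = (⁅T, x⁆)⁻¹ := by
          calc ⁅T, x⁆ = T * ⁅T, x⁆ * T⁻¹ := by rw [hcomm', mul_inv_cancel_right]
            _ = (⁅T, x⁆)⁻¹ := by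
              rw [commutatorElement_inv, commutatorElement_def, commutatorElement_def, hTi]
              simp only [mul_assoc]
              rw [← mul_assoc T T, hT2, one_mul]
        nth_rw 2 [h2]; exact mul_inv_cancel _
      calc c * c = ⁅T, x⁆ * (z * ⁅T, x⁆) * z := by rw [hzd]; group
        _ = ⁅T, x⁆ * (⁅T, x⁆ * z) * z := by rw [hzc z hz ⁅T, x⁆]
        _ = (⁅T, x⁆ * ⁅T, x⁆) * (z * z) := by group
        _ = 1 := by rw [hw2, hz2 z hz, one_mul]
    have hCe : Cfsg.IsElementaryAbelian 2 C := by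
      refine ⟨⟨⟨fun a b => Subtype.ext ?_⟩⟩, fun a ha => by rw [pow_two]; exact hexp a ha⟩
      have e : ∀ c ∈ C, c⁻¹ = c := fun c hc => inv_eq_of_mul_eq_one_right (hexp c hc)
      calc (a : G) * b = ((a : G) * b)⁻¹ := (e _ (C.mul_mem a.2 b.2)).symm
        _ = (b : G) * a := by rw [mul_inv_rev, e _ a.2, e _ b.2]
    have := hminus C inf_le_left hCe
    omega
  have hVC : V = C := Subgroup.eq_of_le_of_card_ge hV (by omega)
  exact ⟨hC4, hVC ▸ hVe⟩

end CfsgLib.Hall.Group320
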