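/-
Maximal invariant subgroups under coprime action, all conjugate under fixed points.
-/
import Cfsg.Agent.CoprimeAction.Action
import Cfsg.Agent.PLocalBasics.Misc
import Cfsg.Agent.SolvStruct.FrattiniAux
import Cfsg.Agent.CoprimeAction.Frattini

set_option autoImplicit false
set_option linter.style.haveILetI false

namespace CfsgLib.Hall.MaxInvariant

open scoped Pointwise commutatorElement

section Aux

variable {A G : Type*} [Group A] [Group G] [MulDistribMulAction A G]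

theorem frattini_invariant (a : A) (x : G) (hx : x ∈ frattini G) : a • x ∈ frattini G := by
  have h := Subgroup.characteristic_iff_comap_eq.mp (frattini_characteristic (G := G)) (MulDistribMulAction.toMulAut A G a)
  rw [← h] at hx
  exact hx

theorem sup_invariant {M N : Subgroup G} (hM : ∀ a : A, ∀ x ∈ M, a • x ∈ M) (hN : ∀ a : A, ∀ x ∈ N, a • x ∈ N) :
    ∀ a : A, ∀ x ∈ M ⊔ N, a • x ∈ M ⊔ N := by
  intro a x hx
  have hle : M ⊔ N ≤ (M ⊔ N).comap (MulDistribMulAction.toMulAut A G a).toMonoidHom := sup_le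
    (fun y hy => Subgroup.mem_sup_left (hM a y hy)) (fun y hy => Subgroup.mem_sup_right (hN a y hy))
  exact hle hx

theorem exists_max_ge [Finite G] {U : Subgroup G} (hU : U ≠ ⊤) (hUA : ∀ a : A, ∀ x ∈ U, a • x ∈ U) :
    ∃ M : Subgroup G, U ≤ M ∧ (M ≠ ⊤ ∧ (∀ a : A, ∀ x ∈ M, a • x ∈ M) ∧
      ∀ L : Subgroup G, M < L → (∀ a : A, ∀ x ∈ L, a • x ∈ L) → L = ⊤) := by
  obtain ⟨M, ⟨hM1, hM2, hM3⟩, hmax⟩ := (Set.toFinite {M : Subgroup G | U ≤ M ∧ M ≠ ⊤ ∧ ∀ a : A, ∀ x ∈ M, a • x ∈ M}).exists_maximal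
    ⟨U, le_rfl, hU, hUA⟩
  refine ⟨M, hM1, hM2, hM3, fun L hL hLA => by_contra fun hLt => ?_⟩
  exact hL.not_ge (hmax ⟨hM1.trans hL.le, hLt, hLA⟩ hL.le)

theorem frattini_quotient_bot [Finite G] : frattini (G ⧸ frattini G) = ⊥ := by
  rw [eq_bot_iff]
  intro q hq
  obtain ⟨x, rfl⟩ := QuotientGroup.mk'_surjective (frattini G) q
  rw [Subgroup.mem_bot]
  refine (QuotientGroup.eq_one_iff x).mpr ?_
  simp only [frattini, Order.radical, Subgroup.mem_iInf]
  intro M hM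
  set f := QuotientGroup.mk' (frattini G)
  have hfs : Function.Surjective f := QuotientGroup.mk'_surjective _
  have hle : frattini G ≤ M := frattini_le_coatom hM
  have hc : (M.map f).comap f = M := by
    rw [Subgroup.comap_map_eq, QuotientGroup.ker_mk', sup_eq_left.mpr hle]
  have hM' : IsCoatom (M.map f) := by
    refine ⟨fun h => hM.1 (by rw [← hc, h, Subgroup.comap_top]), fun L hL => ?_⟩
    have hlt : M < L.comap f := hc ▸ (Subgroup.comap_lt_comap_of_surjective hfs).mpr hL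
    rw [← Subgroup.map_comap_eq_self_of_surjective hfs L, hM.2 _ hlt, Subgroup.map_top_of_surjective _ hfs]
  have := frattini_le_coatom hM' hq
  rw [← hc]; exact this

end Aux

/-- Maschke over the Frattini quotient. -/
theorem exists_frattini_complement {A G : Type*} [Group A] [Finite A] [Group G] [Finite G] [MulDistribMulAction A G]
    (hcop : (Nat.card A).Coprime (Nat.card G)) (hab : commutator G ≤ frattini G) (N : Subgroup G)
    (hΦN : frattini G ≤ N) (hN : ∀ a : A, ∀ x ∈ N, a • x ∈ N) :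
    ∃ K : Subgroup G, frattini G ≤ K ∧ (∀ a : A, ∀ x ∈ K, a • x ∈ K) ∧ N ⊓ K ≤ frattini G ∧ N ⊔ K = ⊤ := by
  set Φ := frattini G with hΦ
  set f := QuotientGroup.mk' Φ with hf
  have hfs : Function.Surjective f := QuotientGroup.mk'_surjective _
  have hmap : ∀ a : A, Φ.map (MulDistribMulAction.toMulAut A G a).toMonoidHom = Φ := fun a =>
    Subgroup.characteristic_iff_map_eq.mp frattini_characteristic _
  let ψ : A →* MulAut (G ⧸ Φ) :=
    { toFun := fun a => QuotientGroup.congr Φ Φ (MulDistribMulAction.toMulAut A G a) (hmap a)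
      map_one' := by
        ext q
        obtain ⟨x, rfl⟩ := hfs q
        exact congrArg f (one_smul A x)
      map_mul' := fun a b => by
        ext q
        obtain ⟨x, rfl⟩ := hfs q
        exact congrArg f (mul_smul a b x) }
  have hψ : ∀ a x, ψ a (f x) = f (a • x) := fun a x => rfl
  haveI hQc : IsMulCommutative (G ⧸ Φ) := ⟨⟨fun u v => by
    obtain ⟨x, rfl⟩ := hfs u
    obtain ⟨y, rfl⟩ := hfs v
    rw [← commutatorElement_eq_one_iff_mul_comm, ← map_commutatorElement]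
    exact (QuotientGroup.eq_one_iff _).mpr (hab (Subgroup.commutator_mem_commutator (Subgroup.mem_top x) (Subgroup.mem_top y)))⟩⟩
  set Nb := N.map f with hNb
  haveI : Nb.Normal := Nb.normal_of_isMulCommutative
  haveI : IsMulCommutative Nb := inferInstance
  obtain ⟨W, hW⟩ := CfsgLib.SolvStruct.exists_complement_of_frattini_eq_bot frattini_quotient_bot Nb
  have hNbA : ∀ a : A, ∀ q ∈ Nb, ψ a q ∈ Nb := by
    rintro a _ ⟨x, hx, rfl⟩
    exact ⟨a • x, hN a x hx, rfl⟩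
  have hinl : Function.Injective (SemidirectProduct.inl : (G ⧸ Φ) →* (G ⧸ Φ) ⋊[ψ] A) := SemidirectProduct.inl_injective
  obtain ⟨W', hW'V, hW'A, hW'inf, hW'sup⟩ := CfsgLib.PLocalBasics.invariant_complement
    (CoprimeAction.actK ψ ⊤) (CoprimeAction.actA ψ) (CoprimeAction.actK ψ Nb) inferInstance
    (CoprimeAction.actA_le_normalizer ψ fun _ _ _ => trivial)
    (by rw [CoprimeAction.card_actA, CoprimeAction.card_actK, Subgroup.card_top]
        exact hcop.coprime_dvd_right Φ.card_quotient_dvd_card)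
    (Subgroup.map_mono le_top) (CoprimeAction.actA_le_normalizer ψ hNbA) (CoprimeAction.actK ψ W)
    (Subgroup.map_mono le_top)
    (by rw [← Subgroup.map_inf _ _ _ hinl, hW.disjoint.eq_bot, Subgroup.map_bot])
    (by rw [← Subgroup.map_sup, hW.sup_eq_top])
  set Kb := W'.comap (SemidirectProduct.inl : (G ⧸ Φ) →* (G ⧸ Φ) ⋊[ψ] A) with hKb
  have hKbW : CoprimeAction.actK ψ Kb = W' :=
    Subgroup.map_comap_eq_self (hW'V.trans (Subgroup.map_le_range _ _))
  have hinfb : Nb ⊓ Kb = ⊥ := by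
    apply Subgroup.map_injective hinl
    rw [Subgroup.map_inf _ _ _ hinl, Subgroup.map_bot]
    change CoprimeAction.actK ψ Nb ⊓ CoprimeAction.actK ψ Kb = ⊥
    rw [hKbW, hW'inf]
  have hsupb : Nb ⊔ Kb = ⊤ := by
    apply Subgroup.map_injective hinl
    rw [Subgroup.map_sup]
    change CoprimeAction.actK ψ Nb ⊔ CoprimeAction.actK ψ Kb = CoprimeAction.actK ψ ⊤
    rw [hKbW, hW'sup]
  refine ⟨Kb.comap f, fun x hx => ?_, fun a x hx => ?_, fun x hx => ?_, ?_⟩
  · rw [Subgroup.mem_comap, show f x = 1 from (QuotientGroup.eq_one_iff x).mpr hx]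
    exact Kb.one_mem
  · rw [Subgroup.mem_comap, ← hψ]
    rw [Subgroup.mem_comap, hKb, Subgroup.mem_comap] at hx
    rw [hKb, Subgroup.mem_comap, ← CoprimeAction.inr_mul_inl]
    exact (Subgroup.mem_normalizer_iff.mp (hW'A ⟨a, rfl⟩) _).mp hx
  · have : f x ∈ Nb ⊓ Kb := ⟨⟨x, hx.1, rfl⟩, hx.2⟩
    rw [hinfb, Subgroup.mem_bot] at this
    exact (QuotientGroup.eq_one_iff x).mp this
  · have hc : N = Nb.comap f := by rw [hNb, Subgroup.comap_map_eq, QuotientGroup.ker_mk', sup_eq_left.mpr hΦN]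
    rw [hc]
    exact (Subgroup.comap_sup_eq f Nb Kb hfs).trans (by rw [hsupb, Subgroup.comap_top])

theorem conjugate_iff {A G : Type*} [Group A] [Finite A]
    [Group G] [Finite G] [MulDistribMulAction A G] (hcop : (Nat.card A).Coprime (Nat.card G)) (hsol : Group.IsSolvable A ∨ Group.IsSolvable G) :
    ((∀ M N : Subgroup G, (M ≠ ⊤ ∧ (∀ a : A, ∀ x ∈ M, a • x ∈ M) ∧ ∀ L : Subgroup G, M < L → (∀ a : A, ∀ x ∈ L, a • x ∈ L) → L = ⊤) → (N ≠ ⊤ ∧ (∀ a : A, ∀ x ∈ N, a • x ∈ N) ∧ ∀ L : Subgroup G, N < L → (∀ a : A, ∀ x ∈ L, a • x ∈ L) → L = ⊤) →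
        ∃ c : G, (∀ a : A, a • c = c) ∧ N = MulAut.conj c • M) ↔
      ((∃ p : ℕ, p.Prime ∧ IsPGroup p G) ∧ ∀ L : Subgroup G, frattini G < L → (∀ a : A, ∀ x ∈ L, a • x ∈ L) → L = ⊤)) ∧
    (((∃ p : ℕ, p.Prime ∧ IsPGroup p G) ∧ ∀ L : Subgroup G, frattini G < L → (∀ a : A, ∀ x ∈ L, a • x ∈ L) → L = ⊤) →
      ∀ M : Subgroup G, (M ≠ ⊤ ∧ (∀ a : A, ∀ x ∈ M, a • x ∈ M) ∧ ∀ L : Subgroup G, M < L → (∀ a : A, ∀ x ∈ L, a • x ∈ L) → L = ⊤) ↔ (M = frattini G ∧ M ≠ ⊤)) := by
  have hcontain : ∀ M : Subgroup G, M ≠ ⊤ → (∀ a : A, ∀ x ∈ M, a • x ∈ M) →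
      (∀ L : Subgroup G, M < L → (∀ a : A, ∀ x ∈ L, a • x ∈ L) → L = ⊤) → frattini G ≤ M := by
    intro M hM hMA hmax
    by_contra hle
    have hlt : M < M ⊔ frattini G := lt_of_le_of_ne le_sup_left fun h => hle (h ▸ le_sup_right)
    exact hM (frattini_nongenerating (hmax _ hlt (sup_invariant hMA frattini_invariant)))
  have hsecond : ((∃ p : ℕ, p.Prime ∧ IsPGroup p G) ∧ ∀ L : Subgroup G, frattini G < L → (∀ a : A, ∀ x ∈ L, a • x ∈ L) → L = ⊤) →
      ∀ M : Subgroup G, (M ≠ ⊤ ∧ (∀ a : A, ∀ x ∈ M, a • x ∈ M) ∧ ∀ L : Subgroup G, M < L → (∀ a : A, ∀ x ∈ L, a • x ∈ L) → L = ⊤) ↔ (M = frattini G ∧ M ≠ ⊤) := by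
    rintro ⟨-, hL⟩ M
    constructor
    · rintro ⟨hM, hMA, hmax⟩
      refine ⟨by_contra fun hne => hM (hL M (lt_of_le_of_ne (hcontain M hM hMA hmax) (Ne.symm hne)) hMA), hM⟩
    · rintro ⟨rfl, hM⟩
      exact ⟨hM, frattini_invariant, hL⟩
  refine ⟨⟨fun hconj => ?_, fun h M N hM hN => ?_⟩, hsecond⟩
  swap
  · refine ⟨1, fun a => smul_one a, ?_⟩
    rw [((hsecond h M).mp hM).1, ((hsecond h N).mp hN).1, map_one, one_smul]
  rcases subsingleton_or_nontrivial G with hs | hs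
  · exact ⟨⟨2, Nat.prime_two, fun g => ⟨0, Subsingleton.elim _ _⟩⟩,
      fun L hL _ => absurd (Subsingleton.elim (frattini G) L) hL.ne⟩
  obtain ⟨M, -, hM⟩ := exists_max_ge (A := A) (U := (⊥ : Subgroup G)) bot_ne_top
    (fun a x hx => by rw [Subgroup.mem_bot] at hx ⊢; rw [hx, smul_one])
  have hp : ∃ p : ℕ, p.Prime ∧ IsPGroup p G := by
    by_contra hno
    push Not at hno
    apply hM.1
    refine Subgroup.card_eq_iff_eq_top M |>.mp (Nat.dvd_antisymm M.card_subgroup_dvd_card ?_)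
    rw [← Nat.factorization_prime_le_iff_dvd Nat.card_pos.ne' Nat.card_pos.ne']
    intro p hp
    haveI := Fact.mk hp
    obtain ⟨P, -, hP⟩ := CoprimeAction.exists_fixed_sylow_ge (MulDistribMulAction.toMulAut A G) hcop hsol
      (p := p) (U := ⊥) IsPGroup.of_bot (fun a u hu => by rw [Subgroup.mem_bot] at hu ⊢; rw [hu, map_one])
    have hPt : (P : Subgroup G) ≠ ⊤ := fun h => hno p hp
      (P.2.of_equiv ((MulEquiv.subgroupCongr h).trans Subgroup.topEquiv))
    obtain ⟨N, hPN, hN⟩ := exists_max_ge (A := A) hPt (fun a x hx => by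
      have := (hP a).le ⟨x, hx, rfl⟩
      exact this)
    obtain ⟨c, -, hc⟩ := hconj M N hM hN
    have h1 : Nat.card (P : Subgroup G) ∣ Nat.card M := by
      rw [show Nat.card M = Nat.card N by
        rw [hc]; exact Nat.card_congr (Subgroup.equivSMul (MulAut.conj c) M).toEquiv]
      exact Subgroup.card_dvd_of_le hPN
    rw [P.card_eq_multiplicity] at h1
    exact (hp.pow_dvd_iff_le_factorization Nat.card_pos.ne').mp h1
  refine ⟨hp, fun L hL hLA => by_contra fun hLt => ?_⟩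
  obtain ⟨p, hp, hpG⟩ := hp
  haveI := Fact.mk hp
  haveI := hpG.isNilpotent
  have hab : commutator G ≤ frattini G := CfsgLib.SolvStruct.commutator_le_frattini
  obtain ⟨N, hLN, hN⟩ := exists_max_ge hLt hLA
  have huniq : ∀ N' : Subgroup G, (N' ≠ ⊤ ∧ (∀ a : A, ∀ x ∈ N', a • x ∈ N') ∧
      ∀ L : Subgroup G, N' < L → (∀ a : A, ∀ x ∈ L, a • x ∈ L) → L = ⊤) → N' = N := by
    intro N' hN'
    obtain ⟨c, -, hc⟩ := hconj N N' hN hN'
    rw [hc]
    have hΦ := hcontain N hN.1 hN.2.1 hN.2.2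
    haveI : N.Normal := ⟨fun x hx g => by
      have h1 : ⁅g, x⁆ * x ∈ N := N.mul_mem (hΦ (hab (Subgroup.commutator_mem_commutator
        (Subgroup.mem_top g) (Subgroup.mem_top x)))) hx
      rw [commutatorElement_def] at h1
      simpa using h1⟩
    exact Subgroup.Normal.conj_smul_eq_self c N
  obtain ⟨K, hΦK, hKA, hinf, hsup⟩ := exists_frattini_complement hcop hab N (hcontain N hN.1 hN.2.1 hN.2.2) hN.2.1
  by_cases hKt : K = ⊤
  · rw [hKt, inf_top_eq] at hinf
    exact hL.not_ge (hLN.trans hinf)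
  · obtain ⟨N', hKN', hN'⟩ := exists_max_ge hKt hKA
    rw [huniq N' hN'] at hKN'
    exact hN.1 (by rw [← hsup, sup_eq_left.mpr hKN'])

end CfsgLib.Hall.MaxInvariant
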