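/-
`p`-solvable groups whose maximal subgroups are `p`-nilpotent or of prime index.
-/
import Cfsg.Agent.PCore.PSolvable
import Cfsg.Agent.Hall.Basic

set_option autoImplicit false
set_option linter.style.haveILetI false

namespace CfsgLib.Hall.PLengthTwo

open scoped Pointwise

universe u

/-- A normal series with `p'`, `p`, `p'`, `p`, `p'` factors. -/
def Series (p : ℕ) (G : Type u) [Group G] : Prop :=
  ∃ A B C D : Subgroup G, A.Normal ∧ B.Normal ∧ C.Normal ∧ D.Normal ∧ A ≤ B ∧ B ≤ C ∧ C ≤ D ∧ ¬ p ∣ Nat.card A ∧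
    (∃ k : ℕ, A.relIndex B = p ^ k) ∧ ¬ p ∣ B.relIndex C ∧ (∃ k : ℕ, C.relIndex D = p ^ k) ∧ ¬ p ∣ D.index

/-- The hypothesis on maximal subgroups. -/
def MaxHyp (p : ℕ) (G : Type u) [Group G] : Prop :=
  ∀ M : Subgroup G, IsCoatom M →
    (∃ K : Subgroup ↥M, K.Normal ∧ ¬ p ∣ Nat.card K ∧ ∃ k : ℕ, K.index = p ^ k) ∨ (M.index).Prime

theorem maxHyp_quotient {G : Type u} [Group G] [Finite G] {p : ℕ} (hp : p.Prime) (N : Subgroup G) [N.Normal]
    (h : MaxHyp p G) : MaxHyp p (G ⧸ N) := by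
  intro M hM
  set π := QuotientGroup.mk' N
  have hπ := QuotientGroup.mk'_surjective N
  have hco : IsCoatom (M.comap π) := ⟨fun ht => hM.1 (Subgroup.comap_injective hπ (ht.trans (Subgroup.comap_top _).symm)),
    fun B hB => by
      have hN : π.ker ≤ B := le_trans (by rw [← MonoidHom.comap_bot]; exact Subgroup.comap_mono bot_le) hB.le
      have : M < B.map π := by
        refine lt_of_le_of_ne (fun x hx => ?_) fun he => hB.ne (by rw [he, Subgroup.comap_map_eq, sup_eq_left.mpr hN])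
        obtain ⟨y, rfl⟩ := hπ x
        exact ⟨y, hB.le hx, rfl⟩
      have h2 := hM.2 _ this
      rw [← sup_eq_left.mpr hN, ← Subgroup.comap_map_eq, h2, Subgroup.comap_top]⟩
  rcases h _ hco with ⟨K, hKn, hK2, k, hk⟩ | hpr
  · left
    let f : ↥(M.comap π) →* ↥M := (π.comp (M.comap π).subtype).codRestrict M fun a => a.2
    have hf : Function.Surjective f := fun y => by
      obtain ⟨x, hx⟩ := hπ y.1
      exact ⟨⟨x, show π x ∈ M from hx.symm ▸ y.2⟩, Subtype.ext hx⟩
    refine ⟨K.map f, hKn.map f hf, fun hd => hK2 (hd.trans (Subgroup.card_map_dvd K f)), ?_⟩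
    have hd := Subgroup.index_map_dvd K hf
    rw [hk] at hd
    obtain ⟨i, -, hi⟩ := (Nat.dvd_prime_pow hp).mp hd
    exact ⟨i, hi⟩
  · right
    rwa [← Subgroup.index_comap_of_surjective M hπ]

theorem relIndex_comap' {G H : Type u} [Group G] [Group H] (f : G →* H) (hf : Function.Surjective f)
    (X Y : Subgroup H) : (X.comap f).relIndex (Y.comap f) = X.relIndex Y := by
  rw [Subgroup.relIndex_comap, Subgroup.map_comap_eq_self_of_surjective hf]

theorem relIndex_dvd_mono {G : Type*} [Group G] (X : Subgroup G) [X.Normal] {S T : Subgroup G} (h : S ≤ T) :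
    X.relIndex S ∣ X.relIndex T := by
  have e : ∀ S : Subgroup G, X.relIndex S = Nat.card (S.map (QuotientGroup.mk' X) : Subgroup (G ⧸ X)) := fun S => by
    conv_lhs => rw [← QuotientGroup.ker_mk' X]
    rw [Subgroup.relIndex_ker]
  rw [e, e]
  exact Subgroup.card_dvd_of_le (Subgroup.map_mono h)

theorem relIndex_inf_dvd {G : Type*} [Group G] (X₁ Y₁ X₂ Y₂ : Subgroup G) [X₁.Normal] [X₂.Normal] :
    (X₁ ⊓ X₂).relIndex (Y₁ ⊓ Y₂) ∣ X₁.relIndex Y₁ * X₂.relIndex Y₂ := by
  have e : ((X₁ ⊓ (Y₁ ⊓ Y₂)) ⊓ X₂).relIndex (Y₁ ⊓ Y₂) = (X₁ ⊓ X₂).relIndex (Y₁ ⊓ Y₂) := by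
    rw [← Subgroup.inf_relIndex_right (X₁ ⊓ X₂), inf_right_comm]
  have h := Subgroup.relIndex_mul_relIndex ((X₁ ⊓ (Y₁ ⊓ Y₂)) ⊓ X₂) (X₁ ⊓ (Y₁ ⊓ Y₂)) (Y₁ ⊓ Y₂) inf_le_left inf_le_right
  rw [← e, ← h, Subgroup.inf_relIndex_left, Subgroup.inf_relIndex_right, mul_comm]
  refine mul_dvd_mul ?_ ?_
  · rw [← Subgroup.inf_relIndex_right X₁ (Y₁ ⊓ Y₂), ← Subgroup.inf_relIndex_right X₁ Y₁,
      Subgroup.inf_relIndex_right, Subgroup.inf_relIndex_right]
    exact relIndex_dvd_mono X₁ inf_le_left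
  · exact relIndex_dvd_mono X₂ (inf_le_right.trans inf_le_right)

theorem subdirect {G : Type u} [Group G] [Finite G] {p : ℕ} (hp : p.Prime) {N₁ N₂ : Subgroup G} [N₁.Normal] [N₂.Normal]
    (hbot : N₁ ⊓ N₂ = ⊥) (h₁ : Series p (G ⧸ N₁)) (h₂ : Series p (G ⧸ N₂)) : Series p G := by
  obtain ⟨A, B, C, D, a1, a2, a3, a4, a5, a6, a7, a8, ⟨i, a9⟩, a10, ⟨j, a11⟩, a12⟩ := h₁
  obtain ⟨A', B', C', D', b1, b2, b3, b4, b5, b6, b7, b8, ⟨i', b9⟩, b10, ⟨j', b11⟩, b12⟩ := h₂
  set f := QuotientGroup.mk' N₁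
  set f' := QuotientGroup.mk' N₂
  have hf := QuotientGroup.mk'_surjective N₁
  have hf' := QuotientGroup.mk'_surjective N₂
  have hpow : ∀ n m : ℕ, n ∣ p ^ m → ∃ k, n = p ^ k := fun n m h =>
    ((Nat.dvd_prime_pow hp).mp h).imp fun k hk => hk.2
  refine ⟨A.comap f ⊓ A'.comap f', B.comap f ⊓ B'.comap f', C.comap f ⊓ C'.comap f', D.comap f ⊓ D'.comap f',
    inferInstance, inferInstance, inferInstance, inferInstance,
    inf_le_inf (Subgroup.comap_mono a5) (Subgroup.comap_mono b5),
    inf_le_inf (Subgroup.comap_mono a6) (Subgroup.comap_mono b6),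
    inf_le_inf (Subgroup.comap_mono a7) (Subgroup.comap_mono b7), ?_, ?_, ?_, ?_, ?_⟩
  · intro hd
    haveI := Fact.mk hp
    obtain ⟨x, hx⟩ := exists_prime_orderOf_dvd_card' (G := (A.comap f ⊓ A'.comap f' : Subgroup G)) p hd
    have h1 : f (x : G) = 1 := by
      by_contra hne
      refine a8 ?_
      have ho : orderOf (f (x : G)) = p := orderOf_eq_prime (by rw [← map_pow, ← Subgroup.coe_pow, ← hx, pow_orderOf_eq_one]; simp) hne
      exact ho ▸ A.orderOf_dvd_natCard x.2.1
    have h2 : f' (x : G) = 1 := by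
      by_contra hne
      refine b8 ?_
      have ho : orderOf (f' (x : G)) = p := orderOf_eq_prime (by rw [← map_pow, ← Subgroup.coe_pow, ← hx, pow_orderOf_eq_one]; simp) hne
      exact ho ▸ A'.orderOf_dvd_natCard x.2.2
    have h3 : (x : G) ∈ N₁ ⊓ N₂ := ⟨(QuotientGroup.eq_one_iff _).mp h1, (QuotientGroup.eq_one_iff _).mp h2⟩
    rw [hbot, Subgroup.mem_bot] at h3
    rw [← Subgroup.orderOf_coe, h3, orderOf_one] at hx
    exact hp.one_lt.ne hx
  · refine hpow _ (i + i') ?_
    rw [pow_add, ← a9, ← b9, ← relIndex_comap' f hf A B, ← relIndex_comap' f' hf' A' B']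
    exact relIndex_inf_dvd _ _ _ _
  · intro hd
    have h := hd.trans (relIndex_inf_dvd (B.comap f) (C.comap f) (B'.comap f') (C'.comap f'))
    rw [relIndex_comap' f hf, relIndex_comap' f' hf'] at h
    exact (hp.dvd_mul.mp h).elim a10 b10
  · refine hpow _ (j + j') ?_
    rw [pow_add, ← a11, ← b11, ← relIndex_comap' f hf C D, ← relIndex_comap' f' hf' C' D']
    exact relIndex_inf_dvd _ _ _ _
  · intro hd
    rw [← Subgroup.relIndex_top_right, ← inf_idem (⊤ : Subgroup G)] at hd
    have h := hd.trans (relIndex_inf_dvd (D.comap f) ⊤ (D'.comap f') ⊤)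
    rw [Subgroup.relIndex_top_right, Subgroup.relIndex_top_right, Subgroup.index_comap_of_surjective _ hf,
      Subgroup.index_comap_of_surjective _ hf'] at h
    exact (hp.dvd_mul.mp h).elim a12 b12

theorem quotient_lt {G : Type*} [Group G] [Finite G] (N : Subgroup G) [N.Normal] (hN : N ≠ ⊥) :
    Nat.card (G ⧸ N) < Nat.card G := by
  rw [N.card_eq_card_quotient_mul_card_subgroup]
  exact lt_mul_of_one_lt_right Nat.card_pos (N.one_lt_card_iff_ne_bot.mpr hN)

theorem main : ∀ (k : ℕ) {G : Type u} [Group G] [Finite G] {p : ℕ} [Fact p.Prime], Nat.card G = k →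
    Cfsg.IsPSolvable p G → MaxHyp p G → Series p G := by
  intro k
  induction k using Nat.strong_induction_on with
  | _ k IH =>
  intro G _ _ p _ hk hG hmax
  subst hk
  have hp : p.Prime := Fact.out
  rcases subsingleton_or_nontrivial G with hs | hs
  · exact ⟨⊥, ⊥, ⊥, ⊥, inferInstance, inferInstance, inferInstance, inferInstance, le_rfl, le_rfl, le_rfl,
      by simp [hp.ne_one], ⟨0, by simp [Subgroup.relIndex_self]⟩, by simp [Subgroup.relIndex_self, hp.ne_one],
      ⟨0, by simp [Subgroup.relIndex_self]⟩, by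
        rw [Subgroup.index_bot, Nat.card_eq_one_iff_unique.mpr ⟨hs, ⟨1⟩⟩]; simp [hp.ne_one]⟩
  -- a normal subgroup of order prime to `p`
  have hprime : ∀ K : Subgroup G, K.Normal → K ≠ ⊥ → ¬ p ∣ Nat.card K → Series p G := by
    intro K hKn hK1 hKp
    haveI := hKn
    obtain ⟨A, B, C, D, a1, a2, a3, a4, a5, a6, a7, a8, ⟨i, a9⟩, a10, ⟨j, a11⟩, a12⟩ :=
      IH _ (quotient_lt K hK1) rfl (CfsgLib.PCore.isPSolvable_quotient hG K) (maxHyp_quotient hp K hmax)
    have hf := QuotientGroup.mk'_surjective K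
    refine ⟨A.comap (QuotientGroup.mk' K), B.comap (QuotientGroup.mk' K), C.comap (QuotientGroup.mk' K),
      D.comap (QuotientGroup.mk' K), inferInstance, inferInstance, inferInstance, inferInstance,
      Subgroup.comap_mono a5, Subgroup.comap_mono a6, Subgroup.comap_mono a7, ?_,
      ⟨i, by rw [relIndex_comap' _ hf, a9]⟩, by rwa [relIndex_comap' _ hf], ⟨j, by rw [relIndex_comap' _ hf, a11]⟩,
      by rwa [Subgroup.index_comap_of_surjective _ hf]⟩
    rw [card_comap_mk']
    exact fun h => (hp.dvd_mul.mp h).elim a8 hKp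
  by_cases hpc : Cfsg.pPrimeCore p G = ⊥
  swap
  · exact hprime _ (CfsgLib.PCore.pPrimeCore_mem p G).1 hpc
      fun h => hp.ne_one (Nat.eq_one_of_dvd_coprimes (CfsgLib.PCore.pPrimeCore_mem p G).2 h dvd_rfl)
  haveI := CfsgLib.PCore.pCore_characteristic p G
  obtain ⟨N, hN, hNle⟩ := exists_isMinNormal_le (Cfsg.pCore p G) ((CfsgLib.PCore.cores_ne_bot hG).resolve_right fun h => h hpc)
  haveI := hN.1
  have hNp : IsPGroup p N := (CfsgLib.PCore.isPGroup_pCore p G).to_le hNle
  haveI : Group.IsSolvable N := by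
    haveI := hNp.isNilpotent
    infer_instance
  obtain ⟨q, -, hNc, -, -⟩ := hN.elementaryAbelian
  haveI := hNc
  obtain ⟨m, hm⟩ := hNp.exists_card_eq
  set π := QuotientGroup.mk' N with hπd
  have hπ := QuotientGroup.mk'_surjective N
  have hserN := IH _ (quotient_lt N hN.2.1) rfl (CfsgLib.PCore.isPSolvable_quotient hG N) (maxHyp_quotient hp N hmax)
  obtain ⟨A, B, C, D, hAn, hBn, hCn, hDn, hAB, hBC, hCD, hA, ⟨i, hi⟩, hBCp, ⟨j, hj⟩, hD⟩ := hserN
  have hserN : Series p (G ⧸ N) :=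
    ⟨A, B, C, D, hAn, hBn, hCn, hDn, hAB, hBC, hCD, hA, ⟨i, hi⟩, hBCp, ⟨j, hj⟩, hD⟩
  have hcardA : Nat.card (A.comap π) = Nat.card A * Nat.card N := card_comap_mk' N A
  set A' := A.comap π with hA'
  have hNA : N ≤ A' := fun x hx => by
    rw [hA', Subgroup.mem_comap, hπd, QuotientGroup.mk'_apply, (QuotientGroup.eq_one_iff x).mpr hx]
    exact A.one_mem
  have hcop : (Nat.card N).Coprime (Nat.card A) := by
    rw [hm]; exact Nat.Coprime.pow_left _ (hp.coprime_iff_not_dvd.mpr hA)
  have hcN : Nat.card (N.subgroupOf A') = Nat.card N := Nat.card_congr (Subgroup.subgroupOfEquivOfLe hNA).toEquiv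
  have hiN : (N.subgroupOf A').index = Nat.card A := by
    have h1 := (N.subgroupOf A').card_mul_index
    rw [hcN, hcardA, mul_comm (Nat.card A)] at h1
    exact Nat.eq_of_mul_eq_mul_left Nat.card_pos h1
  obtain ⟨K₀, hK₀⟩ := Subgroup.exists_right_complement'_of_coprime (N := N.subgroupOf A') (by rwa [hcN, hiN])
  set K := K₀.map A'.subtype with hKd
  have hKA : K ≤ A' := Subgroup.map_subtype_le _
  have hKcard : Nat.card K = Nat.card A := by
    rw [hKd, Subgroup.card_map_of_injective A'.subtype_injective, ← hK₀.symm.index_eq_card, hiN]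
  have hNK : N ⊔ K = A' := by
    refine le_antisymm (sup_le hNA hKA) fun x hx => ?_
    have : (⟨x, hx⟩ : A') ∈ N.subgroupOf A' ⊔ K₀ := hK₀.sup_eq_top ▸ Subgroup.mem_top _
    have h2 := Subgroup.mem_map_of_mem A'.subtype this
    rw [Subgroup.map_sup, Subgroup.subgroupOf_map_subtype, inf_eq_left.mpr hNA] at h2
    exact h2
  -- Frattini argument
  have hfrat : Subgroup.normalizer (K : Set G) ⊔ N = ⊤ := by
    rw [eq_top_iff]
    intro g _
    set L := K.map (MulAut.conj g).toMonoidHom with hL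
    have hLcard : Nat.card L = Nat.card K := Subgroup.card_map_of_injective (MulAut.conj g).injective
    have hNL : N ⊔ L = A' := by
      have h1 := congrArg (Subgroup.map (MulAut.conj g).toMonoidHom) hNK
      have hfix : ∀ X : Subgroup G, X.Normal → X.map (MulAut.conj g).toMonoidHom = X := fun X hX =>
        le_antisymm (by rintro _ ⟨x, hx, rfl⟩; exact hX.conj_mem x hx g)
          fun x hx => ⟨g⁻¹ * x * g, by simpa using hX.conj_mem x hx g⁻¹, by simp [mul_assoc]⟩
      rwa [Subgroup.map_sup, hfix N inferInstance, hfix A' inferInstance] at h1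
    obtain ⟨a, ha, hconj⟩ := exists_conj_eq_of_sup_eq N L K Subgroup.le_normalizer_of_normal
      Subgroup.le_normalizer_of_normal (by rwa [hLcard, hKcard]) (by rwa [hKcard]) (hNL.trans hNK.symm)
    have hmem : a * g ∈ Subgroup.normalizer (K : Set G) := Subgroup.mem_normalizer_fintype fun k hk =>
      hconj.le ⟨g * k * g⁻¹, ⟨k, hk, rfl⟩, by simp [mul_assoc]⟩
    have := Subgroup.mul_mem_sup (show a⁻¹ ∈ N from N.inv_mem ha) hmem
    rw [inv_mul_cancel_left, sup_comm] at this
    exact this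
  by_cases hKn : K.Normal
  · by_cases hK1 : K = ⊥
    · have hAb : Nat.card A = 1 := by rw [← hKcard, hK1, Subgroup.card_bot]
      refine ⟨⊥, B.comap π, C.comap π, D.comap π, inferInstance, inferInstance, inferInstance, inferInstance, bot_le,
        Subgroup.comap_mono hBC, Subgroup.comap_mono hCD, by simp [hp.ne_one], ⟨m + i, ?_⟩,
        by rwa [relIndex_comap' π hπ], ⟨j, by rw [relIndex_comap' π hπ, hj]⟩,
        by rwa [Subgroup.index_comap_of_surjective _ hπ]⟩
      rw [← Subgroup.relIndex_mul_relIndex ⊥ A' (B.comap π) bot_le (Subgroup.comap_mono hAB),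
        relIndex_comap' π hπ, hi, Subgroup.relIndex_bot_left, hcardA, hAb, hm, one_mul, pow_add]
    · exact hprime K hKn hK1 (hKcard ▸ hA)
  -- `N` is complemented by a maximal subgroup
  obtain ⟨M, hM, hKM⟩ := (eq_top_or_exists_le_coatom (Subgroup.normalizer (K : Set G))).resolve_left
    fun h => hKn (Subgroup.normalizer_eq_top_iff.mp h)
  have hMN : M ⊔ N = ⊤ := eq_top_iff.mpr (hfrat.ge.trans (sup_le_sup_right hKM N))
  haveI hDn : (N ⊓ M).Normal := by
    rw [← Subgroup.normalizer_eq_top_iff, eq_top_iff, ← hMN]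
    refine sup_le (fun x hx => Subgroup.mem_normalizer_fintype fun y hy => ⟨Subgroup.Normal.conj_mem inferInstance y hy.1 x,
      M.mul_mem (M.mul_mem hx hy.2) (M.inv_mem hx)⟩) fun x hx => Subgroup.mem_normalizer_fintype fun y hy => ?_
    show x * y * x⁻¹ ∈ N ⊓ M
    rwa [show x * y = y * x from congrArg Subtype.val (mul_comm' (⟨x, hx⟩ : N) ⟨y, hy.1⟩), mul_inv_cancel_right]
  have hdis : N ⊓ M = ⊥ := (hN.2.2 _ hDn inf_le_left).resolve_right fun h =>
    hM.1 (by rw [← hMN]; exact (sup_eq_left.mpr (h ▸ inf_le_right)).symm)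
  have hcardM : Nat.card N * Nat.card M = Nat.card G := by
    have := card_sup_mul_card_inf N M
    rw [sup_comm, hMN, hdis, Subgroup.card_top, Subgroup.card_bot, mul_one] at this
    exact this.symm
  rcases hmax M hM with ⟨L₀, hL₀n, hL₀2, k, hk⟩ | hpr
  · -- `M` has a normal 2-complement
    haveI := hL₀n
    set L := L₀.map M.subtype with hLd
    have hLM : L ≤ M := Subgroup.map_subtype_le _
    haveI : (N ⊔ L).Normal := by
      rw [← Subgroup.normalizer_eq_top_iff, eq_top_iff, ← hMN]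
      refine sup_le ?_ (le_trans le_sup_left Subgroup.le_normalizer)
      intro x hx
      refine Subgroup.mem_normalizer_fintype fun y hy => ?_
      have hle' : N ⊔ L ≤ (N ⊔ L).comap (MulAut.conj x).toMonoidHom := sup_le
        (fun z hz => Subgroup.mem_sup_left (Subgroup.Normal.conj_mem inferInstance z hz x))
        (by
          rintro _ ⟨z, hz, rfl⟩
          exact Subgroup.mem_sup_right ⟨⟨x, hx⟩ * z * ⟨x, hx⟩⁻¹, hL₀n.conj_mem z hz _, rfl⟩)
      exact hle' hy
    have hcL : Nat.card L = Nat.card L₀ := Subgroup.card_map_of_injective M.subtype_injective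
    have hNL : Nat.card (N ⊔ L : Subgroup G) = Nat.card N * Nat.card L := by
      have := card_sup_mul_card_inf N L
      rwa [show N ⊓ L = ⊥ from eq_bot_iff.mpr ((inf_le_inf_left N hLM).trans hdis.le), Subgroup.card_bot,
        mul_one] at this
    refine ⟨⊥, N, N ⊔ L, ⊤, inferInstance, inferInstance, inferInstance, inferInstance, bot_le, le_sup_left, le_top,
      by simp [hp.ne_one], ⟨m, by rw [Subgroup.relIndex_bot_left, hm]⟩, ?_, ⟨k, ?_⟩, by simp [hp.ne_one]⟩
    · have h1 := Subgroup.relIndex_mul_relIndex ⊥ N (N ⊔ L) bot_le le_sup_left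
      rw [Subgroup.relIndex_bot_left, Subgroup.relIndex_bot_left, hNL] at h1
      rw [Nat.eq_of_mul_eq_mul_left Nat.card_pos h1, hcL]
      exact hL₀2
    · rw [Subgroup.relIndex_top_right]
      have h1 := (N ⊔ L).card_mul_index
      rw [hNL, ← hcardM, mul_assoc, hcL, ← L₀.card_mul_index, hk] at h1
      exact Nat.eq_of_mul_eq_mul_left Nat.card_pos (Nat.eq_of_mul_eq_mul_left Nat.card_pos h1)
  · -- `N` has order `p`
    have hNp1 : Nat.card N = p := by
      have h1 := M.card_mul_index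
      rw [← hcardM, mul_comm (Nat.card N)] at h1
      rw [Nat.eq_of_mul_eq_mul_left Nat.card_pos h1, hm] at hpr
      obtain rfl : m = 1 := Nat.Prime.eq_one_of_pow hpr
      rw [hm, pow_one]
    set L := Subgroup.centralizer (N : Set G) ⊓ M with hL
    haveI hLn : L.Normal := by
      rw [← Subgroup.normalizer_eq_top_iff, eq_top_iff, ← hMN]
      refine sup_le (fun x hx => Subgroup.mem_normalizer_fintype fun y hy => ⟨Subgroup.Normal.conj_mem inferInstance y hy.1 x,
        M.mul_mem (M.mul_mem hx hy.2) (M.inv_mem hx)⟩) fun x hx => Subgroup.mem_normalizer_fintype fun y hy => ?_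
      show x * y * x⁻¹ ∈ L
      rwa [Subgroup.mem_centralizer_iff.mp hy.1 x hx, mul_inv_cancel_right]
    by_cases hL1 : L = ⊥
    swap
    · refine subdirect hp (N₁ := N) (N₂ := L) (eq_bot_iff.mpr ((inf_le_inf_left N inf_le_right).trans hdis.le)) hserN ?_
      exact IH _ (quotient_lt L hL1) rfl (CfsgLib.PCore.isPSolvable_quotient hG L) (maxHyp_quotient hp L hmax)
    -- `M` acts faithfully on a group of order `p`
    have hMp : ¬ p ∣ Nat.card M := by
      intro hd
      obtain ⟨⟨y, hy⟩, hyo⟩ := exists_prime_orderOf_dvd_card' (G := M) p hd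
      rw [Subgroup.orderOf_mk] at hyo
      set Q := Subgroup.zpowers y ⊔ N
      have hQ : IsPGroup p Q := (IsPGroup.of_card (G := Subgroup.zpowers y) (n := 1)
        (by rw [Nat.card_zpowers, hyo, pow_one])).to_sup_of_normal_right hNp
      have hNQ : N ≤ Q := le_sup_right
      set Nq := N.subgroupOf Q
      have hcq : Nat.card Nq = p := (Nat.card_congr (Subgroup.subgroupOfEquivOfLe hNQ).toEquiv).trans hNp1
      obtain ⟨z, hz, hz1⟩ := (hQ.of_equiv ConjAct.toConjAct).exists_fixed_point_of_prime_dvd_card_of_fixed_point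
        Nq hcq.symm.dvd (a := 1) (fun g => Subtype.ext (by simp))
      have hcy : y ∈ L := by
        refine ⟨Subgroup.mem_centralizer_iff.mpr fun w hw => ?_, hy⟩
        have hzc : Commute y ((z : Q) : G) := by
          have h := congrArg (fun t : Nq => ((t : Q) : G)) (hz (ConjAct.toConjAct ⟨y, Subgroup.mem_sup_left (Subgroup.mem_zpowers y)⟩))
          simp [ConjAct.Subgroup.val_conj_smul, ConjAct.smul_def] at h
          exact mul_inv_eq_iff_eq_mul.mp h
        have hw' : (⟨w, hw⟩ : N) ∈ Subgroup.zpowers (⟨((z : Q) : G), Subgroup.mem_subgroupOf.mp z.2⟩ : N) :=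
          mem_zpowers_of_prime_card hNp1 fun e => hz1 (by
            apply Subtype.ext; apply Subtype.ext
            exact (congrArg Subtype.val e).symm)
        obtain ⟨e, he⟩ := hw'
        have he' : ((z : Q) : G) ^ e = w := congrArg Subtype.val he
        rw [← he']
        exact ((hzc.zpow_right e).eq).symm
      rw [hL1, Subgroup.mem_bot] at hcy
      rw [hcy, orderOf_one] at hyo
      exact hp.one_lt.ne hyo
    refine ⟨⊥, N, ⊤, ⊤, inferInstance, inferInstance, inferInstance, inferInstance, bot_le, le_top, le_rfl,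
      by simp [hp.ne_one], ⟨1, by rw [Subgroup.relIndex_bot_left, hNp1, pow_one]⟩, ?_,
      ⟨0, by rw [Subgroup.relIndex_self, pow_zero]⟩, by simp [hp.ne_one]⟩
    rw [Subgroup.relIndex_top_right]
    have h1 := N.card_mul_index
    rw [← hcardM] at h1
    rwa [Nat.eq_of_mul_eq_mul_left Nat.card_pos h1]

end CfsgLib.Hall.PLengthTwo
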