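/-
Pronormality of the subgroups containing a Sylow subgroup, in an extension.
-/
import Cfsg.Agent.Hall.Basic
import Cfsg.Prelude.Def_HallClasses

set_option autoImplicit false
set_option linter.style.haveILetI false

namespace CfsgLib.Hall.Pronormal

variable {G : Type*} [Group G]

/-- The conjugate `g H g⁻¹`. -/
abbrev cj (g : G) (H : Subgroup G) : Subgroup G := H.map (MulAut.conj g).toMonoidHom

theorem cj_cj (a b : G) (H : Subgroup G) : cj a (cj b H) = cj (a * b) H := by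
  rw [cj, cj, cj, Subgroup.map_map]
  congr 1
  ext; simp [mul_assoc]

theorem cj_one (H : Subgroup G) : cj 1 H = H := by
  ext; simp [cj]

theorem cj_eq_of_normalizer {H : Subgroup G} {n : G} (hn : n ∈ Subgroup.normalizer (H : Set G)) : cj n H = H :=
  Subgroup.mem_normalizer_iff_map_conj_eq.1 hn

theorem mem_normalizer_of_cj {H : Subgroup G} {n : G} (h : cj n H = H) : n ∈ Subgroup.normalizer (H : Set G) :=
  Subgroup.mem_normalizer_iff_map_conj_eq.2 h

theorem cj_le_of_mem {J H : Subgroup G} {g : G} (hg : g ∈ J) (hH : H ≤ J) : cj g H ≤ J := by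
  rintro _ ⟨h, hh, rfl⟩
  exact J.mul_mem (J.mul_mem hg (hH hh)) (J.inv_mem hg)

theorem map_cj {Q : Type*} [Group Q] (f : G →* Q) (g : G) (H : Subgroup G) :
    (cj g H).map f = cj (f g) (H.map f) := by
  rw [cj, cj, Subgroup.map_map, Subgroup.map_map]
  congr 1
  ext; simp

theorem pronormal_of_cj {H : Subgroup G} (b : G) (h : Cfsg.IsPronormal (cj b H)) : Cfsg.IsPronormal H := by
  intro g
  obtain ⟨x, hx, he⟩ := h (b * g * b⁻¹)
  change cj (b * g * b⁻¹) (cj b H) = cj x (cj b H) at he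
  change x ∈ cj b H ⊔ cj (b * g * b⁻¹) (cj b H) at hx
  refine ⟨b⁻¹ * x * b, ?_, ?_⟩
  · have h2 := Subgroup.mem_map_of_mem (MulAut.conj b⁻¹).toMonoidHom hx
    rw [Subgroup.map_sup] at h2
    change _ ∈ cj b⁻¹ (cj b H) ⊔ cj b⁻¹ (cj (b * g * b⁻¹) (cj b H)) at h2
    rw [cj_cj, cj_cj, cj_cj, inv_mul_cancel, cj_one, show b⁻¹ * (b * g * b⁻¹) * b = g by group] at h2
    show b⁻¹ * x * b ∈ H ⊔ cj g H
    simpa using h2
  · show cj g H = cj (b⁻¹ * x * b) H
    rw [show g = b⁻¹ * (b * g * b⁻¹ * b) by group, ← cj_cj, ← cj_cj (b * g * b⁻¹), he, cj_cj, cj_cj]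

variable [Finite G] {p : ℕ} [Fact p.Prime]

/-- Every overgroup of a self-normalizing Sylow subgroup is pronormal and self-normalizing. -/
theorem of_selfNormalizing (hQ : ∀ P : Sylow p G, Subgroup.normalizer ((P : Subgroup G) : Set G) = P)
    (K : Subgroup G) (hK : ∃ P : Sylow p G, (P : Subgroup G) ≤ K) :
    Cfsg.IsPronormal K ∧ Subgroup.normalizer (K : Set G) = K := by
  obtain ⟨P, hP⟩ := hK
  have key : ∀ g : G, ∀ J : Subgroup G, K ≤ J → cj g K ≤ J → ∃ x ∈ J, cj g K = cj x K ∧ x⁻¹ * g ∈ K := by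
    intro g J hKJ hgJ
    have h1 : (P : Subgroup G) ≤ J := hP.trans hKJ
    have h2 : ((MulAut.conj g • P : Sylow p G) : Subgroup G) ≤ J := le_trans (Subgroup.map_mono hP) hgJ
    obtain ⟨x, hx⟩ := MulAction.exists_smul_eq (↥J) (P.subtype h1) ((MulAut.conj g • P : Sylow p G).subtype h2)
    refine ⟨x, x.2, ?_⟩
    have he : cj (x : G) (P : Subgroup G) = cj g P := by
      have h3 := congrArg (fun S : Sylow p J => (S : Subgroup J).map J.subtype) hx
      change (cj x ((P : Subgroup G).subgroupOf J)).map J.subtype = ((cj g (P : Subgroup G)).subgroupOf J).map J.subtype at h3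
      have h2' : cj g (P : Subgroup G) ≤ J := h2
      rwa [map_cj, Subgroup.map_subgroupOf_eq_of_le h1, Subgroup.map_subgroupOf_eq_of_le h2'] at h3
    have hn : (x : G)⁻¹ * g ∈ K := hP ((hQ P).le (mem_normalizer_of_cj (by
      rw [← cj_cj, ← he, cj_cj, inv_mul_cancel, cj_one])))
    refine ⟨?_, hn⟩
    conv_lhs => rw [show g = x * ((x : G)⁻¹ * g) by group]
    rw [← cj_cj, cj_eq_of_normalizer (Subgroup.le_normalizer hn)]
  refine ⟨fun g => ?_, le_antisymm (fun g hg => ?_) Subgroup.le_normalizer⟩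
  · obtain ⟨x, hx, he, -⟩ := key g _ le_sup_left le_sup_right
    exact ⟨x, hx, he⟩
  · obtain ⟨x, hx, -, hn⟩ := key g K le_rfl (cj_eq_of_normalizer hg).le
    simpa using K.mul_mem hx hn

/-- The two conditions are sufficient. -/
theorem of_conditions (A : Subgroup G) [A.Normal]
    (hA : ∀ K : Subgroup ↥A, (∃ P : Sylow p ↥A, (P : Subgroup ↥A) ≤ K) → Cfsg.IsPronormal K)
    (hQ : ∀ K : Subgroup (G ⧸ A), (∃ P : Sylow p (G ⧸ A), (P : Subgroup (G ⧸ A)) ≤ K) → Cfsg.IsPronormal K)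
    (T : Subgroup G) (hT : ∃ P : Sylow p ↥A, (P : Subgroup ↥A).map A.subtype = T)
    [(T.subgroupOf (Subgroup.normalizer (T : Set G))).Normal]
    (hN : ∀ K : Subgroup (↥(Subgroup.normalizer (T : Set G)) ⧸ T.subgroupOf (Subgroup.normalizer (T : Set G))),
      (∃ P : Sylow p (↥(Subgroup.normalizer (T : Set G)) ⧸ T.subgroupOf (Subgroup.normalizer (T : Set G))),
        (P : Subgroup (↥(Subgroup.normalizer (T : Set G)) ⧸ T.subgroupOf (Subgroup.normalizer (T : Set G)))) ≤ K) →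
      Cfsg.IsPronormal K)
    (hII : ∀ K : Subgroup G, (∃ P : Sylow p G, (P : Subgroup G) ≤ K) →
      (Subgroup.normalizer (K : Set G)).map (QuotientGroup.mk' A) =
        Subgroup.normalizer ((K.map (QuotientGroup.mk' A) : Subgroup (G ⧸ A)) : Set (G ⧸ A))) :
    ∀ K : Subgroup G, (∃ P : Sylow p G, (P : Subgroup G) ≤ K) → Cfsg.IsPronormal K := by
  obtain ⟨T₀, hT₀⟩ := hT
  intro H₀ ⟨P₀, hP₀⟩
  -- move `P₀ ∩ A` to `T`
  obtain ⟨S, hS⟩ : ∃ S : Sylow p A, (S : Subgroup A) = (P₀ : Subgroup G).subgroupOf A := by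
    have hp : IsPGroup p ((P₀ : Subgroup G).subgroupOf A) :=
      P₀.2.comap_of_injective A.subtype A.subtype_injective
    obtain ⟨S, hS⟩ := hp.exists_le_sylow
    refine ⟨S, le_antisymm ?_ hS⟩
    obtain ⟨P₁, hP₁⟩ := (S.2.map A.subtype).exists_le_sylow
    obtain ⟨g, hg⟩ := MulAction.exists_smul_eq G P₁ P₀
    have hle : Nat.card (S : Subgroup A) ≤ Nat.card ((P₀ : Subgroup G).subgroupOf A) := by
      rw [← Subgroup.card_map_of_injective A.subtype_injective,
        ← Subgroup.card_map_of_injective A.subtype_injective (K := (P₀ : Subgroup G).subgroupOf A),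
        Subgroup.subgroupOf_map_subtype, ← Subgroup.card_map_of_injective (f := (MulAut.conj g).toMonoidHom) (MulAut.conj g).injective
          (K := (S : Subgroup A).map A.subtype)]
      refine Subgroup.card_le_of_le (le_inf ?_ ?_)
      · rw [← hg]; exact Subgroup.map_mono hP₁
      · rintro _ ⟨s, hs, rfl⟩
        obtain ⟨s', -, rfl⟩ := hs
        exact Subgroup.Normal.conj_mem inferInstance _ s'.2 g
    exact (Subgroup.eq_of_le_of_card_ge hS hle).ge
  obtain ⟨b, hb⟩ := MulAction.exists_smul_eq A S T₀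
  refine pronormal_of_cj (b : G) ?_
  set H := cj (b : G) H₀ with hH
  set P : Sylow p G := MulAut.conj (b : G) • P₀ with hP
  have hPH : (P : Subgroup G) ≤ H := Subgroup.map_mono hP₀
  have hTeq : T = (P : Subgroup G) ⊓ A := by
    rw [← hT₀, ← hb]
    show (((S : Subgroup A).map (MulAut.conj b).toMonoidHom)).map A.subtype = cj (b : G) (P₀ : Subgroup G) ⊓ A
    rw [hS, Subgroup.map_map,
      show A.subtype.comp (MulAut.conj b).toMonoidHom = (MulAut.conj (b : G)).toMonoidHom.comp A.subtype by ext; simp,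
      ← Subgroup.map_map, Subgroup.subgroupOf_map_subtype, Subgroup.map_inf_eq _ _ _ (MulAut.conj (b : G)).injective]
    congr 1
    exact cj_eq_of_normalizer (by rw [Subgroup.normalizer_eq_top_iff.mpr inferInstance]; trivial)
  have hTP : T ≤ (P : Subgroup G) := hTeq ▸ inf_le_left
  set N := Subgroup.normalizer (T : Set G) with hNdef
  have hPN : (P : Subgroup G) ≤ N := fun x hx => Subgroup.mem_normalizer_fintype fun y hy => by
    rw [hTeq] at hy ⊢
    exact ⟨(P : Subgroup G).mul_mem ((P : Subgroup G).mul_mem hx hy.1) ((P : Subgroup G).inv_mem hx),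
      Subgroup.Normal.conj_mem inferInstance y hy.2 x⟩
  set U := H ⊓ A with hU
  have hTU : T ≤ U := hTeq ▸ inf_le_inf_right A hPH
  set HT := H ⊓ N with hHTdef
  have hUn : ∀ x ∈ H, cj x U = U := fun x hx => by
    rw [hU, cj, Subgroup.map_inf_eq _ _ _ (MulAut.conj x).injective]
    show cj x H ⊓ cj x A = H ⊓ A
    rw [cj_eq_of_normalizer (Subgroup.le_normalizer hx),
      cj_eq_of_normalizer (show x ∈ Subgroup.normalizer (A : Set G) by
        rw [Subgroup.normalizer_eq_top_iff.mpr inferInstance]; trivial)]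
  -- `T` is a Sylow subgroup of `U`
  have hTU' : ∀ x : G, cj x T ≤ U → ∃ u ∈ U, cj x T = cj u T := by
    intro x hx
    have hTcard : ∀ V : Subgroup G, V ≤ A → IsPGroup p V → Nat.card V ≤ Nat.card T := fun V hV hVp => by
      rw [← hT₀, Subgroup.card_map_of_injective A.subtype_injective,
        ← Nat.card_congr (Subgroup.subgroupOfEquivOfLe hV).toEquiv]
      obtain ⟨S', hS'⟩ := (hVp.comap_of_injective A.subtype A.subtype_injective).exists_le_sylow
      exact (Subgroup.card_le_of_le hS').trans (Nat.card_congr (Sylow.equiv S' T₀).toEquiv).le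
    have hTp : IsPGroup p T := P.2.to_le hTP
    have mk : ∀ V : Subgroup G, V ≤ U → IsPGroup p V → Nat.card V = Nat.card T →
        ∃ R : Sylow p U, (R : Subgroup U).map U.subtype = V := by
      intro V hV hVp hVc
      obtain ⟨R, hR⟩ := (hVp.comap_of_injective U.subtype U.subtype_injective).exists_le_sylow
      refine ⟨R, le_antisymm ?_ ?_⟩
      · refine (Subgroup.eq_of_le_of_card_ge ?_ ?_).ge
        · rw [← Subgroup.map_subgroupOf_eq_of_le hV]; exact Subgroup.map_mono hR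
        · rw [hVc]; exact hTcard _ ((Subgroup.map_subtype_le _).trans inf_le_right) (R.2.map _)
      · rw [← Subgroup.map_subgroupOf_eq_of_le hV]; exact Subgroup.map_mono hR
    obtain ⟨R₁, hR₁⟩ := mk T hTU hTp rfl
    obtain ⟨R₂, hR₂⟩ := mk (cj x T) hx (hTp.map _) (Subgroup.card_map_of_injective (MulAut.conj x).injective)
    obtain ⟨u, hu⟩ := MulAction.exists_smul_eq U R₁ R₂
    refine ⟨u, u.2, ?_⟩
    rw [← hR₂, ← hu, ← hR₁]
    show ((R₁ : Subgroup U).map (MulAut.conj u).toMonoidHom).map U.subtype = _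
    rw [cj, Subgroup.map_map, Subgroup.map_map]
    congr 1
  have hHsplit : ∀ h ∈ H, ∃ u ∈ U, u⁻¹ * h ∈ HT := by
    intro h hh
    obtain ⟨u, hu, he⟩ := hTU' h ((Subgroup.map_mono hTU).trans (hUn h hh).le)
    refine ⟨u, hu, H.mul_mem (H.inv_mem hu.1) hh, mem_normalizer_of_cj ?_⟩
    rw [← cj_cj, he, cj_cj, inv_mul_cancel, cj_one]
  have hUHT : U ⊔ HT = H := by
    refine le_antisymm (sup_le inf_le_left inf_le_left) fun h hh => ?_
    obtain ⟨u, hu, hm⟩ := hHsplit h hh
    simpa using Subgroup.mul_mem_sup hu hm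
  intro g
  set π := QuotientGroup.mk' A
  have hπ := QuotientGroup.mk'_surjective A
  obtain ⟨x₁, hx₁, he₁⟩ := hQ (H.map π) ⟨P.mapSurjective hπ, Subgroup.map_mono hPH⟩ (π g)
  set J := H ⊔ cj g H with hJ
  obtain ⟨x, hxJ, rfl⟩ : ∃ x ∈ J, π x = x₁ := by
    have : x₁ ∈ J.map π := by
      rw [hJ, Subgroup.map_sup, map_cj π g H]; exact hx₁
    exact this
  change cj (π g) (H.map π) = cj (π x) (H.map π) at he₁
  have hmem : π (x⁻¹ * g) ∈ Subgroup.normalizer ((H.map π : Subgroup (G ⧸ A)) : Set (G ⧸ A)) :=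
    mem_normalizer_of_cj (by rw [map_mul, map_inv, ← cj_cj, he₁, cj_cj, inv_mul_cancel, cj_one])
  rw [← hII H ⟨P, hPH⟩] at hmem
  obtain ⟨n, hn, hne⟩ := hmem
  set a := x⁻¹ * g * n⁻¹ with ha
  have haA : a ∈ A := by
    have : π a = 1 := by rw [ha, map_mul, map_inv, ← hne, mul_inv_cancel]
    exact (QuotientGroup.eq_one_iff a).mp this
  have hga : cj g H = cj (x * a) H := by
    conv_lhs => rw [show g = x * a * n by rw [ha]; group]
    rw [← cj_cj, cj_eq_of_normalizer hn]
  have hxH : cj a H ≤ J := by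
    have h2 : cj x⁻¹ (cj g H) ≤ J := cj_le_of_mem (J.inv_mem hxJ) le_sup_right
    rwa [hga, cj_cj, inv_mul_cancel_left] at h2
  -- inside `A`
  obtain ⟨y, hy, he₂⟩ := hA (U.subgroupOf A) ⟨T₀, fun t ht => Subgroup.mem_subgroupOf.mpr
    (hTU (hT₀ ▸ ⟨t, ht, rfl⟩))⟩ ⟨a, haA⟩
  have hUA : U ≤ A := inf_le_right
  have hmapU : ∀ c : A, ((U.subgroupOf A).map (MulAut.conj c).toMonoidHom).map A.subtype = cj (c : G) U := by
    intro c
    rw [Subgroup.map_map,
      show A.subtype.comp (MulAut.conj c).toMonoidHom = (MulAut.conj (c : G)).toMonoidHom.comp A.subtype by ext; simp,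
      ← Subgroup.map_map, Subgroup.map_subgroupOf_eq_of_le hUA]
  have hyJ : (y : G) ∈ J := by
    have h3 := Subgroup.mem_map_of_mem A.subtype hy
    rw [Subgroup.map_sup, hmapU, Subgroup.map_subgroupOf_eq_of_le hUA] at h3
    exact (sup_le (inf_le_left.trans le_sup_left) ((Subgroup.map_mono inf_le_left).trans hxH) :
      U ⊔ cj a U ≤ J) h3
  have he₂' : cj a U = cj (y : G) U := by
    have := congrArg (Subgroup.map A.subtype) he₂
    rwa [hmapU, hmapU] at this
  set a₁ := (y : G)⁻¹ * a with ha₁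
  have ha₁U : cj a₁ U = U := by
    rw [ha₁, ← cj_cj, he₂', cj_cj, inv_mul_cancel, cj_one]
  obtain ⟨u, hu, he₃⟩ := hTU' a₁ ((Subgroup.map_mono hTU).trans ha₁U.le)
  set a₂ := u⁻¹ * a₁ with ha₂
  have huH : u ∈ H := hu.1
  have ha₂U : cj a₂ U = U := by
    rw [ha₂, ← cj_cj, ha₁U, hUn _ (H.inv_mem huH)]
  have ha₂N : a₂ ∈ N := mem_normalizer_of_cj (by rw [ha₂, ← cj_cj, he₃, cj_cj, inv_mul_cancel, cj_one])
  have ha₂J : cj a₂ H ≤ J := by
    have h4 : cj (u⁻¹ * (y : G)⁻¹) (cj a H) ≤ J :=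
      cj_le_of_mem (J.mul_mem (J.inv_mem (Subgroup.mem_sup_left huH)) (J.inv_mem hyJ)) hxH
    rwa [cj_cj, mul_assoc] at h4
  -- inside the normalizer of `T`
  set τ := QuotientGroup.mk' (T.subgroupOf N)
  have hHTN : HT ≤ N := inf_le_right
  set L := HT.subgroupOf N with hL
  have hkerL : T.subgroupOf N ≤ L := fun t ht => Subgroup.mem_subgroupOf.mpr ⟨(hTU ht).1, t.2⟩
  obtain ⟨z₁, hz₁, he₄⟩ := hN (L.map τ) ⟨(P.subtype hPN).mapSurjective (QuotientGroup.mk'_surjective _),
    Subgroup.map_mono fun w hw => Subgroup.mem_subgroupOf.mpr ⟨hPH hw, w.2⟩⟩ (τ ⟨a₂, ha₂N⟩)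
  change cj (τ ⟨a₂, ha₂N⟩) (L.map τ) = cj z₁ (L.map τ) at he₄
  change z₁ ∈ L.map τ ⊔ cj (τ ⟨a₂, ha₂N⟩) (L.map τ) at hz₁
  rw [← map_cj, ← Subgroup.map_sup] at hz₁
  obtain ⟨z, hz, rfl⟩ := hz₁
  rw [← map_cj, ← map_cj] at he₄
  have hker : ∀ w : N, τ.ker ≤ cj w L := fun w => by
    rw [QuotientGroup.ker_mk']
    intro t ht
    exact ⟨w⁻¹ * t * w, hkerL (by simpa using Subgroup.Normal.conj_mem inferInstance t ht w⁻¹), by simp [mul_assoc]⟩
  have he₅ : cj ⟨a₂, ha₂N⟩ L = cj z L := by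
    have := congrArg (Subgroup.comap τ) he₄
    rwa [Subgroup.comap_map_eq, Subgroup.comap_map_eq, sup_eq_left.mpr (hker _), sup_eq_left.mpr (hker _)] at this
  have he₆ : cj a₂ HT = cj (z : G) HT := by
    have := congrArg (Subgroup.map N.subtype) he₅
    rwa [map_cj, map_cj, hL, Subgroup.map_subgroupOf_eq_of_le hHTN] at this
  have hzmem : (z : G) ∈ HT ⊔ cj a₂ HT := by
    have := Subgroup.mem_map_of_mem N.subtype hz
    rwa [Subgroup.map_sup, map_cj, hL, Subgroup.map_subgroupOf_eq_of_le hHTN] at this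
  have hzU : cj (z : G) U = U := by
    have hle : HT ⊔ cj a₂ HT ≤ Subgroup.normalizer (U : Set G) := sup_le
      (fun w hw => mem_normalizer_of_cj (hUn w hw.1))
      (cj_le_of_mem (mem_normalizer_of_cj ha₂U) fun w hw => mem_normalizer_of_cj (hUn w hw.1))
    exact cj_eq_of_normalizer (hle hzmem)
  have he₇ : cj a₂ H = cj (z : G) H := by
    rw [← hUHT, cj, cj, Subgroup.map_sup, Subgroup.map_sup]
    show cj a₂ U ⊔ cj a₂ HT = cj (z : G) U ⊔ cj (z : G) HT
    rw [ha₂U, hzU, he₆]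
  have hzJ : (z : G) ∈ J :=
    (sup_le (inf_le_left.trans le_sup_left) ((Subgroup.map_mono inf_le_left).trans ha₂J) : HT ⊔ cj a₂ HT ≤ J) hzmem
  refine ⟨x * ((y : G) * (u * z)), J.mul_mem hxJ (J.mul_mem hyJ (J.mul_mem (Subgroup.mem_sup_left huH) hzJ)), ?_⟩
  show cj g H = cj (x * ((y : G) * (u * (z : G)))) H
  rw [hga, show x * a = x * ((y : G) * u) * a₂ by rw [ha₂, ha₁]; group, ← cj_cj (x * ((y : G) * u)) a₂ H, he₇,
    cj_cj (x * ((y : G) * u)) (z : G) H]
  simp only [mul_assoc]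

/-- The conditions are necessary. -/
theorem conditions_of_all (A : Subgroup G) [A.Normal]
    (T : Subgroup G) (hT : ∃ P : Sylow p ↥A, (P : Subgroup ↥A).map A.subtype = T)
    [(T.subgroupOf (Subgroup.normalizer (T : Set G))).Normal]
    (hall : ∀ K : Subgroup G, (∃ P : Sylow p G, (P : Subgroup G) ≤ K) → Cfsg.IsPronormal K) :
    (∀ K : Subgroup (↥(Subgroup.normalizer (T : Set G)) ⧸ T.subgroupOf (Subgroup.normalizer (T : Set G))),
      (∃ P : Sylow p (↥(Subgroup.normalizer (T : Set G)) ⧸ T.subgroupOf (Subgroup.normalizer (T : Set G))),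
        (P : Subgroup (↥(Subgroup.normalizer (T : Set G)) ⧸ T.subgroupOf (Subgroup.normalizer (T : Set G)))) ≤ K) →
      Cfsg.IsPronormal K) ∧
      ∀ K : Subgroup G, (∃ P : Sylow p G, (P : Subgroup G) ≤ K) →
        (Subgroup.normalizer (K : Set G)).map (QuotientGroup.mk' A) =
          Subgroup.normalizer ((K.map (QuotientGroup.mk' A) : Subgroup (G ⧸ A)) : Set (G ⧸ A)) := by
  refine ⟨?_, ?_⟩
  · obtain ⟨T₀, hT₀⟩ := hT
    set N := Subgroup.normalizer (T : Set G) with hNdef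
    set τ := QuotientGroup.mk' (T.subgroupOf N)
    have hτ := QuotientGroup.mk'_surjective (T.subgroupOf N)
    have hTp : IsPGroup p T := hT₀ ▸ T₀.2.map A.subtype
    obtain ⟨P₁, hP₁⟩ := hTp.exists_le_sylow
    have hTA : T ≤ A := hT₀ ▸ Subgroup.map_subtype_le _
    have hTeq : (P₁ : Subgroup G) ⊓ A = T := by
      refine le_antisymm ?_ (le_inf hP₁ hTA)
      have h1 : (P₁ : Subgroup G).subgroupOf A = (T₀ : Subgroup A) :=
        T₀.3 (P₁.2.comap_of_injective A.subtype A.subtype_injective)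
          fun t ht => Subgroup.mem_subgroupOf.mpr (hP₁ (hT₀ ▸ ⟨t, ht, rfl⟩))
      rw [← hT₀, ← h1, Subgroup.subgroupOf_map_subtype]
    have hP₁N : (P₁ : Subgroup G) ≤ N := fun x hx => Subgroup.mem_normalizer_fintype fun y hy => by
      have hy' : y ∈ (P₁ : Subgroup G) ⊓ A := hTeq.ge hy
      exact hTeq.le ⟨(P₁ : Subgroup G).mul_mem ((P₁ : Subgroup G).mul_mem hx hy'.1) ((P₁ : Subgroup G).inv_mem hx),
        Subgroup.Normal.conj_mem inferInstance y hy'.2 x⟩
    rintro K ⟨R, hR⟩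
    set L := (K.comap τ).map N.subtype with hL
    have hkp : IsPGroup p τ.ker := by
      rw [QuotientGroup.ker_mk']
      exact hTp.of_equiv (Subgroup.subgroupOfEquivOfLe Subgroup.le_normalizer).symm
    have hRp : IsPGroup p ((R : Subgroup _).comap τ) := R.2.comap_of_ker_isPGroup τ hkp
    have hidx : ¬ p ∣ (((R : Subgroup _).comap τ).map N.subtype).index := by
      rw [Subgroup.index_map_subtype, Subgroup.index_comap_of_surjective _ hτ]
      intro hd
      rcases (Fact.out : p.Prime).dvd_mul.mp hd with h | h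
      · exact R.not_dvd_index h
      · exact P₁.not_dvd_index (h.trans (Subgroup.index_dvd_of_le hP₁N))
    have hpro := hall L ⟨(hRp.map N.subtype).toSylow hidx, Subgroup.map_mono (Subgroup.comap_mono hR)⟩
    intro g
    obtain ⟨g', rfl⟩ := hτ g
    obtain ⟨x, hx, he⟩ := hpro (g' : G)
    change x ∈ L ⊔ cj (N.subtype g') L at hx
    change cj (N.subtype g') L = cj x L at he
    rw [hL, ← map_cj, ← Subgroup.map_sup] at hx
    obtain ⟨x', hx', rfl⟩ := hx
    rw [hL, ← map_cj, ← map_cj] at he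
    have he' := Subgroup.map_injective N.subtype_injective he
    refine ⟨τ x', ?_, ?_⟩
    · have h2 := Subgroup.mem_map_of_mem τ hx'
      rwa [Subgroup.map_sup, map_cj, Subgroup.map_comap_eq_self_of_surjective hτ] at h2
    · have h3 := congrArg (Subgroup.map τ) he'
      rwa [map_cj, map_cj, Subgroup.map_comap_eq_self_of_surjective hτ] at h3
  · intro K hK
    set π := QuotientGroup.mk' A
    refine le_antisymm ?_ ?_
    · rintro _ ⟨n, hn, rfl⟩
      exact mem_normalizer_of_cj (by rw [← map_cj, cj_eq_of_normalizer hn])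
    · intro g hg
      obtain ⟨g, rfl⟩ := QuotientGroup.mk'_surjective A g
      obtain ⟨x, hx, he⟩ := hall K hK g
      change x ∈ K ⊔ cj g K at hx
      change cj g K = cj x K at he
      have hn : x⁻¹ * g ∈ Subgroup.normalizer (K : Set G) :=
        mem_normalizer_of_cj (by rw [← cj_cj, he, cj_cj, inv_mul_cancel, cj_one])
      have hx' : π x ∈ K.map π := by
        have h2 := Subgroup.mem_map_of_mem π hx
        rwa [Subgroup.map_sup, map_cj, cj_eq_of_normalizer hg, sup_idem] at h2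
      have h3 : π x ∈ (Subgroup.normalizer (K : Set G)).map π := Subgroup.map_mono Subgroup.le_normalizer hx'
      have h4 := mul_mem h3 (Subgroup.mem_map_of_mem π hn)
      rwa [← map_mul, mul_inv_cancel_left] at h4

end CfsgLib.Hall.Pronormal
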