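/-
Pronormality of a supplement of an abelian normal subgroup.
-/
import Cfsg.Agent.Hall.Basic
import Cfsg.Prelude.Def_HallClasses

set_option autoImplicit false
set_option linter.style.haveILetI false

namespace CfsgLib.Hall.Pronormal

open scoped commutatorElement Pointwise

variable {G : Type*} [Group G]

theorem map_conj_eq_of_normalizer {H : Subgroup G} {n : G} (hn : n ∈ Subgroup.normalizer (H : Set G)) (a : G) :
    H.map (MulAut.conj (a * n)).toMonoidHom = H.map (MulAut.conj a).toMonoidHom := by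
  ext y
  constructor
  · rintro ⟨h, hh, rfl⟩
    exact ⟨n * h * n⁻¹, (Subgroup.mem_normalizer_iff.mp hn h).mp hh, by simp [mul_assoc]⟩
  · rintro ⟨h, hh, rfl⟩
    exact ⟨n⁻¹ * h * n, (Subgroup.mem_normalizer_iff''.mp hn h).mp hh, by simp [mul_assoc]⟩

theorem supplement_criterion [Finite G] (V : Subgroup G) [V.Normal] (hV : IsMulCommutative ↥V) (H : Subgroup G)
    (hHV : H ⊔ V = ⊤) :
    Cfsg.IsPronormal H ↔
      ∀ U : Subgroup G, U ≤ V → (∀ h ∈ H, U.map (MulAut.conj h).toMonoidHom = U) →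
        U = (U ⊓ Subgroup.normalizer (H : Set G)) ⊔ ⁅H, U⁆ := by
  have hc : ∀ a ∈ V, ∀ b ∈ V, a * b = b * a := fun a ha b hb =>
    congrArg Subtype.val (hV.is_comm.comm (⟨a, ha⟩ : V) ⟨b, hb⟩)
  constructor
  · intro hpro U hUV hU
    have hinv : ∀ h ∈ H, ∀ u ∈ U, h * u * h⁻¹ ∈ U := fun h hh u hu => (hU h hh).le ⟨u, hu, rfl⟩
    have hle : ⁅H, U⁆ ≤ U := Subgroup.commutator_le.mpr fun h hh u hu => by
      rw [commutatorElement_def]; exact U.mul_mem (hinv h hh u hu) (U.inv_mem hu)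
    have hHN : H ≤ Subgroup.normalizer ((⁅H, U⁆ : Subgroup G) : Set G) := fun k hk => Subgroup.mem_normalizer_fintype fun y hy => by
      have hle' : ⁅H, U⁆ ≤ (⁅H, U⁆).comap (MulAut.conj k).toMonoidHom := Subgroup.commutator_le.mpr fun h hh u hu => by
        show k * ⁅h, u⁆ * k⁻¹ ∈ ⁅H, U⁆
        rw [show k * ⁅h, u⁆ * k⁻¹ = ⁅k * h * k⁻¹, k * u * k⁻¹⁆ by simp only [commutatorElement_def]; group]
        exact Subgroup.commutator_mem_commutator (H.mul_mem (H.mul_mem hk hh) (H.inv_mem hk)) (hinv k hk u hu)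
      exact hle' hy
    refine le_antisymm (fun u hu => ?_) (sup_le inf_le_left hle)
    obtain ⟨x, hx, he⟩ := hpro u
    have hxle : H ⊔ H.map (MulAut.conj u).toMonoidHom ≤ ⁅H, U⁆ ⊔ H := by
      refine sup_le le_sup_right ?_
      rintro _ ⟨h, hh, rfl⟩
      show u * h * u⁻¹ ∈ _
      rw [show u * h * u⁻¹ = (⁅h, u⁆)⁻¹ * h by rw [commutatorElement_def]; group]
      exact Subgroup.mul_mem_sup ((⁅H, U⁆).inv_mem (Subgroup.commutator_mem_commutator hh hu)) hh
    obtain ⟨c, hcm, h, hh, rfl⟩ := exists_mul_of_mem_sup hHN (hxle hx)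
    rw [map_conj_eq_of_normalizer (Subgroup.le_normalizer hh)] at he
    have hn : c⁻¹ * u ∈ Subgroup.normalizer (H : Set G) := by
      refine Subgroup.mem_normalizer_fintype fun y hy => ?_
      obtain ⟨z, hz, hzy⟩ := he.le (show (MulAut.conj u) y ∈ H.map (MulAut.conj u).toMonoidHom from ⟨y, hy, rfl⟩)
      have hzy' : c * z * c⁻¹ = u * y * u⁻¹ := hzy
      rw [show c⁻¹ * u * y * (c⁻¹ * u)⁻¹ = c⁻¹ * (u * y * u⁻¹) * c by group, ← hzy']
      simpa [mul_assoc] using hz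
    have := Subgroup.mul_mem_sup (show c⁻¹ * u ∈ U ⊓ Subgroup.normalizer (H : Set G) from
      ⟨U.mul_mem (U.inv_mem (hle hcm)) hu, hn⟩) hcm
    rwa [hc _ (hUV (U.mul_mem (U.inv_mem (hle hcm)) hu)) c (hUV (hle hcm)), mul_inv_cancel_left] at this
  · intro hcrit g
    obtain ⟨v, hv, h, hh, rfl⟩ := exists_mul_of_mem_sup (A := V) (H := H)
      (by rw [Subgroup.normalizer_eq_top_iff.mpr inferInstance]; exact le_top)
      (show g ∈ V ⊔ H by rw [sup_comm, hHV]; trivial)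
    rw [map_conj_eq_of_normalizer (Subgroup.le_normalizer hh)]
    set L := H ⊔ H.map (MulAut.conj v).toMonoidHom with hL
    have hmemV : ∀ k : G, ∀ u ∈ V, ⁅k, u⁆ ∈ V := fun k u hu => by
      rw [commutatorElement_def]; exact V.mul_mem (Subgroup.Normal.conj_mem inferInstance u hu k) (V.inv_mem hu)
    have hmul : ∀ k : G, ∀ a ∈ V, ∀ b ∈ V, ⁅k, a * b⁆ = ⁅k, a⁆ * ⁅k, b⁆ := fun k a ha b hb => by
      rw [show ⁅k, a * b⁆ = ⁅k, a⁆ * (a * ⁅k, b⁆ * a⁻¹) by simp only [commutatorElement_def]; group,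
        hc a ha _ (hmemV k b hb), mul_inv_cancel_right]
    let U₀ : Subgroup G :=
      { carrier := {u | u ∈ V ∧ ∀ k ∈ H, ⁅k, u⁆ ∈ L}
        one_mem' := ⟨V.one_mem, fun k _ => by rw [commutatorElement_one_right]; exact L.one_mem⟩
        mul_mem' := fun {a b} ha hb => ⟨V.mul_mem ha.1 hb.1, fun k hk => by
          rw [hmul k a ha.1 b hb.1]; exact L.mul_mem (ha.2 k hk) (hb.2 k hk)⟩
        inv_mem' := fun {a} ha => ⟨V.inv_mem ha.1, fun k hk => by
          have h1 := hmul k a ha.1 a⁻¹ (V.inv_mem ha.1)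
          rw [mul_inv_cancel, commutatorElement_one_right] at h1
          rw [eq_inv_of_mul_eq_one_right h1.symm]
          exact L.inv_mem (ha.2 k hk)⟩ }
    have hinv : ∀ k ∈ H, ∀ u ∈ U₀, k * u * k⁻¹ ∈ U₀ := fun k hk u hu =>
      ⟨Subgroup.Normal.conj_mem inferInstance u hu.1 k, fun m hm => by
        rw [show ⁅m, k * u * k⁻¹⁆ = k * ⁅k⁻¹ * m * k, u⁆ * k⁻¹ by simp only [commutatorElement_def]; group]
        exact L.mul_mem (L.mul_mem (Subgroup.mem_sup_left hk)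
          (hu.2 _ (H.mul_mem (H.mul_mem (H.inv_mem hk) hm) hk))) (L.inv_mem (Subgroup.mem_sup_left hk))⟩
    have hvU : v ∈ U₀ := ⟨hv, fun k hk => by
      rw [show ⁅k, v⁆ = k * (v * k⁻¹ * v⁻¹) by rw [commutatorElement_def]; group]
      exact L.mul_mem (Subgroup.mem_sup_left hk) (Subgroup.mem_sup_right ⟨k⁻¹, H.inv_mem hk, rfl⟩)⟩
    have hUeq := hcrit U₀ (fun u hu => hu.1) (fun k hk => le_antisymm
      (by rintro _ ⟨u, hu, rfl⟩; exact hinv k hk u hu)
      (fun u hu => ⟨k⁻¹ * u * k, by simpa using hinv k⁻¹ (H.inv_mem hk) u hu, by simp [mul_assoc]⟩))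
    have hCle : ⁅H, U₀⁆ ≤ U₀ ⊓ L := Subgroup.commutator_le.mpr fun k hk u hu =>
      ⟨by rw [commutatorElement_def]; exact U₀.mul_mem (hinv k hk u hu) (U₀.inv_mem hu), hu.2 k hk⟩
    haveI : IsMulCommutative V := hV
    obtain ⟨n, hn, c, hcm, rfl⟩ := exists_mul_of_mem_sup (A := U₀ ⊓ Subgroup.normalizer (H : Set G)) (H := ⁅H, U₀⁆)
      (fun c hc' => Subgroup.centralizer_le_normalizer _ (Subgroup.mem_centralizer_iff.mpr fun n hn =>
        hc n hn.1.1 c (hCle hc').1.1)) (hUeq.le hvU)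
    refine ⟨c, (hCle hcm).2, ?_⟩
    rw [hc n hn.1.1 c (hCle hcm).1.1, map_conj_eq_of_normalizer hn.2]

end CfsgLib.Hall.Pronormal
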