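import Cfsg.Agent.Hall.Pi
import Cfsg.Agent.PLocalBasics.ActionStable
import Cfsg.Agent.PCore.PSolvable
import Cfsg.Agent.Components.Cores

/-!
The centralizer of a self-centralizing normal subgroup of the Fitting subgroup of a Hall subgroup.
-/

set_option autoImplicit false
set_option linter.style.haveILetI false

namespace CfsgLib.Hall.SCN

open scoped commutatorElement Pointwise

universe u

theorem pow_mem_of_coprime {T : Type u} [Group T] (C : Subgroup T) [C.Normal] {w : T} {a b : ℕ}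
    (ha : w ^ a ∈ C) (hb : w ^ b ∈ C) (hab : a.Coprime b) : w ∈ C := by
  rw [← QuotientGroup.eq_one_iff] at ha hb ⊢
  have := pow_gcd_eq_one.2 ⟨(by simpa using ha : (QuotientGroup.mk w : T ⧸ C) ^ a = 1),
    (by simpa using hb : (QuotientGroup.mk w : T ⧸ C) ^ b = 1)⟩
  rwa [hab.gcd_eq_one, pow_one] at this

/-- An element acting quadratically on all `O_r`, `r ≥ 5`, of a solvable group lies in the Fitting subgroup. -/
theorem mem_fitting_of_quadratic {T : Type u} [Group T] [Finite T] [Group.IsSolvable T]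
    (h5 : ∀ r : ℕ, r.Prime → Cfsg.pCore r T ≠ ⊥ → 5 ≤ r) (u : T)
    (hq : ∀ r : ℕ, r.Prime → ⁅⁅Cfsg.pCore r T, Subgroup.zpowers u⁆, Subgroup.zpowers u⁆ = ⊥) :
    u ∈ Cfsg.fittingSubgroup T := by
  classical
  haveI : ∀ r : ℕ, (Cfsg.pCore r T).Normal := fun r => Cfsg.pCore_normal r T
  haveI : (Cfsg.fittingSubgroup T).Normal := Components.fittingSubgroup_normal
  have hst : ∀ r : ℕ, r.Prime → ∃ D : Subgroup T, D.Normal ∧ u ∈ D ∧
      ∀ x ∈ D, ∃ e, x ^ r ^ e ∈ Subgroup.centralizer (Cfsg.pCore r T : Set T) := by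
    intro r hr
    haveI := Fact.mk hr
    by_cases h0 : Cfsg.pCore r T = ⊥
    · exact ⟨⊤, inferInstance, trivial, fun x _ => ⟨0, Subgroup.mem_centralizer_iff.2 fun v hv => by
        rw [h0] at hv; rw [Subgroup.mem_bot.1 hv, one_mul, mul_one]⟩⟩
    have h5' := h5 r hr h0
    have hmem := PLocalBasics.isPStableOn_of_not_involves (p := r) (by omega)
      (PLocalBasics.not_involves_of_isPSolvable h5' PCore.isPSolvable_of_isSolvable) (Cfsg.pCore r T)
      (PCore.isPGroup_pCore r T) u (hq r hr)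
    set C := Subgroup.centralizer (Cfsg.pCore r T : Set T)
    haveI := Cfsg.pCore_normal r (T ⧸ C)
    refine ⟨(Cfsg.pCore r (T ⧸ C)).comap (QuotientGroup.mk' C), inferInstance, hmem, fun x hx => ?_⟩
    obtain ⟨e, he⟩ := PCore.isPGroup_pCore r (T ⧸ C) ⟨_, hx⟩
    refine ⟨e, (QuotientGroup.eq_one_iff _).1 ?_⟩
    have h1 := congrArg Subtype.val he
    simpa using h1
  choose D hDn huD hDe using hst
  have hn0 : orderOf u ≠ 0 := (orderOf_pos u).ne'
  by_contra hu
  have hu1 : orderOf (QuotientGroup.mk' (Cfsg.fittingSubgroup T) u) ≠ 1 := fun h =>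
    hu ((QuotientGroup.eq_one_iff _).1 (orderOf_eq_one_iff.1 h))
  obtain ⟨r, hr, hrd⟩ := Nat.exists_prime_and_dvd hu1
  haveI := Fact.mk hr
  obtain ⟨i, m, hm, hord⟩ := Nat.exists_eq_pow_mul_and_not_dvd hn0 r hr.ne_one
  set w := u ^ m with hw
  have hwr : w ^ r ^ i = 1 := by rw [hw, ← pow_mul, mul_comm, ← hord, pow_orderOf_eq_one]
  set K : Subgroup T := ⨆ s : {s : (Nat.card T).primeFactors // (s : ℕ) ≠ r}, Cfsg.pCore (s.1 : ℕ) T with hK
  haveI : K.Normal := by
    rw [hK, iSup]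
    exact Subgroup.sSup_normal _ (by rintro _ ⟨s, rfl⟩; exact Cfsg.pCore_normal _ T)
  haveI := hDn r hr
  set M := D r hr ⊓ Subgroup.centralizer (K : Set T) with hM
  haveI : M.Normal := Subgroup.normal_inf_normal _ _
  have hwM : w ∈ M := by
    refine ⟨(D r hr).pow_mem (huD r hr) m, ?_⟩
    suffices hle : K ≤ Subgroup.centralizer ({w} : Set T) from Subgroup.mem_centralizer_iff.2 fun v hv =>
      Subgroup.mem_centralizer_singleton_iff.1 (hle hv)
    refine iSup_le fun s => ?_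
    have hsp : Nat.Prime (s.1 : ℕ) := Nat.prime_of_mem_primeFactors s.1.2
    obtain ⟨e, he⟩ := hDe _ hsp w ((D _ hsp).pow_mem (huD _ hsp) m)
    have h1 : w ∈ Subgroup.centralizer (Cfsg.pCore (s.1 : ℕ) T : Set T) :=
      pow_mem_of_coprime _ he (hwr ▸ one_mem _) (((Nat.coprime_primes hsp hr).2 s.2).pow e i)
    exact fun v hv => Subgroup.mem_centralizer_singleton_iff.2 (Subgroup.mem_centralizer_iff.1 h1 v hv)
  have hFK : Cfsg.fittingSubgroup T ≤ Cfsg.pCore r T ⊔ K := by
    rw [Components.fittingSubgroup_eq_iSup]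
    refine iSup_le fun s => ?_
    by_cases hs : (s : ℕ) = r
    · rw [hs]; exact le_sup_left
    · exact le_sup_of_le_right (le_iSup (fun s : {s : (Nat.card T).primeFactors // (s : ℕ) ≠ r} =>
        Cfsg.pCore (s.1 : ℕ) T) ⟨s, hs⟩)
  have hpow : IsPGroup r (↥M ⧸ K.subgroupOf M) := by
    intro x
    obtain ⟨x, rfl⟩ := QuotientGroup.mk'_surjective (K.subgroupOf M) x
    obtain ⟨e, he⟩ := hDe r hr x x.2.1
    have hxF : (x : T) ^ r ^ e ∈ Cfsg.fittingSubgroup T := by
      refine centralizer_fitting_le (Subgroup.mem_centralizer_iff.2 fun v hv => ?_)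
      have hle : Cfsg.pCore r T ⊔ K ≤ Subgroup.centralizer ({(x : T) ^ r ^ e} : Set T) := sup_le
        (fun y hy => Subgroup.mem_centralizer_singleton_iff.2 (Subgroup.mem_centralizer_iff.1 he y hy))
        (fun y hy => Subgroup.mem_centralizer_singleton_iff.2
          (Subgroup.mem_centralizer_iff.1 ((Subgroup.centralizer (K : Set T)).pow_mem x.2.2 _) y hy))
      exact Subgroup.mem_centralizer_singleton_iff.1 (hle (hFK hv))
    obtain ⟨a, ha, b, hb, hab⟩ := Subgroup.mem_sup_of_normal_left.1 (hFK hxF)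
    obtain ⟨j, hj⟩ := PCore.isPGroup_pCore r T ⟨a, ha⟩
    refine ⟨e + j, ?_⟩
    rw [← map_pow]
    refine (QuotientGroup.eq_one_iff _).2 ?_
    show (x : T) ^ r ^ (e + j) ∈ K
    rw [pow_add, pow_mul, ← hab, ← QuotientGroup.eq_one_iff]
    show QuotientGroup.mk' K ((a * b) ^ r ^ j) = 1
    rw [map_pow, map_mul, show QuotientGroup.mk' K b = 1 from (QuotientGroup.eq_one_iff b).2 hb, mul_one,
      ← map_pow, show a ^ r ^ j = 1 from congrArg Subtype.val hj, map_one]
  haveI : Group.IsNilpotent (↥M ⧸ K.subgroupOf M) := hpow.isNilpotent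
  have hnil : Group.IsNilpotent ↥M := by
    refine Subgroup.isNilpotent_of_ker_le_center (QuotientGroup.mk' (K.subgroupOf M)) ?_
    rw [QuotientGroup.ker_mk']
    intro k hk
    exact Subgroup.mem_center_iff.2 fun v => Subtype.ext (Subgroup.mem_centralizer_iff.1 v.2.2 k hk).symm
  have hwF : w ∈ Cfsg.fittingSubgroup T := Components.le_fittingSubgroup inferInstance hnil hwM
  have h1 : orderOf (QuotientGroup.mk' (Cfsg.fittingSubgroup T) u) ∣ m := by
    refine orderOf_dvd_of_pow_eq_one ?_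
    rw [← map_pow]
    exact (QuotientGroup.eq_one_iff _).2 hwF
  exact hm (hrd.trans h1)

theorem exists_complement_centralizer {S : Type u} [Group S] [Finite S] [Group.IsSolvable S]
    (π : Set ℕ) (h2 : 2 ∉ π) (h3 : 3 ∉ π) (H : Subgroup S) (hH : Cfsg.IsPiHall π H)
    (A : Subgroup S) (hA : Cfsg.IsSCN ((Cfsg.fittingSubgroup H).map H.subtype) A) :
    ∃ D : Subgroup S, D ≤ Subgroup.centralizer (A : Set S) ∧
      (∀ c ∈ Subgroup.centralizer (A : Set S), ∀ d ∈ D, c * d * c⁻¹ ∈ D) ∧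
      A ⊓ D = ⊥ ∧ A ⊔ D = Subgroup.centralizer (A : Set S) ∧
      ∀ q : ℕ, q.Prime → q ∣ Nat.card D → q ∉ π := by
  classical
  obtain ⟨hAF, hAn, hAC⟩ := hA
  set O := Cfsg.piCore πᶜ S with hO
  set fH := (Cfsg.fittingSubgroup H).map H.subtype with hfH
  have hAH : A ≤ H := hAF.trans (Subgroup.map_subtype_le _)
  have hHπ : Cfsg.IsPiSubgroup π H := hH.1
  have hcop : (Nat.card H).Coprime (Nat.card O) := coprime_of_pi hHπ isPiSubgroup_piCore
  have hdisj : H ⊓ O = ⊥ := Subgroup.inf_eq_bot_of_coprime hcop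
  have hcomm : ∀ a ∈ A, ∀ b ∈ A, a * b = b * a := fun a ha b hb =>
    Subgroup.mem_centralizer_iff.1 ((hAC.ge hb).2) a ha
  refine ⟨O ⊓ Subgroup.centralizer (A : Set S), inf_le_right, fun c hc d hd =>
      ⟨Subgroup.Normal.conj_mem inferInstance d hd.1 c, (Subgroup.centralizer (A : Set S)).mul_mem ((Subgroup.centralizer (A : Set S)).mul_mem hc hd.2) ((Subgroup.centralizer (A : Set S)).inv_mem hc)⟩,
    le_bot_iff.1 ((inf_le_inf hAH inf_le_left).trans hdisj.le),
    le_antisymm (sup_le (fun a ha => Subgroup.mem_centralizer_iff.2 fun b hb => hcomm b hb a ha) inf_le_right) ?_,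
    fun q hq hd => isPiSubgroup_piCore q hq (hd.trans (Subgroup.card_dvd_of_le inf_le_left))⟩
  intro u hu
  set f := QuotientGroup.mk' O with hf
  have hinj : ∀ h ∈ H, f h = 1 → h = 1 := fun h hh h1 =>
    Subgroup.mem_bot.1 (hdisj ▸ ⟨hh, (QuotientGroup.eq_one_iff h).1 h1⟩)
  have hbot : Cfsg.piCore πᶜ (S ⧸ O) = ⊥ := piCore_quotient_eq_bot
  haveI : Group.IsSolvable (S ⧸ O) :=
    Group.isSolvable_of_surjective (QuotientGroup.mk'_surjective O)
  set F := Cfsg.fittingSubgroup (S ⧸ O) with hF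
  haveI hFn : F.Normal := Components.fittingSubgroup_normal
  have hsmall : ∀ r : ℕ, r.Prime → r ∉ π → Cfsg.pCore r (S ⧸ O) = ⊥ := fun r hr hrπ => by
    haveI := Fact.mk hr
    exact le_bot_iff.1 (hbot ▸ pCore_le_piCore (π := πᶜ) hrπ)
  have hFπ : F ≤ Cfsg.piCore π (S ⧸ O) := by
    rw [hF, Components.fittingSubgroup_eq_iSup]
    refine iSup_le fun r => ?_
    haveI := Fact.mk (Nat.prime_of_mem_primeFactors r.2)
    by_cases hr : (r : ℕ) ∈ π
    · exact pCore_le_piCore hr
    · rw [hsmall r Fact.out hr]; exact bot_le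
  have hFH : F ≤ H.map f := by
    obtain ⟨g, hg⟩ := pi_dominance (IsPiHall.map_mk' hH O) (isPiSubgroup_piCore (π := π) (G := S ⧸ O))
    intro x hx
    have h1 := hg ((Cfsg.piCore_normal π _).conj_mem x (hFπ hx) g)
    rw [Subgroup.mem_pointwise_smul_iff_inv_smul_mem] at h1
    simpa [f, MulAut.smul_def, MulAut.conj_inv_apply, mul_assoc] using h1
  -- preimages in `H` lie in its Fitting subgroup
  have hlift : ∀ h ∈ H, f h ∈ F → h ∈ fH := by
    intro h hh hhF
    set F0 : Subgroup H := F.comap (f.comp H.subtype) with hF0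
    let φ : F0 →* F := ((f.comp H.subtype).comp F0.subtype).codRestrict F fun x => x.2
    have hφ : Function.Injective φ := by
      rw [← MonoidHom.ker_eq_bot_iff, Subgroup.eq_bot_iff_forall]
      intro x hx
      exact Subtype.ext (Subtype.ext (hinj _ x.1.2 (congrArg Subtype.val (MonoidHom.mem_ker.1 hx))))
    haveI : Group.IsNilpotent F := Components.fittingSubgroup_isNilpotent
    have hnil : Group.IsNilpotent F0 := Group.nilpotent_of_mulEquiv (MonoidHom.ofInjective hφ).symm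
    exact ⟨⟨h, hh⟩, Components.le_fittingSubgroup inferInstance hnil hhF, rfl⟩
  -- `u` is quadratic on the Fitting subgroup
  have hFA : ⁅F, A.map f⁆ ≤ A.map f := by
    refine Subgroup.commutator_le.2 fun x hx y hy => ?_
    obtain ⟨h, hh, rfl⟩ := hFH hx
    obtain ⟨a, ha, rfl⟩ := hy
    refine ⟨⁅h, a⁆, ?_, map_commutatorElement f h a⟩
    exact A.mul_mem ((Subgroup.mem_normalizer_iff.1 (hAn (hlift h hh hx)) a).1 ha) (A.inv_mem ha)
  have hCF : ∀ x ∈ F, x ∈ Subgroup.centralizer (A.map f : Set (S ⧸ O)) → x ∈ A.map f := by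
    intro x hx hc
    obtain ⟨h, hh, rfl⟩ := hFH hx
    refine ⟨h, hAC.le ⟨hlift h hh hx, Subgroup.mem_centralizer_iff.2 fun a ha => ?_⟩, rfl⟩
    refine (commutatorElement_eq_one_iff_mul_comm.1 (hinj _ ?_ ?_)).symm
    · exact H.mul_mem (H.mul_mem (H.mul_mem hh (hAH ha)) (H.inv_mem hh)) (H.inv_mem (hAH ha))
    · rw [map_commutatorElement, commutatorElement_eq_one_iff_mul_comm]
      exact (Subgroup.mem_centralizer_iff.1 hc _ ⟨a, ha, rfl⟩).symm
  have huA : ⁅A.map f, Subgroup.zpowers (f u)⁆ = ⊥ := by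
    rw [Subgroup.commutator_eq_bot_iff_le_centralizer]
    rintro _ ⟨a, ha, rfl⟩
    refine Subgroup.mem_centralizer_iff.2 fun v hv => ?_
    obtain ⟨i, rfl⟩ := Subgroup.mem_zpowers_iff.1 hv
    exact ((show Commute a u from Subgroup.mem_centralizer_iff.1 hu a ha).map f).symm.zpow_left i
  have hFu : ⁅F, Subgroup.zpowers (f u)⁆ ≤ A.map f := by
    refine Subgroup.commutator_le.2 fun x hx v hv => hCF _ ?_ ?_
    · rw [commutatorElement_def, mul_assoc x, mul_assoc x]
      exact F.mul_mem hx (hFn.conj_mem _ (F.inv_mem hx) v)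
    · have h1 : ⁅⁅F, A.map f⁆, Subgroup.zpowers (f u)⁆ = ⊥ :=
        le_bot_iff.1 ((Subgroup.commutator_mono hFA le_rfl).trans huA.le)
      have h2 : ⁅⁅A.map f, Subgroup.zpowers (f u)⁆, F⁆ = ⊥ := by rw [huA, Subgroup.commutator_bot_left]
      have h3 : ⁅⁅Subgroup.zpowers (f u), F⁆, A.map f⁆ = ⊥ :=
        Subgroup.commutator_commutator_eq_bot_of_rotate h1 h2 |> fun h => by
          first | exact h | (rw [Subgroup.commutator_comm (Subgroup.zpowers (f u)) F]; exact h)
      rw [Subgroup.commutator_comm (Subgroup.zpowers (f u)), Subgroup.commutator_eq_bot_iff_le_centralizer] at h3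
      exact h3 (Subgroup.commutator_mem_commutator hx hv)
  have hquad : ∀ r : ℕ, r.Prime →
      ⁅⁅Cfsg.pCore r (S ⧸ O), Subgroup.zpowers (f u)⁆, Subgroup.zpowers (f u)⁆ = ⊥ := fun r hr => by
    haveI := Fact.mk hr
    exact le_bot_iff.1 ((Subgroup.commutator_mono
      ((Subgroup.commutator_mono (Components.pCore_le_fittingSubgroup r) le_rfl).trans hFu) le_rfl).trans huA.le)
  have h5 : ∀ r : ℕ, r.Prime → Cfsg.pCore r (S ⧸ O) ≠ ⊥ → 5 ≤ r := by
    intro r hr hne
    have hrπ : r ∈ π := by by_contra h; exact hne (hsmall r hr h)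
    by_contra h
    have h4 : r ≠ 4 := fun h' => absurd (h' ▸ hr) (by norm_num)
    have := hr.two_le
    rcases (by omega : r = 2 ∨ r = 3) with rfl | rfl
    · exact h2 hrπ
    · exact h3 hrπ
  have huF := mem_fitting_of_quadratic h5 (f u) hquad
  obtain ⟨a, ha, hau⟩ := hCF _ huF (Subgroup.mem_centralizer_iff.2 fun y hy => by
    obtain ⟨b, hb, rfl⟩ := hy
    exact ((show Commute b u from Subgroup.mem_centralizer_iff.1 hu b hb).map f).eq)
  have hd : a⁻¹ * u ∈ O ⊓ Subgroup.centralizer (A : Set S) := by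
    refine ⟨(QuotientGroup.eq_one_iff _).1 ?_,
      (Subgroup.centralizer (A : Set S)).mul_mem ((Subgroup.centralizer (A : Set S)).inv_mem ?_) hu⟩
    · show f (a⁻¹ * u) = 1
      rw [map_mul, map_inv, hau, inv_mul_cancel]
    · exact Subgroup.mem_centralizer_iff.2 fun b hb => hcomm b hb a ha
  have := Subgroup.mul_mem_sup ha hd
  rwa [mul_inv_cancel_left] at this

end CfsgLib.Hall.SCN
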