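/-
Fifth batch: Kegel's product lemma, hereditary CLT groups, Hall maximal subgroups, Sylow counts modulo centre.
-/
import Cfsg.Agent.Hall.Supersolvable
import Cfsg.Agent.Hall.Huppert
import Cfsg.Agent.Hall.Schmidt
import Cfsg.Agent.Hall.StructBatch
import Cfsg.Prelude.Def_SolvableStructure

set_option autoImplicit false
set_option linter.style.haveILetI false

namespace CfsgLib.Hall.Struct

open scoped Pointwise

universe u

section Kegel

variable {G : Type*} [Group G]

/-- `Y * X ⊆ X * Y`. -/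
def Permutes (X Y : Subgroup G) : Prop :=
  ∀ x ∈ X, ∀ y ∈ Y, ∃ x' ∈ X, ∃ y' ∈ Y, y * x = x' * y'

theorem Permutes.exists_eq_mul {X Y : Subgroup G} (h : Permutes X Y) {g : G} (hg : g ∈ X ⊔ Y) :
    ∃ x ∈ X, ∃ y ∈ Y, g = x * y := by
  let T : Subgroup G :=
    { carrier := {g | ∃ x ∈ X, ∃ y ∈ Y, g = x * y}
      one_mem' := ⟨1, X.one_mem, 1, Y.one_mem, (mul_one 1).symm⟩
      mul_mem' := by
        rintro _ _ ⟨a, ha, b, hb, rfl⟩ ⟨c, hc, d, hd, rfl⟩
        obtain ⟨c', hc', b', hb', he⟩ := h c hc b hb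
        refine ⟨a * c', X.mul_mem ha hc', b' * d, Y.mul_mem hb' hd, ?_⟩
        rw [show a * b * (c * d) = a * (b * c) * d by group, he]; group
      inv_mem' := by
        rintro _ ⟨a, ha, b, hb, rfl⟩
        obtain ⟨a', ha', b', hb', he⟩ := h a⁻¹ (X.inv_mem ha) b⁻¹ (Y.inv_mem hb)
        exact ⟨a', ha', b', hb', by rw [mul_inv_rev, he]⟩ }
  exact (sup_le (fun x hx => ⟨x, hx, 1, Y.one_mem, (mul_one x).symm⟩)
    (fun y hy => ⟨1, X.one_mem, y, hy, (one_mul y).symm⟩) : X ⊔ Y ≤ T) hg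

theorem Permutes.sup [Finite G] {X Y Z : Subgroup G} (h₁ : Permutes X Y) (h₂ : Permutes X Z) :
    Permutes X (Y ⊔ Z) := by
  let M : Submonoid G :=
    { carrier := {y | y ∈ Y ⊔ Z ∧ ∀ x ∈ X, ∃ x' ∈ X, ∃ y' ∈ Y ⊔ Z, y * x = x' * y'}
      one_mem' := ⟨Subgroup.one_mem _, fun x hx => ⟨x, hx, 1, Subgroup.one_mem _, by simp⟩⟩
      mul_mem' := by
        rintro a b ⟨ha, hax⟩ ⟨hb, hbx⟩
        refine ⟨Subgroup.mul_mem _ ha hb, fun x hx => ?_⟩
        obtain ⟨x₁, hx₁, b₁, hb₁, e₁⟩ := hbx x hx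
        obtain ⟨x₂, hx₂, a₂, ha₂, e₂⟩ := hax x₁ hx₁
        refine ⟨x₂, hx₂, a₂ * b₁, Subgroup.mul_mem _ ha₂ hb₁, ?_⟩
        rw [mul_assoc, e₁, ← mul_assoc, e₂, mul_assoc] }
  let S : Subgroup G :=
    { M with
      inv_mem' := fun {a} ha => by
        rw [inv_eq_of_mul_eq_one_right (show a * a ^ (orderOf a - 1) = 1 by
          rw [← pow_succ', Nat.sub_add_cancel (orderOf_pos a), pow_orderOf_eq_one])]
        exact M.pow_mem ha _ }
  have hle : Y ⊔ Z ≤ S := sup_le
    (fun y hy => ⟨Subgroup.mem_sup_left hy, fun x hx => by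
      obtain ⟨x', hx', y', hy', e⟩ := h₁ x hx y hy
      exact ⟨x', hx', y', Subgroup.mem_sup_left hy', e⟩⟩)
    (fun y hy => ⟨Subgroup.mem_sup_right hy, fun x hx => by
      obtain ⟨x', hx', y', hy', e⟩ := h₂ x hx y hy
      exact ⟨x', hx', y', Subgroup.mem_sup_right hy', e⟩⟩)
  intro x hx y hy
  exact (hle hy).2 x hx

theorem kegel_proper_products [Finite G] (A : Subgroup G) (hA : A ≠ ⊥) :
    ∀ (k : ℕ) (B : Subgroup G), Nat.card G - Nat.card B = k → B ≠ ⊥ →
      (∀ y : G, Permutes (MulAut.conj y • A) B ∧ MulAut.conj y • A ⊔ B ≠ ⊤) →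
      ∃ N : Subgroup G, N.Normal ∧ N ≠ ⊤ ∧ (A ≤ N ∨ B ≤ N) := by
  intro k
  induction k using Nat.strong_induction_on with
  | _ k IH =>
  intro B hk hB hAB
  by_cases hall : Subgroup.normalClosure (A : Set G) ≤ Subgroup.normalizer (B : Set G)
  · by_cases htop : Subgroup.normalClosure (A : Set G) = ⊤
    · refine ⟨B, Subgroup.normalizer_eq_top_iff.mp (top_le_iff.mp (htop ▸ hall)), fun h => ?_, Or.inr le_rfl⟩
      exact (hAB 1).2 (by rw [h, sup_top_eq])
    · exact ⟨_, inferInstance, htop, Or.inl Subgroup.subset_normalClosure⟩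
  obtain ⟨x, a, ha, haB⟩ : ∃ x : G, ∃ a ∈ MulAut.conj x • A, MulAut.conj a • B ≠ B := by
    by_contra hcon
    push Not at hcon
    refine hall ((Subgroup.closure_le _).mpr fun g hg => ?_)
    obtain ⟨a₀, ha₀, hc⟩ := Group.mem_conjugatesOfSet_iff.mp hg
    obtain ⟨x, rfl⟩ := isConj_iff.mp hc
    have h := hcon x (x * a₀ * x⁻¹) ⟨a₀, ha₀, rfl⟩
    refine Subgroup.mem_normalizer_fintype fun b hb => ?_
    have hb' : x * a₀ * x⁻¹ * b * (x * a₀ * x⁻¹)⁻¹ ∈ MulAut.conj (x * a₀ * x⁻¹) • B := ⟨b, hb, rfl⟩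
    rwa [h] at hb'
  set J := B ⊔ MulAut.conj a • B with hJ
  set S := MulAut.conj x • A ⊔ B with hS
  have hJS : J ≤ S := by
    refine sup_le le_sup_right ?_
    rintro _ ⟨b, hb, rfl⟩
    exact S.mul_mem (S.mul_mem (Subgroup.mem_sup_left ha) (Subgroup.mem_sup_right hb))
      (S.inv_mem (Subgroup.mem_sup_left ha))
  have hlt : Nat.card B < Nat.card J := by
    refine lt_of_le_of_ne (Nat.le_of_dvd Nat.card_pos (Subgroup.card_dvd_of_le le_sup_left)) fun he => ?_
    have hBJ : B = J := Subgroup.eq_of_le_of_card_ge le_sup_left he.ge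
    refine haB (Subgroup.eq_of_le_of_card_ge (le_sup_right.trans hBJ.ge) ?_)
    rw [Nat.card_congr (Subgroup.equivSMul (MulAut.conj a) B).toEquiv]
  have hperm : ∀ y : G, Permutes (MulAut.conj y • A) J := fun y => by
    refine (hAB y).1.sup ?_
    rintro u hu _ ⟨b, hb, rfl⟩
    have hu' : a⁻¹ * u * a ∈ MulAut.conj (a⁻¹ * y) • A := by
      obtain ⟨v, hv, rfl⟩ := hu
      exact ⟨v, hv, by simp [mul_assoc]⟩
    obtain ⟨x', hx', b', hb', e⟩ := (hAB (a⁻¹ * y)).1 _ hu' b hb
    refine ⟨a * x' * a⁻¹, ?_, MulAut.conj a b', ⟨b', hb', rfl⟩, ?_⟩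
    · obtain ⟨v, hv, rfl⟩ := hx'
      exact ⟨v, hv, by simp [mul_assoc]⟩
    · simp only [MulAut.conj_apply, MulDistribMulAction.toMonoidEnd_apply, MulAut.smul_def,
        MulDistribMulAction.toMonoidHom_apply]
      calc a * b * a⁻¹ * u = a * (b * (a⁻¹ * u * a)) * a⁻¹ := by group
        _ = a * (x' * b') * a⁻¹ := by rw [e]
        _ = a * x' * a⁻¹ * (a * b' * a⁻¹) := by group
  have hprop : ∀ y : G, MulAut.conj y • A ⊔ J ≠ ⊤ := by
    intro y htop
    obtain ⟨u, hu, j, hj, hg⟩ := (hperm y).exists_eq_mul (g := (x * y⁻¹)⁻¹) (by rw [htop]; trivial)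
    refine (hAB x).2 (top_le_iff.mp (htop ▸ sup_le ?_ hJS))
    rintro _ ⟨v, hv, rfl⟩
    obtain ⟨w, hw, hwu⟩ := hu
    have hx' : x = j⁻¹ * u⁻¹ * y := by
      have h := congrArg (fun t => t⁻¹) hg
      simp only [inv_inv, mul_inv_rev] at h
      rw [← h]; group
    have hu' : u = y * w * y⁻¹ := by rw [← hwu]; rfl
    have hA' : x * (w * v * w⁻¹) * x⁻¹ ∈ S :=
      Subgroup.mem_sup_left ⟨w * v * w⁻¹, A.mul_mem (A.mul_mem hw hv) (A.inv_mem hw), rfl⟩
    have h3 := S.mul_mem (S.mul_mem (hJS hj) hA') (S.inv_mem (hJS hj))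
    convert h3 using 1
    rw [hx', hu']
    change y * v * y⁻¹ = _
    group
  obtain ⟨N, hN, hNt, h⟩ := IH (Nat.card G - Nat.card J)
    (by have := Subgroup.card_le_card_group J; omega) J rfl
    (fun h => hB (eq_bot_iff.mpr (h ▸ le_sup_left))) fun y => ⟨hperm y, hprop y⟩
  exact ⟨N, hN, hNt, h.imp id le_sup_left.trans⟩

theorem kegel_proper_products' [Finite G] (A B : Subgroup G) (hA : A ≠ ⊥) (hB : B ≠ ⊥)
    (h : ∀ x : G, ∃ S : Subgroup G, S ≠ ⊤ ∧ (S : Set G) = (A : Set G) * ((MulAut.conj x • B : Subgroup G) : Set G)) :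
    ∃ N : Subgroup G, N.Normal ∧ N ≠ ⊤ ∧ (A ≤ N ∨ B ≤ N) := by
  refine kegel_proper_products A hA _ B rfl hB fun y => ?_
  obtain ⟨S, hS, hSeq⟩ := h y⁻¹
  have hAS : ∀ a ∈ A, a ∈ S := fun a ha => by
    rw [← SetLike.mem_coe, hSeq]; exact ⟨a, ha, 1, Subgroup.one_mem _, mul_one a⟩
  have hBS : ∀ b ∈ B, y⁻¹ * b * y ∈ S := fun b hb => by
    rw [← SetLike.mem_coe, hSeq]
    exact ⟨1, A.one_mem, _, ⟨b, hb, rfl⟩, by simp⟩
  constructor
  · rintro _ ⟨a, ha, rfl⟩ b hb
    have h1 : y⁻¹ * b * y * a ∈ (S : Set G) := S.mul_mem (hBS b hb) (hAS a ha)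
    rw [hSeq] at h1
    obtain ⟨a', ha', _, ⟨b', hb', rfl⟩, e⟩ := h1
    refine ⟨y * a' * y⁻¹, ⟨a', ha', rfl⟩, b', hb', ?_⟩
    change b * (y * a * y⁻¹) = _
    have e' : a' * (y⁻¹ * b' * y) = y⁻¹ * b * y * a := by simpa using e
    calc b * (y * a * y⁻¹) = y * (y⁻¹ * b * y * a) * y⁻¹ := by group
      _ = y * (a' * (y⁻¹ * b' * y)) * y⁻¹ := by rw [e']
      _ = y * a' * y⁻¹ * b' := by group
  · intro htop
    refine hS (top_le_iff.mp fun g _ => ?_)
    have hle : MulAut.conj y • A ⊔ B ≤ S.comap (MulAut.conj y⁻¹).toMonoidHom := by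
      refine sup_le ?_ fun b hb => by simpa using hBS b hb
      rintro _ ⟨a, ha, rfl⟩
      simpa [mul_assoc] using hAS a ha
    have := hle (show y * g * y⁻¹ ∈ MulAut.conj y • A ⊔ B by rw [htop]; trivial)
    simpa [mul_assoc] using this

end Kegel

theorem everyOrder_of_equiv {G H : Type*} [Group G] [Group H] (e : G ≃* H)
    (h : Cfsg.HasSubgroupOfEveryOrder G) : Cfsg.HasSubgroupOfEveryOrder H := fun d hd => by
  obtain ⟨K, hK⟩ := h d (by rwa [Nat.card_congr e.toEquiv])
  exact ⟨K.map e.toMonoidHom, by rw [Subgroup.card_map_of_injective e.injective, hK]⟩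

theorem everyOrder_subgroup {G : Type*} [Group G] (h : ∀ H : Subgroup G, Cfsg.HasSubgroupOfEveryOrder H)
    (M : Subgroup G) : ∀ H : Subgroup M, Cfsg.HasSubgroupOfEveryOrder H := fun H =>
  everyOrder_of_equiv (H.equivMapOfInjective M.subtype M.subtype_injective).symm (h _)

theorem hereditary_clt_sylow_normal : ∀ (k : ℕ) {G : Type u} [Group G] [Finite G], Nat.card G = k →
    (∀ H : Subgroup G, Cfsg.HasSubgroupOfEveryOrder H) → ∀ (p : ℕ) [Fact p.Prime], p ∣ Nat.card G →
    (∀ q : ℕ, q.Prime → q ∣ Nat.card G → q ≤ p) → ∀ P : Sylow p G, (P : Subgroup G).Normal := by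
  intro k
  induction k using Nat.strong_induction_on with
  | _ k IH =>
  intro G _ _ hk h p _ hdvd hmax P
  subst hk
  have hp : p.Prime := Fact.out
  set q := (Nat.card G).minFac with hq
  have hne1 : Nat.card G ≠ 1 := fun h1 => hp.not_dvd_one (h1 ▸ hdvd)
  have hqp : q.Prime := Nat.minFac_prime hne1
  by_cases hqeq : q = p
  · have hG : IsPGroup p G := by
      refine IsPGroup.of_card (n := (Nat.card G).primeFactorsList.length) ?_
      refine Nat.eq_prime_pow_of_unique_prime_dvd Nat.card_pos.ne' fun {r} hr hrd => ?_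
      exact le_antisymm (hmax r hr hrd) (hqeq ▸ Nat.minFac_le_of_dvd hr.two_le hrd)
    have hPt : (P : Subgroup G) = ⊤ := (P.3 (hG.to_subgroup ⊤) le_top).symm
    rw [hPt]; infer_instance
  obtain ⟨M, hM⟩ := everyOrder_of_equiv Subgroup.topEquiv (h ⊤) (Nat.card G / q)
    (Nat.div_dvd_of_dvd (Nat.minFac_dvd _))
  have hMi : M.index = q := by
    have h1 := M.card_mul_index
    rw [hM] at h1
    exact Nat.eq_of_mul_eq_mul_left (Nat.div_pos (Nat.minFac_le Nat.card_pos) hqp.pos)
      (h1.trans (Nat.div_mul_cancel (Nat.minFac_dvd _)).symm)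
  haveI : M.Normal := Subgroup.normal_of_index_eq_minFac_card hMi
  have hpM : ¬ p ∣ M.index := by
    rw [hMi]; exact fun hd => hqeq ((Nat.prime_dvd_prime_iff_eq hp hqp).mp hd).symm
  have hPM : (P : Subgroup G) ≤ M := sylow_le_of_normal_not_dvd M hpM P.2
  have hPn : ((P.subtype hPM : Sylow p M) : Subgroup M).Normal := by
    refine IH (Nat.card M) (by rw [hM]; exact Nat.div_lt_self Nat.card_pos hqp.one_lt) rfl
      (everyOrder_subgroup h M) p ?_ (fun r hr hrd => hmax r hr (hrd.trans M.card_subgroup_dvd_card)) _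
    exact (hp.dvd_mul.mp (M.card_mul_index ▸ hdvd)).resolve_right hpM
  haveI := Sylow.characteristic_of_normal _ hPn
  have hmap : ((P.subtype hPM : Sylow p M) : Subgroup M).map M.subtype = (P : Subgroup G) := by
    rw [Sylow.coe_subtype, Subgroup.subgroupOf_map_subtype, inf_eq_left.mpr hPM]
  rw [← hmap]
  infer_instance

theorem hereditary_clt_supersolvable : ∀ (k : ℕ) {G : Type u} [Group G] [Finite G], Nat.card G = k →
    (∀ H : Subgroup G, Cfsg.HasSubgroupOfEveryOrder H) → Cfsg.IsSupersolvable G := by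
  intro k
  induction k using Nat.strong_induction_on with
  | _ k IH =>
  intro G _ _ hk h
  subst hk
  rcases subsingleton_or_nontrivial G with hs | hs
  · exact Supersolv.isSupersolvable_of_subsingleton
  obtain ⟨p, hpk, hpmax⟩ := (Nat.card G).primeFactors.exists_max_image id
    (Nat.nonempty_primeFactors.mpr (Finite.one_lt_card (α := G)))
  haveI hp : Fact p.Prime := ⟨Nat.prime_of_mem_primeFactors hpk⟩
  have hdvd := Nat.dvd_of_mem_primeFactors hpk
  obtain ⟨P⟩ : Nonempty (Sylow p G) := inferInstance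
  haveI hPn : (P : Subgroup G).Normal := hereditary_clt_sylow_normal _ rfl h p hdvd
    (fun q hq hqd => hpmax q (Nat.mem_primeFactors.mpr ⟨hq, hqd, Nat.card_pos.ne'⟩)) P
  have hPne : (P : Subgroup G) ≠ ⊥ := P.ne_bot_of_dvd_card hdvd
  obtain ⟨K, hK⟩ := Subgroup.exists_right_complement'_of_coprime (N := (P : Subgroup G)) P.card_coprime_index
  have hKlt : Nat.card K < Nat.card G := by
    rw [← hK.card_mul]
    exact lt_mul_of_one_lt_left Nat.card_pos ((P : Subgroup G).one_lt_card_iff_ne_bot.mpr hPne)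
  have hKss : Cfsg.IsSupersolvable K := IH _ hKlt rfl (everyOrder_subgroup h K)
  have hQss : Cfsg.IsSupersolvable (G ⧸ (P : Subgroup G)) :=
    Supersolv.isSupersolvable_of_injective hK.symm.QuotientMulEquiv.toMonoidHom
      hK.symm.QuotientMulEquiv.injective hKss
  refine Huppert.huppert fun M hM => ?_
  set f := QuotientGroup.mk' (P : Subgroup G)
  have hfs : Function.Surjective f := QuotientGroup.mk'_surjective _
  by_cases hPM : (P : Subgroup G) ≤ M
  · have hc : (M.map f).comap f = M := by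
      rw [Subgroup.comap_map_eq, QuotientGroup.ker_mk', sup_eq_left.mpr hPM]
    have hM' : IsCoatom (M.map f) := by
      refine ⟨fun h => hM.1 ?_, fun L hL => ?_⟩
      · rw [← hc, h, Subgroup.comap_top]
      · have hlt : M < L.comap f := hc ▸ (Subgroup.comap_lt_comap_of_surjective hfs).mpr hL
        rw [← Subgroup.map_comap_eq_self_of_surjective hfs L, hM.2 _ hlt, Subgroup.map_top_of_surjective _ hfs]
    have h1 := Supersolv.maximal_index_prime_aux _ rfl hQss _ hM'
    rwa [← Subgroup.index_comap_of_surjective _ hfs, hc] at h1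
  set D := (P : Subgroup G) ⊓ M with hD
  have hDM : D ≤ M := inf_le_right
  have hPMtop : (P : Subgroup G) ⊔ M = ⊤ :=
    hM.2 _ (lt_of_le_of_ne le_sup_right fun he => hPM (he ▸ le_sup_left))
  haveI hDn : D.Normal := by
    rw [← Subgroup.normalizer_eq_top_iff]
    refine hM.2 _ (lt_of_le_of_ne (fun m hm => Subgroup.mem_normalizer_fintype fun x hx =>
      ⟨hPn.conj_mem x hx.1 m, M.mul_mem (M.mul_mem hm hx.2) (M.inv_mem hm)⟩) fun he => hPM ?_)
    haveI := P.2.isNilpotent
    have htop : D.subgroupOf (P : Subgroup G) = ⊤ := by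
      refine (normalizerCondition_iff_only_full_group_self_normalizing.mp
        Group.normalizerCondition_of_isNilpotent) _ (le_antisymm (fun w hw => ?_) Subgroup.le_normalizer)
      refine Subgroup.mem_subgroupOf.mpr ⟨w.2, ?_⟩
      have hwn : (w : G) ∈ Subgroup.normalizer (D : Set G) := Subgroup.mem_normalizer_fintype fun x hx =>
        (Subgroup.mem_normalizer_iff.mp hw ⟨x, hx.1⟩).mp (show (⟨x, hx.1⟩ : (P : Subgroup G)) ∈ D.subgroupOf _ from hx)
      rwa [← he] at hwn
    exact (Subgroup.subgroupOf_eq_top.mp htop).trans inf_le_right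
  have hidx : M.index * Nat.card D = Nat.card (P : Subgroup G) := by
    have h1 := card_sup_mul_card_inf (P : Subgroup G) M
    rw [hPMtop, Subgroup.card_top, ← M.card_mul_index, mul_assoc, mul_comm (Nat.card (P : Subgroup G))] at h1
    exact Nat.eq_of_mul_eq_mul_left Nat.card_pos h1
  have hmin : ∀ X : Subgroup G, X.Normal → D ≤ X → X ≤ (P : Subgroup G) → X ≤ D ∨ X = (P : Subgroup G) := by
    intro X hX hDX hXP
    haveI := hX
    by_cases hXM : X ≤ M
    · exact Or.inl (le_inf hXP hXM)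
    right
    have ht : X ⊔ M = ⊤ := hM.2 _ (lt_of_le_of_ne le_sup_right fun he => hXM (he ▸ le_sup_left))
    have hXD : X ⊓ M = D := le_antisymm (inf_le_inf_right M hXP) (le_inf hDX hDM)
    have h1 := card_sup_mul_card_inf X M
    rw [ht, hXD, Subgroup.card_top, ← M.card_mul_index, mul_assoc, mul_comm (Nat.card X)] at h1
    exact Subgroup.eq_of_le_of_card_ge hXP (hidx ▸ (Nat.eq_of_mul_eq_mul_left Nat.card_pos h1).le)
  have hpP : p ∣ Nat.card (P : Subgroup G) := P.dvd_card_of_dvd_card hdvd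
  obtain ⟨H, hH⟩ := everyOrder_of_equiv Subgroup.topEquiv (h ⊤) (Nat.card G / p) (Nat.div_dvd_of_dvd hdvd)
  have hHlt : Nat.card H < Nat.card G := by rw [hH]; exact Nat.div_lt_self Nat.card_pos hp.out.one_lt
  have hHne : ¬ (P : Subgroup G) ≤ H := fun hle => by
    have h1 : Nat.card (P : Subgroup G) ∣ Nat.card G / p := hH ▸ Subgroup.card_dvd_of_le hle
    obtain ⟨n, hn⟩ := P.2.exists_card_eq
    obtain ⟨c, hc⟩ := h1
    have h2 : Nat.card G = p ^ (n + 1) * c := by
      rw [← Nat.div_mul_cancel hdvd, hc, hn, pow_succ]; ring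
    have h3 := P.card_eq_multiplicity
    rw [hn] at h3
    have h4 : n + 1 ≤ (Nat.card G).factorization p :=
      (hp.out.pow_dvd_iff_le_factorization Nat.card_pos.ne').mp ⟨c, h2⟩
    have h5 := Nat.pow_right_injective hp.out.two_le h3
    omega
  set R := (P : Subgroup G) ⊓ H with hR
  have hcard := card_sup_mul_card_inf (P : Subgroup G) H
  have hHP : (P : Subgroup G) ⊔ H = ⊤ := by
    rw [← Subgroup.index_eq_one]
    have h1 := Subgroup.index_antitone (H := H) (K := (P : Subgroup G) ⊔ H) le_sup_right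
    have hHi : H.index = p := by
      have h2 := H.card_mul_index
      rw [hH] at h2
      exact Nat.eq_of_mul_eq_mul_left (Nat.div_pos (Nat.le_of_dvd Nat.card_pos hdvd) hp.out.pos)
        (h2.trans (Nat.div_mul_cancel hdvd).symm)
    have h3 : ((P : Subgroup G) ⊔ H).index ∣ p := (Subgroup.index_dvd_of_le le_sup_right).trans hHi.dvd
    rcases (Nat.dvd_prime hp.out).mp h3 with h4 | h4
    · exact h4
    · exfalso
      have h5 : ((P : Subgroup G) ⊔ H).index ∣ (P : Subgroup G).index := Subgroup.index_dvd_of_le le_sup_left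
      rw [h4] at h5
      exact P.not_dvd_index h5
  have hRc : Nat.card (P : Subgroup G) = p * Nat.card R := by
    rw [hHP, Subgroup.card_top, hH] at hcard
    have h1 : Nat.card G / p * (p * Nat.card R) = Nat.card G / p * Nat.card (P : Subgroup G) := by
      rw [← mul_assoc, Nat.div_mul_cancel hdvd, mul_comm (Nat.card G / p), ← hcard]
    exact (Nat.eq_of_mul_eq_mul_left (Nat.div_pos (Nat.le_of_dvd Nat.card_pos hdvd) hp.out.pos) h1).symm
  haveI hRn : R.Normal := by
    have hRP : R.subgroupOf (P : Subgroup G) |>.Normal := by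
      refine Subgroup.normal_of_index_eq_minFac_card ?_
      have h1 := (R.subgroupOf (P : Subgroup G)).card_mul_index
      rw [Nat.card_congr (Subgroup.subgroupOfEquivOfLe (inf_le_left : R ≤ _)).toEquiv] at h1
      have h2 : (R.subgroupOf (P : Subgroup G)).index = p :=
        Nat.eq_of_mul_eq_mul_left Nat.card_pos (h1.trans (hRc.trans (mul_comm _ _)))
      obtain ⟨n, hn⟩ := P.2.exists_card_eq
      rw [h2, hn, Nat.pow_minFac fun hn0 => by rw [hn0, pow_zero] at hn; exact hPne (Subgroup.card_eq_one.mp hn),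
        hp.out.minFac_eq]
    rw [← Subgroup.normalizer_eq_top_iff, eq_top_iff, ← hHP]
    exact sup_le ((Subgroup.normal_subgroupOf_iff_le_normalizer inf_le_left).mp hRP) fun g hg =>
      Subgroup.mem_normalizer_fintype fun x hx =>
        ⟨hPn.conj_mem x hx.1 g, H.mul_mem (H.mul_mem hg hx.2) (H.inv_mem hg)⟩
  have hDi : D ≤ (P : Subgroup G) := inf_le_left
  by_cases hRD : R ≤ D
  · have h1 : Nat.card R ∣ Nat.card D := Subgroup.card_dvd_of_le hRD
    have h2 : M.index ∣ p := by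
      obtain ⟨c, hc⟩ := h1
      rw [hc, hRc] at hidx
      refine ⟨c, (Nat.eq_of_mul_eq_mul_left (Nat.card_pos (α := R)) ?_).symm⟩
      linarith
    rcases (Nat.dvd_prime hp.out).mp h2 with h3 | h3
    · exact absurd (Subgroup.index_eq_one.mp h3) hM.1
    · rw [h3]; exact hp.out
  have hsup : D ⊔ R = (P : Subgroup G) :=
    (hmin _ inferInstance le_sup_left (sup_le hDi inf_le_left)).resolve_left fun hle => hRD (le_sup_right.trans hle)
  have hHss : Cfsg.IsSupersolvable H := IH _ hHlt rfl (everyOrder_subgroup h H)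
  set X0 := (D ⊓ R).subgroupOf H with hX0
  set g := QuotientGroup.mk' X0 with hg
  have hgs : Function.Surjective g := QuotientGroup.mk'_surjective X0
  haveI : ((R.subgroupOf H).map g).Normal := Subgroup.Normal.map inferInstance g hgs
  have hne : (R.subgroupOf H).map g ≠ ⊥ := by
    rw [Ne, Subgroup.map_eq_bot_iff, QuotientGroup.ker_mk']
    exact fun hle => hRD fun x hx => (hle (show (⟨x, hx.2⟩ : H) ∈ R.subgroupOf H from hx)).1
  obtain ⟨q, N, hq, hNn, hNle, hNc⟩ :=
    Supersolv.exists_normal_prime_le (Supersolv.isSupersolvable_of_surjective g hgs hHss) _ hne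
  set Y := (N.comap g).map H.subtype with hY
  have hYR : Y ≤ R := by
    rintro _ ⟨y, hy, rfl⟩
    obtain ⟨r, hr, hry⟩ := hNle hy
    have h1 : r⁻¹ * y ∈ X0 := QuotientGroup.eq.mp hry
    have h2 : (r : G)⁻¹ * y ∈ R := h1.2
    simpa using R.mul_mem hr h2
  have hYc : Nat.card Y = q * Nat.card ↥(D ⊓ R) := by
    rw [hY, Subgroup.card_map_of_injective H.subtype_injective, hg, card_comap_mk', hNc, hX0,
      Nat.card_congr (Subgroup.subgroupOfEquivOfLe (inf_le_right.trans inf_le_right : D ⊓ R ≤ H)).toEquiv]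
  have hYD : ¬ Y ≤ D := fun hle => by
    have h1 : Nat.card Y ≤ Nat.card ↥(D ⊓ R) :=
      Nat.le_of_dvd Nat.card_pos (Subgroup.card_dvd_of_le (le_inf hle hYR))
    rw [hYc] at h1
    have := hq.two_le
    have := Nat.card_pos (α := ↥(D ⊓ R))
    nlinarith
  have hqd : q = p := by
    obtain ⟨n, hn⟩ := P.2.exists_card_eq
    have h1 : Nat.card Y ∣ p ^ n := hn ▸ Subgroup.card_dvd_of_le (hYR.trans inf_le_left)
    exact (Nat.prime_dvd_prime_iff_eq hq hp.out).mp
      (hq.dvd_of_dvd_pow ((dvd_mul_right q _).trans (hYc ▸ h1)))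
  have hHY : H ≤ Subgroup.normalizer (Y : Set G) := by
    haveI := hNn.comap g
    intro u hu
    refine Subgroup.mem_normalizer_fintype ?_
    rintro _ ⟨y, hy, rfl⟩
    exact ⟨⟨u, hu⟩ * y * ⟨u, hu⟩⁻¹, Subgroup.Normal.conj_mem inferInstance y hy _, rfl⟩
  haveI : (Y ⊔ D).Normal := by
    have hHN : ∀ u ∈ H, u ∈ Subgroup.normalizer ((Y ⊔ D : Subgroup G) : Set G) := fun u hu => by
      refine Subgroup.mem_normalizer_fintype fun x hx => ?_
      have hle : Y ⊔ D ≤ (Y ⊔ D).comap (MulAut.conj u).toMonoidHom := sup_le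
        (fun y hy => Subgroup.mem_sup_left ((Subgroup.mem_normalizer_iff.mp (hHY hu) y).mp hy))
        (fun d hd => Subgroup.mem_sup_right (hDn.conj_mem d hd u))
      exact hle hx
    rw [← Subgroup.normalizer_eq_top_iff, eq_top_iff, ← hHP]
    refine sup_le ?_ hHN
    rw [← hsup]
    exact sup_le (le_sup_right.trans Subgroup.le_normalizer) fun r hr => hHN r hr.2
  have hfin : Y ⊔ D = (P : Subgroup G) :=
    (hmin _ inferInstance le_sup_right (sup_le (hYR.trans inf_le_left) hDi)).resolve_left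
      fun hle => hYD (le_sup_left.trans hle)
  have hYDR : Y ⊓ D = D ⊓ R := by
    refine le_antisymm (fun x hx => ⟨hx.2, hYR hx.1⟩) fun x hx => ⟨?_, hx.1⟩
    exact ⟨⟨x, hx.2.2⟩, by
      show g ⟨x, hx.2.2⟩ ∈ N
      rw [hg, QuotientGroup.mk'_apply, (QuotientGroup.eq_one_iff _).mpr (show (⟨x, hx.2.2⟩ : H) ∈ X0 from hx)]
      exact N.one_mem, rfl⟩
  have h1 := card_sup_mul_card_inf D Y
  rw [sup_comm, hfin, inf_comm, hYDR, hYc, ← hidx] at h1
  have h2 : M.index = q := by
    have h3 : Nat.card D * Nat.card ↥(D ⊓ R) ≠ 0 := by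
      have := Nat.card_pos (α := D); have := Nat.card_pos (α := ↥(D ⊓ R)); positivity
    refine mul_right_cancel₀ h3 ?_
    linarith
  rw [h2, hqd]; exact hp.out

theorem maximal_hall_normal_sylow : ∀ (k : ℕ) {G : Type u} [Group G] [Finite G] [Group.IsSolvable G] [Nontrivial G],
    Nat.card G = k → (∀ M : Subgroup G, IsCoatom M → (Nat.card M).Coprime M.index) →
    ∃ p : ℕ, p.Prime ∧ p ∣ Nat.card G ∧ ∀ P : Sylow p G, (P : Subgroup G).Normal := by
  intro k
  induction k using Nat.strong_induction_on with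
  | _ k IH =>
  intro G _ _ _ _ hk h
  subst hk
  obtain ⟨N, hN⟩ := exists_isMinNormal (G := G)
  haveI := hN.1
  obtain ⟨p, hp, hab, hNp, hexp⟩ := hN.elementaryAbelian
  haveI := Fact.mk hp
  obtain ⟨a, ha, ha1⟩ := N.bot_or_exists_ne_one.resolve_left hN.2.1
  have hpG : p ∣ Nat.card G := orderOf_eq_prime (hexp a ha) ha1 ▸ orderOf_dvd_natCard a
  have hall : ∀ P : Sylow p G, (P : Subgroup G).Normal → ∀ Q : Sylow p G, (Q : Subgroup G).Normal := by
    intro P hP Q
    haveI := hP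
    obtain ⟨g, hg⟩ := MulAction.exists_smul_eq G P Q
    rw [Sylow.smul_eq_of_normal] at hg
    exact hg ▸ hP
  by_cases hNt : N = ⊤
  · obtain ⟨P⟩ : Nonempty (Sylow p G) := inferInstance
    refine ⟨p, hp, hpG, hall P ?_⟩
    have hPt : (P : Subgroup G) = ⊤ := (P.3 (hNt ▸ hNp) le_top).symm
    rw [hPt]; infer_instance
  haveI : Nontrivial (G ⧸ N) := QuotientGroup.nontrivial_iff.mpr hNt
  set f := QuotientGroup.mk' N
  have hfs : Function.Surjective f := QuotientGroup.mk'_surjective N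
  obtain ⟨q, hq, hqd, hQ⟩ := IH _ (Supersolv.card_quotient_lt hN.2.1) (G := G ⧸ N) rfl fun M hM => by
    have h1 := h _ (Subgroup.isCoatom_comap_of_surjective hfs hM)
    rw [Subgroup.index_comap_of_surjective _ hfs, card_comap_mk'] at h1
    exact h1.coprime_dvd_left (dvd_mul_right _ _)
  haveI := Fact.mk hq
  obtain ⟨Q⟩ : Nonempty (Sylow q G) := inferInstance
  set T := (Q : Subgroup G) ⊔ N with hT
  haveI hTn : T.Normal := by
    have h1 := hQ (Q.mapSurjective hfs)
    rw [Sylow.coe_mapSurjective] at h1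
    have h2 := h1.comap f
    rw [Subgroup.comap_map_eq, QuotientGroup.ker_mk'] at h2
    exact h2
  by_cases hqp : q = p
  · subst hqp
    refine ⟨q, hq, hpG, hall Q ?_⟩
    have hTp : IsPGroup q T := Q.2.to_sup_of_normal_right hNp
    rw [← Q.3 hTp le_sup_left]; exact hTn
  have hfr := Sylow.normalizer_sup_eq_top' Q (N := T) le_sup_left
  set NQ := Subgroup.normalizer ((Q : Subgroup G) : Set G) with hNQ
  have hsup : NQ ⊔ N = ⊤ := by
    rw [eq_top_iff, ← hfr]
    exact sup_le le_sup_left (sup_le (Subgroup.le_normalizer.trans le_sup_left) le_sup_right)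
  by_cases htop : NQ = ⊤
  · exact ⟨q, hq, hqd.trans N.card_quotient_dvd_card, fun Q' => by
      have hQn : (Q : Subgroup G).Normal := Subgroup.normalizer_eq_top_iff.mp htop
      haveI := hQn
      obtain ⟨g, hg⟩ := MulAction.exists_smul_eq G Q Q'
      rw [Sylow.smul_eq_of_normal] at hg
      exact hg ▸ hQn⟩
  obtain ⟨M, hM, hle⟩ := (eq_top_or_exists_le_coatom NQ).resolve_left htop
  have hMN : M ⊔ N = ⊤ := top_le_iff.mp (hsup ▸ sup_le_sup_right hle N)
  haveI := hab
  have hn : (N ⊓ M).Normal := by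
    rw [← Subgroup.normalizer_eq_top_iff, eq_top_iff, ← hMN]
    refine sup_le (fun g hg => ?_) (fun b hb => ?_)
    · exact Subgroup.mem_normalizer_fintype fun x hx =>
        ⟨Subgroup.Normal.conj_mem inferInstance x hx.1 g, M.mul_mem (M.mul_mem hg hx.2) (M.inv_mem hg)⟩
    · refine Subgroup.centralizer_le_normalizer _ (Subgroup.mem_centralizer_iff.mpr fun c hc => ?_)
      exact congrArg Subtype.val (hab.is_comm.comm (⟨c, hc.1⟩ : N) ⟨b, hb⟩)
  have hbot : N ⊓ M = ⊥ := (hN.2.2 _ hn inf_le_left).resolve_right fun he => hM.1 (by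
    rw [← hMN, sup_eq_left.mpr (he ▸ inf_le_right)])
  have hc := card_sup_mul_card_inf N M
  rw [sup_comm, hMN, hbot, Subgroup.card_top, Subgroup.card_bot, mul_one] at hc
  obtain ⟨P⟩ : Nonempty (Sylow p G) := inferInstance
  refine ⟨p, hp, hpG, hall P ?_⟩
  obtain ⟨i, hi⟩ := P.2.exists_card_eq
  have hMi : M.index = Nat.card N :=
    Nat.eq_of_mul_eq_mul_left Nat.card_pos (M.card_mul_index.trans (hc.trans (mul_comm _ _)))
  have hco : (Nat.card M).Coprime p := by
    refine (h M hM).coprime_dvd_right (hMi.symm ▸ ?_)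
    exact orderOf_eq_prime (hexp a ha) ha1 ▸ N.orderOf_dvd_natCard ha
  have hdvd : Nat.card (P : Subgroup G) ∣ Nat.card N := by
    have h1 : Nat.card (P : Subgroup G) ∣ Nat.card N * Nat.card M := hc ▸ (P : Subgroup G).card_subgroup_dvd_card
    rw [hi] at h1 ⊢
    exact ((hco.pow_right i).symm).dvd_of_dvd_mul_right h1
  have hNP : N ≤ (P : Subgroup G) := by
    have hsp : IsPGroup p ((P : Subgroup G) ⊔ N : Subgroup G) := P.2.to_sup_of_normal_right hNp
    exact le_sup_right.trans (P.3 hsp le_sup_left).le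
  rw [← Subgroup.eq_of_le_of_card_ge hNP (Nat.le_of_dvd Nat.card_pos hdvd)]
  infer_instance

theorem card_sylow_quotient_center_of_normal {G : Type*} [Group G] [Finite G] (p : ℕ) [Fact p.Prime]
    (H : Subgroup G) [H.Normal] (hp : ¬ p ∣ H.index) :
    Nat.card (Sylow p (H ⧸ Subgroup.center H)) = Nat.card (Sylow p G) := by
  have hle : ∀ P : Sylow p G, (P : Subgroup G) ≤ H := fun P => sylow_le_of_normal_not_dvd H hp P.2
  have hb1 : Nat.card (Sylow p G) = Nat.card (Sylow p H) := by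
    refine Nat.card_eq_of_bijective (fun P => P.subtype (hle P)) ⟨fun P P' he => ?_, fun Q => ?_⟩
    · apply Sylow.ext
      have h1 := congrArg (fun Q : Sylow p H => (Q : Subgroup H).map H.subtype) he
      simpa [Sylow.coe_subtype, Subgroup.subgroupOf_map_subtype, inf_eq_left.mpr (hle _)] using h1
    · obtain ⟨P, hP⟩ := (Q.2.map H.subtype).exists_le_sylow
      refine ⟨P, Sylow.ext ?_⟩
      refine Q.3 (P.subtype (hle P)).2 ?_
      rw [Sylow.coe_subtype]
      exact Subgroup.map_le_iff_le_comap.mp hP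
  rw [hb1]
  refine (Nat.card_eq_of_bijective (Sylow.mapSurjective (QuotientGroup.mk'_surjective (Subgroup.center H)))
    ⟨fun Q Q' he => ?_, Sylow.mapSurjective_surjective _ p⟩).symm
  apply Sylow.ext
  have h1 : (Q : Subgroup H) ⊔ Subgroup.center H = (Q' : Subgroup H) ⊔ Subgroup.center H := by
    have h2 := congrArg (fun R : Sylow p (H ⧸ Subgroup.center H) =>
      (R : Subgroup (H ⧸ Subgroup.center H)).comap (QuotientGroup.mk' (Subgroup.center H))) he
    simpa [Sylow.coe_mapSurjective, Subgroup.comap_map_eq] using h2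
  have hQ'N : (Q' : Subgroup H) ≤ Subgroup.normalizer ((Q : Subgroup H) : Set H) :=
    le_sup_left.trans (h1.ge.trans (sup_le Subgroup.le_normalizer fun z hz =>
      Subgroup.centralizer_le_normalizer _ (Subgroup.mem_centralizer_iff.mpr fun b _ =>
        Subgroup.mem_center_iff.mp hz b)))
  have hs := Q.2.to_sup_of_normal_left' Q'.2 hQ'N
  exact (Q.3 hs le_sup_left).symm.trans (Q'.3 hs le_sup_right)

end CfsgLib.Hall.Struct
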