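/-
Isaacs: a p-group with two class sizes has central quotient of exponent p.
-/
import Cfsg.Agent.Hall.Basic
import Cfsg.Agent.Hall.Schmidt

set_option autoImplicit false
set_option linter.style.haveILetI false

namespace CfsgLib.Hall.TwoClass

open scoped commutatorElement

theorem pow_mul_conj {Q : Type*} [Group Q] (N : Subgroup Q) [N.Normal] [IsMulCommutative N]
    (x : N) (g : Q) : ∀ m : ℕ, ((x : Q) * g) ^ m =
      (((List.range m).map fun t => (MulAut.conjNormal g : MulAut N) ^ t • x).prod : N) * g ^ m := by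
  intro m
  induction m with
  | zero => simp
  | succ m ih =>
    rw [pow_succ, ih, List.range_succ, List.map_append, List.prod_append, List.map_singleton, List.prod_singleton]
    rw [MulAut.smul_def, ← map_pow, Subgroup.coe_mul, MulAut.conjNormal_apply, pow_succ]
    group

/-- The norm identity for a four-group of fixed-point-free exponent-`p` automorphisms. -/
theorem pow_eq_one_of_norms {A : Type*} [CommGroup A] {p : ℕ} [hp : Fact p.Prime] (G H : MulAut A)
    (hGH : Commute G H) (hG : G ^ p = 1) (hH : H ^ p = 1) (x : A)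
    (hnorm : ∀ k : ℕ, ∀ y : A, ((List.range p).map fun t => (G * H ^ k) ^ t • y).prod = 1)
    (hnormH : ∀ y : A, ((List.range p).map fun t => H ^ t • y).prod = 1) : x ^ p = 1 := by
  classical
  have hlist : ∀ f : ℕ → A, ((List.range p).map f).prod = ∏ t : ZMod p, f t.val := by
    intro f
    haveI : NeZero p := ⟨hp.out.ne_zero⟩
    rw [show ((List.range p).map f).prod = ∏ t ∈ Finset.range p, f t from rfl]
    refine (Finset.prod_bij' (fun (t : ZMod p) _ => t.val) (fun n _ => (n : ZMod p))
      (fun t _ => Finset.mem_range.mpr t.val_lt) (fun n _ => Finset.mem_univ _)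
      (fun t _ => ZMod.natCast_zmod_val t) (fun n hn => ZMod.val_cast_of_lt (Finset.mem_range.mp hn))
      (fun t _ => rfl)).symm
  haveI : NeZero p := ⟨hp.out.ne_zero⟩
  let f : ZMod p → ZMod p → A := fun i j => G ^ i.val • (H ^ j.val • x)
  have hper : ∀ (T : MulAut A), T ^ p = 1 → ∀ n : ℕ, T ^ n = T ^ (n : ZMod p).val := by
    intro T hT n
    rw [ZMod.val_natCast]
    exact pow_eq_pow_mod n hT
  have hrow : ∀ i : ZMod p, ∏ j : ZMod p, f i j = 1 := by
    intro i
    have h := hnormH x
    rw [hlist (fun t => H ^ t • x)] at h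
    show ∏ j : ZMod p, G ^ i.val • (H ^ j.val • x) = 1
    rw [← Finset.smul_prod', h, smul_one]
  have hdiag : ∀ k : ZMod p, ∏ t : ZMod p, f t (k * t) = 1 := by
    intro k
    have h := hnorm k.val x
    rw [hlist (fun t => (G * H ^ k.val) ^ t • x)] at h
    rw [← h]
    refine Finset.prod_congr rfl fun t _ => ?_
    show G ^ t.val • (H ^ (k * t).val • x) = _
    rw [(hGH.pow_right k.val).mul_pow, mul_smul, ← pow_mul, hper H hH (k.val * t.val)]
    congr 3
    push_cast
    rw [ZMod.natCast_zmod_val, ZMod.natCast_zmod_val]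
  have h1 : ∏ k : ZMod p, ∏ t : ZMod p, f t (k * t) = 1 := Finset.prod_eq_one fun k _ => hdiag k
  rw [Finset.prod_comm, ← Finset.mul_prod_erase Finset.univ _ (Finset.mem_univ (0 : ZMod p))] at h1
  rw [Finset.prod_eq_one (s := Finset.univ.erase (0 : ZMod p)) (fun t ht => by
    have ht0 : t ≠ 0 := Finset.ne_of_mem_erase ht
    rw [← hrow t]
    exact Fintype.prod_bijective (fun k => k * t) (mulRight_bijective₀ t ht0) _ _ fun k => rfl), mul_one] at h1
  simp only [mul_zero, Finset.prod_const, Finset.card_univ, ZMod.card, f, ZMod.val_zero, pow_zero, one_smul] at h1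
  exact h1

theorem exponent_central_quotient {P : Type*} [Group P] [Finite P] (p : ℕ) [Fact p.Prime]
    (hP : IsPGroup p P) (a : ℕ) (ha : 1 ≤ a)
    (hcs : {k : ℕ | ∃ x : P, (Subgroup.centralizer ({x} : Set P)).index = k} = {1, p ^ a}) (x : P) :
    x ^ p ∈ Subgroup.center P := by
  by_contra hx
  have hp : p.Prime := Fact.out
  set Z := Subgroup.center P with hZ
  have hidx : ∀ u : P, u ∉ Z → (Subgroup.centralizer ({u} : Set P)).index = p ^ a := by
    intro u hu
    have h : (Subgroup.centralizer ({u} : Set P)).index ∈ ({1, p ^ a} : Set ℕ) := hcs ▸ ⟨u, rfl⟩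
    refine h.resolve_left fun h1 => hu (Subgroup.mem_center_iff.mpr fun g => ?_)
    exact Subgroup.mem_centralizer_singleton_iff.mp (by rw [Subgroup.index_eq_one.mp h1]; trivial)
  have hceq : ∀ u v : P, u ∉ Z → v ∉ Z → Subgroup.centralizer ({u} : Set P) ≤ Subgroup.centralizer ({v} : Set P) →
      Subgroup.centralizer ({u} : Set P) = Subgroup.centralizer ({v} : Set P) := by
    intro u v hu hv hle
    refine Subgroup.eq_of_le_of_card_ge hle ?_
    have h1 := (Subgroup.centralizer ({u} : Set P)).card_mul_index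
    rw [hidx u hu, ← (Subgroup.centralizer ({v} : Set P)).card_mul_index, hidx v hv] at h1
    exact (Nat.eq_of_mul_eq_mul_right (pow_pos hp.pos a) h1).ge
  -- centre of a centralizer
  let K : P → Subgroup P := fun u => Subgroup.centralizer ((Subgroup.centralizer ({u} : Set P) : Subgroup P) : Set P)
  have hKC : ∀ u, K u ≤ Subgroup.centralizer ({u} : Set P) := fun u => Subgroup.centralizer_le (by
    intro w hw; rw [Set.mem_singleton_iff.mp hw]; exact Subgroup.mem_centralizer_singleton_iff.mpr rfl)
  have hKeq : ∀ u v, u ∉ Z → v ∉ Z → v ∈ K u → Subgroup.centralizer ({u} : Set P) = Subgroup.centralizer ({v} : Set P) :=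
    fun u v hu hv hvK => hceq u v hu hv fun w hw =>
      Subgroup.mem_centralizer_singleton_iff.mpr (Subgroup.mem_centralizer_iff.mp hvK w hw)
  have hKself : ∀ u, u ∈ K u := fun u => Subgroup.mem_centralizer_iff.mpr fun w hw =>
    Subgroup.mem_centralizer_singleton_iff.mp hw
  have hpow : ∀ u : P, u ^ p ∉ Z → Subgroup.centralizer ({u} : Set P) = Subgroup.centralizer ({u ^ p} : Set P) :=
    fun u hu => hceq u (u ^ p) (fun h => hu (Z.pow_mem h p)) hu fun w hw =>
      Subgroup.mem_centralizer_singleton_iff.mpr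
        ((show Commute w u from Subgroup.mem_centralizer_singleton_iff.mp hw).pow_right p).eq
  set f := QuotientGroup.mk' Z with hf
  have hfz : ∀ u, f u = 1 ↔ u ∈ Z := fun u => QuotientGroup.eq_one_iff u
  have hL : ∀ u v : P, u ^ p ∉ Z → v ^ p ∈ Z → Commute (f u) (f v) → v ∈ K u := by
    intro u v hu hv hc
    have hd : (u ^ p)⁻¹ * (u * v) ^ p ∈ Z := by
      rw [← hfz, map_mul, map_inv, map_pow, map_pow, map_mul, hc.mul_pow, inv_mul_cancel_left, ← map_pow, hfz]
      exact hv
    have hw : (u * v) ^ p ∉ Z := fun h => hu (by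
      have := Z.mul_mem h (Z.inv_mem hd)
      simpa using this)
    have hC : Subgroup.centralizer ({(u * v) ^ p} : Set P) = Subgroup.centralizer ({u ^ p} : Set P) := by
      refine hceq _ _ hw hu fun g hg => Subgroup.mem_centralizer_singleton_iff.mpr ?_
      have h1 : Commute g ((u * v) ^ p) := Subgroup.mem_centralizer_singleton_iff.mp hg
      have h2 : Commute g ((u ^ p)⁻¹ * (u * v) ^ p) := Subgroup.mem_center_iff.mp hd g
      have h3 := h1.mul_right h2.inv_right
      rw [show (u * v) ^ p * ((u ^ p)⁻¹ * (u * v) ^ p)⁻¹ = u ^ p by group] at h3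
      exact h3.eq
    have hmem : u * v ∈ K u := by
      refine Subgroup.mem_centralizer_iff.mpr fun w hw' => ?_
      rw [SetLike.mem_coe, hpow u hu, ← hC, ← hpow _ hw] at hw'
      exact Subgroup.mem_centralizer_singleton_iff.mp hw'
    simpa using (K u).mul_mem ((K u).inv_mem (hKself u)) hmem
  -- an element of order `p` in the centre of the central quotient
  haveI := hP.isNilpotent
  haveI : Nontrivial (P ⧸ Z) := ⟨⟨f (x ^ p), 1, fun h => hx ((hfz _).mp h)⟩⟩
  have hQp : IsPGroup p (P ⧸ Z) := hP.to_quotient Z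
  haveI := hQp.center_nontrivial
  obtain ⟨zc, hzc⟩ : ∃ zc : Subgroup.center (P ⧸ Z), orderOf zc = p := by
    refine exists_prime_orderOf_dvd_card' p ?_
    obtain ⟨k, hk⟩ := (hQp.to_subgroup (Subgroup.center (P ⧸ Z))).exists_card_eq
    rw [hk]
    refine dvd_pow_self p fun h0 => ?_
    rw [h0, pow_zero] at hk
    have := Finite.one_lt_card (α := Subgroup.center (P ⧸ Z))
    omega
  obtain ⟨z, hz⟩ := QuotientGroup.mk'_surjective Z (zc : P ⧸ Z)
  have hzp : z ^ p ∈ Z := by
    rw [← hfz, map_pow, hz, ← hzc, ← Subgroup.orderOf_coe, pow_orderOf_eq_one]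
  have hzZ : z ∉ Z := fun h => by
    rw [← hfz, hz, OneMemClass.coe_eq_one] at h
    rw [h, orderOf_one] at hzc
    exact hp.ne_one hzc.symm
  have hzc' : ∀ u, Commute (f u) (f z) := fun u => by rw [hz]; exact Subgroup.mem_center_iff.mp zc.2 (f u)
  have hxZ : x ∉ Z := fun h => hx (Z.pow_mem h p)
  set X := Subgroup.centralizer ({z} : Set P) with hXdef
  have hbadC : ∀ u : P, u ^ p ∉ Z → Subgroup.centralizer ({u} : Set P) = X := fun u hu =>
    hKeq u z (fun h => hu (Z.pow_mem h p)) hzZ (hL u z hu hzp (hzc' u))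
  have hXeq : X = K z := by
    refine le_antisymm (fun c hc => ?_) (hKC z)
    by_cases hcp : c ^ p ∈ Z
    · have hcx : Commute (f x) (f c) := by
        have hc' : c ∈ Subgroup.centralizer ({x} : Set P) := (hbadC x hx).ge hc
        exact (show Commute x c from (Subgroup.mem_centralizer_singleton_iff.mp hc').symm).map f
      have h := hL x c hx hcp hcx
      show c ∈ Subgroup.centralizer ((X : Subgroup P) : Set P)
      have hle : X ≤ Subgroup.centralizer ({x} : Set P) := (hbadC x hx).ge
      exact Subgroup.centralizer_le hle h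
    · have hcZ : c ∉ Z := fun h => hcp (Z.pow_mem h p)
      show c ∈ Subgroup.centralizer ((X : Subgroup P) : Set P)
      have hle : X ≤ Subgroup.centralizer ({c} : Set P) := (hbadC c hcp).ge
      exact Subgroup.centralizer_le hle (hKself c)
  have hXab : ∀ u ∈ X, ∀ v ∈ X, u * v = v * u := fun u hu v hv => by
    rw [hXeq] at hv
    exact Subgroup.mem_centralizer_iff.mp hv u hu
  have hxX : x ∈ X := hbadC x hx ▸ Subgroup.mem_centralizer_singleton_iff.mpr rfl
  have hgood : ∀ y : P, y ∉ X → y ^ p ∈ Z := fun y hy => by_contra fun h =>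
    hy (hbadC y h ▸ Subgroup.mem_centralizer_singleton_iff.mpr rfl)
  haveI hXn : X.Normal := ⟨fun u hu g => by
    refine Subgroup.mem_centralizer_singleton_iff.mpr ?_
    have hd : z⁻¹ * (g⁻¹ * z * g) ∈ Z := by
      rw [← hfz, map_mul, map_mul, map_mul, map_inv, map_inv, mul_assoc ((f g)⁻¹), ← (hzc' g).eq,
        inv_mul_cancel_left, inv_mul_cancel]
    have h1 : Commute u z := Subgroup.mem_centralizer_singleton_iff.mp hu
    have h2 : Commute u (g⁻¹ * z * g) := by
      have := h1.mul_right (Subgroup.mem_center_iff.mp hd u : Commute u _)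
      rwa [mul_inv_cancel_left] at this
    calc g * u * g⁻¹ * z = g * (u * (g⁻¹ * z * g)) * g⁻¹ := by group
      _ = g * ((g⁻¹ * z * g) * u) * g⁻¹ := by rw [h2.eq]
      _ = z * (g * u * g⁻¹) := by group⟩
  have hZX : Z ≤ X := Subgroup.center_le_centralizer _
  -- the quotient by `X` has order at least `p ^ 2`
  have hXi : X.index = p ^ a := hbadC x hx ▸ hidx x hxZ
  set Xb := X.map f with hXb
  haveI : Xb.Normal := hXn.map f (QuotientGroup.mk'_surjective Z)
  haveI : IsMulCommutative Xb := ⟨⟨fun u v => by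
    obtain ⟨u', hu', hue⟩ := u.2
    obtain ⟨v', hv', hve⟩ := v.2
    refine Subtype.ext ?_
    push_cast
    rw [← hue, ← hve, ← map_mul, ← map_mul, hXab u' hu' v' hv']⟩⟩
  letI : CommGroup Xb := { (inferInstance : Group Xb) with mul_comm := fun u v => mul_comm' u v }
  set φ : P →* MulAut Xb := (MulAut.conjNormal).comp f with hφ
  have hφX : ∀ u ∈ X, φ u = 1 := by
    intro u hu
    ext ⟨v, v', hv', rfl⟩
    rw [hφ, MonoidHom.comp_apply, MulAut.conjNormal_apply, MulAut.one_apply]
    show f u * f v' * (f u)⁻¹ = f v'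
    rw [← map_mul, hXab u hu v' hv', map_mul, mul_inv_cancel_right]
  have hnorm : ∀ y : P, y ∉ X → ∀ v : Xb, ((List.range p).map fun t => φ y ^ t • v).prod = 1 := by
    intro y hy v
    obtain ⟨v', hv', hve⟩ := v.2
    have hvy : v' * y ∉ X := fun h => hy (by
      have := X.mul_mem (X.inv_mem hv') h
      simpa using this)
    have h := pow_mul_conj Xb v (f y) p
    rw [← hve, ← map_mul, ← map_pow, (hfz _).mpr (hgood _ hvy), ← map_pow, (hfz _).mpr (hgood y hy), mul_one] at h
    exact Subtype.ext h.symm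
  have hφp : ∀ y : P, y ∉ X → φ y ^ p = 1 := fun y hy => by
    rw [← map_pow]; exact hφX _ (hZX (hgood y hy))
  by_cases ha1 : a = 1
  · -- then `|X : Z| ≤ p`
    obtain ⟨y, hy⟩ : ∃ y, y ∉ X := by
      by_contra h
      push Not at h
      rw [show X = ⊤ from eq_top_iff.mpr fun g _ => h g, Subgroup.index_top] at hXi
      exact (Nat.one_lt_pow (by omega) hp.one_lt).ne hXi
    have hyZ : y ∉ Z := fun h => hy (hZX h)
    set C := Subgroup.centralizer ({y} : Set P) with hC
    have hinf : X ⊓ C ≤ Z := fun v hv => by_contra fun hvZ => hy (by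
      have hvK : v ∈ K z := hXeq ▸ hv.1
      rw [hXdef, hKeq z v hzZ hvZ hvK]
      exact Subgroup.mem_centralizer_singleton_iff.mpr (Subgroup.mem_centralizer_singleton_iff.mp hv.2).symm)
    have hcard := card_sup_mul_card_inf X C
    have h1 : Nat.card C = Nat.card X := by
      refine Nat.eq_of_mul_eq_mul_right (pow_pos hp.pos a) ?_
      calc Nat.card C * p ^ a = Nat.card P := by rw [← hidx y hyZ, hC, Subgroup.card_mul_index]
        _ = Nat.card X * p ^ a := by rw [← hXi, Subgroup.card_mul_index]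
    have h2 : Nat.card X * Nat.card X ≤ Nat.card P * Nat.card Z := by
      calc Nat.card X * Nat.card X = Nat.card (X ⊔ C : Subgroup P) * Nat.card (X ⊓ C : Subgroup P) := by
            rw [hcard, h1]
        _ ≤ Nat.card P * Nat.card Z :=
            Nat.mul_le_mul (Subgroup.card_le_card_group _) (Subgroup.card_le_of_le hinf)
    have h3 : Nat.card Xb ≤ p := by
      have h4 : Nat.card Xb * Nat.card Z = Nat.card X := by
        rw [← card_comap_mk', hXb, Subgroup.comap_map_eq, QuotientGroup.ker_mk', sup_eq_left.mpr hZX]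
      have h5 : Nat.card P = Nat.card X * p := by rw [← X.card_mul_index, hXi, ha1, pow_one]
      rw [h5, ← h4] at h2
      have hpos : 0 < Nat.card Xb * Nat.card Z * Nat.card Z := by
        have := Nat.card_pos (α := Xb); have := Nat.card_pos (α := Z); positivity
      exact Nat.le_of_mul_le_mul_right (by linarith [h2]) hpos
    have h6 : orderOf (f x) ∣ p := by
      have hmem : f x ∈ Xb := ⟨x, hxX, rfl⟩
      obtain ⟨k, hk⟩ := IsPGroup.iff_orderOf.mp hQp (f x)
      have h7 : orderOf (f x) ≤ p := (Nat.le_of_dvd Nat.card_pos (Xb.orderOf_dvd_natCard hmem)).trans h3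
      rw [hk] at h7 ⊢
      rcases (show k ≤ 1 ∨ 2 ≤ k by omega) with hk1 | hk2
      · exact (pow_dvd_pow p hk1).trans (pow_one p).dvd
      · exfalso
        have := lt_of_lt_of_le (lt_mul_of_one_lt_right hp.pos hp.one_lt)
          ((pow_two p).ge.trans (Nat.pow_le_pow_right hp.pos hk2))
        omega
    exact hx ((hfz _).mp (by rw [map_pow]; exact orderOf_dvd_iff_pow_eq_one.mp h6))
  set π := QuotientGroup.mk' X with hπ
  have hYp : IsPGroup p (P ⧸ X) := hP.to_quotient X
  haveI : Nontrivial (P ⧸ X) := by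
    rw [← Finite.one_lt_card_iff_nontrivial, ← Subgroup.index_eq_card, hXi]
    exact Nat.one_lt_pow (by omega) hp.one_lt
  haveI := hYp.center_nontrivial
  obtain ⟨⟨gb, hgb⟩, hgb1⟩ := exists_ne (1 : Subgroup.center (P ⧸ X))
  obtain ⟨g, rfl⟩ := QuotientGroup.mk'_surjective X gb
  have hgX : g ∉ X := fun h => hgb1 (Subtype.ext ((QuotientGroup.eq_one_iff g).mpr h))
  obtain ⟨h, hh⟩ : ∃ h : P, π h ∉ Subgroup.zpowers (π g) := by
    by_contra hcon
    push Not at hcon
    have h1 : orderOf (π g) = Nat.card (P ⧸ X) := orderOf_eq_card_of_forall_mem_zpowers fun q => by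
      obtain ⟨w, rfl⟩ := QuotientGroup.mk'_surjective X q
      exact hcon w
    have h2 : orderOf (π g) ∣ p := by
      rw [orderOf_dvd_iff_pow_eq_one, ← map_pow]
      exact (QuotientGroup.eq_one_iff _).mpr (hZX (hgood g hgX))
    rw [h1, ← Subgroup.index_eq_card, hXi] at h2
    have := (Nat.pow_dvd_pow_iff_le_right hp.one_lt).mp (h2.trans (pow_one p).symm.dvd)
    omega
  have hhX : h ∉ X := fun h' => hh (by
    rw [show π h = 1 from (QuotientGroup.eq_one_iff h).mpr h']; exact Subgroup.one_mem _)
  have hghX : ∀ k : ℕ, g * h ^ k ∉ X := fun k hk => by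
    have h1 : π g * π h ^ k = 1 := by rw [← map_pow, ← map_mul]; exact (QuotientGroup.eq_one_iff _).mpr hk
    have hcop : (orderOf (π h)).Coprime k := by
      have ho : orderOf (π h) = p := by
        refine orderOf_eq_prime ?_ fun h' => hh (h' ▸ Subgroup.one_mem _)
        rw [← map_pow]; exact (QuotientGroup.eq_one_iff _).mpr (hZX (hgood h hhX))
      rw [ho]
      refine hp.coprime_iff_not_dvd.mpr fun ⟨c, hc⟩ => hgX ?_
      rw [hc, pow_mul, ← ho, pow_orderOf_eq_one, one_pow, mul_one] at h1
      exact (QuotientGroup.eq_one_iff g).mp h1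
    have h2 : Subgroup.zpowers (π h ^ k) = Subgroup.zpowers (π h) := by
      refine le_antisymm (Subgroup.zpowers_le.mpr (Subgroup.pow_mem _ (Subgroup.mem_zpowers _) _)) ?_
      obtain ⟨m, hm⟩ := exists_pow_eq_self_of_coprime (x := π h) (n := k) hcop.symm
      exact Subgroup.zpowers_le.mpr ⟨m, by simpa using hm⟩
    apply hh
    rw [show π g = (π h ^ k)⁻¹ from eq_inv_of_mul_eq_one_left h1, Subgroup.zpowers_inv, h2]
    exact Subgroup.mem_zpowers _
  have hcomm : Commute (φ g) (φ h) := by
    have h1 : ⁅g, h⁆ ∈ X := (QuotientGroup.eq_one_iff _).mp (by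
      change π ⁅g, h⁆ = 1
      rw [map_commutatorElement, commutatorElement_eq_one_iff_mul_comm]
      exact (Subgroup.mem_center_iff.mp hgb (π h)).symm)
    have h2 := hφX _ h1
    rw [map_commutatorElement, commutatorElement_eq_one_iff_mul_comm] at h2
    exact h2
  have hfinal := pow_eq_one_of_norms (φ g) (φ h) hcomm (hφp g hgX) (hφp h hhX) (⟨f x, x, hxX, rfl⟩ : Xb)
    (fun k y => by
      have h1 := hnorm (g * h ^ k) (hghX k) y
      simp only [map_mul, map_pow] at h1
      exact h1) (hnorm h hhX)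
  have h8 := congrArg Subtype.val hfinal
  exact hx ((hfz _).mp (by rw [map_pow]; exact h8))

end CfsgLib.Hall.TwoClass
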