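/-
Solvable groups whose maximal subgroups are 2-nilpotent or of prime index.
-/
import Cfsg.Agent.Hall.Basic

set_option autoImplicit false
set_option linter.style.haveILetI false

namespace CfsgLib.Hall.TwoLength

open scoped Pointwise

universe u

/-- `G` has a normal series with odd, 2, odd, 2 factors. -/
def Series (G : Type u) [Group G] : Prop :=
  ∃ A B C : Subgroup G, A.Normal ∧ B.Normal ∧ C.Normal ∧ A ≤ B ∧ B ≤ C ∧ Odd (Nat.card A) ∧
    (∃ k : ℕ, A.relIndex B = 2 ^ k) ∧ Odd (B.relIndex C) ∧ ∃ k : ℕ, C.index = 2 ^ k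

/-- The hypothesis on maximal subgroups. -/
def MaxHyp (G : Type u) [Group G] : Prop :=
  ∀ M : Subgroup G, IsCoatom M →
    (∃ K : Subgroup ↥M, K.Normal ∧ ¬ 2 ∣ Nat.card K ∧ ∃ k : ℕ, K.index = 2 ^ k) ∨ (M.index).Prime

theorem maxHyp_quotient {G : Type u} [Group G] [Finite G] (N : Subgroup G) [N.Normal] (h : MaxHyp G) :
    MaxHyp (G ⧸ N) := by
  intro M hM
  set π := QuotientGroup.mk' N
  have hπ := QuotientGroup.mk'_surjective N
  have hco : IsCoatom (M.comap π) := ⟨fun ht => hM.1 (Subgroup.comap_injective hπ (ht.trans (Subgroup.comap_top _).symm)),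
    fun B hB => by
      have hN : π.ker ≤ B := le_trans (by rw [← MonoidHom.comap_bot]; exact Subgroup.comap_mono bot_le) hB.le
      have : M < B.map π := by
        refine lt_of_le_of_ne (fun x hx => ?_) fun he => hB.ne (by rw [he, Subgroup.comap_map_eq, sup_eq_left.mpr hN])
        obtain ⟨y, rfl⟩ := hπ x
        exact ⟨y, hB.le hx, rfl⟩
      have h2 := hM.2 _ this
      rw [← sup_eq_left.mpr hN, ← Subgroup.comap_map_eq, h2, Subgroup.comap_top]⟩
  rcases h _ hco with ⟨K, hKn, hK2, k, hk⟩ | hp
  · left
    let f : ↥(M.comap π) →* ↥M := (π.comp (M.comap π).subtype).codRestrict M fun a => a.2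
    have hf : Function.Surjective f := fun y => by
      obtain ⟨x, hx⟩ := hπ y.1
      exact ⟨⟨x, show π x ∈ M from hx.symm ▸ y.2⟩, Subtype.ext hx⟩
    refine ⟨K.map f, hKn.map f hf, fun hd => hK2 (hd.trans (Subgroup.card_map_dvd K f)), ?_⟩
    have hd := Subgroup.index_map_dvd K hf
    rw [hk] at hd
    obtain ⟨i, -, hi⟩ := (Nat.dvd_prime_pow Nat.prime_two).mp hd
    exact ⟨i, hi⟩
  · right
    rwa [← Subgroup.index_comap_of_surjective M hπ]

theorem relIndex_comap' {G H : Type u} [Group G] [Group H] (f : G →* H) (hf : Function.Surjective f)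
    (X Y : Subgroup H) : (X.comap f).relIndex (Y.comap f) = X.relIndex Y := by
  rw [Subgroup.relIndex_comap, Subgroup.map_comap_eq_self_of_surjective hf]

theorem main : ∀ (n : ℕ) {G : Type u} [Group G] [Finite G], Nat.card G ≤ n → Group.IsSolvable G →
    MaxHyp G → Series G := by
  intro n
  induction n with
  | zero => intro G _ _ hle _ _; exact absurd hle (by have := Nat.card_pos (α := G); omega)
  | succ n ih =>
    intro G _ _ hle hsol hmax
    rcases subsingleton_or_nontrivial G with hs | hnt
    · have hidx : (⊥ : Subgroup G).index = 1 := by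
        rw [Subgroup.index_bot]; exact Nat.card_eq_one_iff_unique.mpr ⟨hs, ⟨1⟩⟩
      exact ⟨⊥, ⊥, ⊥, inferInstance, inferInstance, inferInstance, le_rfl, le_rfl, by simp,
        ⟨0, by simp [Subgroup.relIndex_self]⟩, by simp [Subgroup.relIndex_self], ⟨0, by simpa using hidx⟩⟩
    obtain ⟨N, hN⟩ := exists_isMinNormal (G := G)
    haveI := hN.1
    obtain ⟨q, hq, hNc, hNq, -⟩ := hN.elementaryAbelian
    haveI := Fact.mk hq
    haveI := hNc
    set π := QuotientGroup.mk' N with hπd
    have hπ := QuotientGroup.mk'_surjective N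
    have hlt : Nat.card (G ⧸ N) ≤ n := by
      have h1 := N.card_mul_index
      have h2 : 1 < Nat.card N := (Subgroup.one_lt_card_iff_ne_bot N).mpr hN.2.1
      rw [Subgroup.index_eq_card] at h1
      have h3 : 2 * Nat.card (G ⧸ N) ≤ Nat.card G := h1 ▸ Nat.mul_le_mul_right _ h2
      have h4 := Nat.card_pos (α := G ⧸ N)
      omega
    obtain ⟨A, B, C, hAn, hBn, hCn, hAB, hBC, hA, ⟨i, hi⟩, hBCo, ⟨j, hj⟩⟩ :=
      ih hlt inferInstance (maxHyp_quotient N hmax)
    have hcardA : Nat.card (A.comap π) = Nat.card A * Nat.card N := card_comap_mk' N A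
    have e1 : (A.comap π).relIndex (B.comap π) = 2 ^ i := by rw [relIndex_comap' π hπ, hi]
    have e2 : Odd ((B.comap π).relIndex (C.comap π)) := by rwa [relIndex_comap' π hπ]
    have e3 : (C.comap π).index = 2 ^ j := by rw [Subgroup.index_comap_of_surjective C hπ, hj]
    obtain ⟨m, hm⟩ := hNq.exists_card_eq
    by_cases hq2 : q = 2
    swap
    · refine ⟨A.comap π, B.comap π, C.comap π, inferInstance, inferInstance, inferInstance,
        Subgroup.comap_mono hAB, Subgroup.comap_mono hBC, ?_, ⟨i, e1⟩, e2, ⟨j, e3⟩⟩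
      rw [hcardA, hm]
      exact hA.mul ((hq.odd_of_ne_two hq2).pow)
    subst hq2
    -- the odd part of the preimage of `A`
    set A' := A.comap π with hA'
    have hNA : N ≤ A' := fun x hx => by
      rw [hA', Subgroup.mem_comap, hπd, QuotientGroup.mk'_apply, (QuotientGroup.eq_one_iff x).mpr hx]
      exact A.one_mem
    have hcop : (Nat.card N).Coprime (Nat.card A) := by
      rw [hm]; exact Nat.Coprime.pow_left _ ((Nat.prime_two.coprime_iff_not_dvd).mpr
        (fun h => (Nat.not_even_iff_odd.mpr hA) (even_iff_two_dvd.mpr h)))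
    have hcN : Nat.card (N.subgroupOf A') = Nat.card N := Nat.card_congr (Subgroup.subgroupOfEquivOfLe hNA).toEquiv
    have hiN : (N.subgroupOf A').index = Nat.card A := by
      have h1 := (N.subgroupOf A').card_mul_index
      rw [hcN, hcardA, mul_comm (Nat.card A)] at h1
      exact Nat.eq_of_mul_eq_mul_left Nat.card_pos h1
    obtain ⟨K₀, hK₀⟩ := Subgroup.exists_right_complement'_of_coprime (N := N.subgroupOf A') (by rwa [hcN, hiN])
    set K := K₀.map A'.subtype with hKd
    have hKA : K ≤ A' := Subgroup.map_subtype_le _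
    have hKcard : Nat.card K = Nat.card A := by
      rw [hKd, Subgroup.card_map_of_injective A'.subtype_injective, ← hK₀.symm.index_eq_card, hiN]
    have hNK : N ⊔ K = A' := by
      refine le_antisymm (sup_le hNA hKA) fun x hx => ?_
      have : (⟨x, hx⟩ : A') ∈ N.subgroupOf A' ⊔ K₀ := hK₀.sup_eq_top ▸ Subgroup.mem_top _
      have h2 := Subgroup.mem_map_of_mem A'.subtype this
      rw [Subgroup.map_sup, Subgroup.subgroupOf_map_subtype, inf_eq_left.mpr hNA] at h2
      exact h2
    -- Frattini argument
    have hfrat : Subgroup.normalizer (K : Set G) ⊔ N = ⊤ := by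
      rw [eq_top_iff]
      intro g _
      set L := K.map (MulAut.conj g).toMonoidHom with hL
      have hLcard : Nat.card L = Nat.card K := Subgroup.card_map_of_injective (MulAut.conj g).injective
      have hNL : N ⊔ L = A' := by
        have h1 := congrArg (Subgroup.map (MulAut.conj g).toMonoidHom) hNK
        have hfix : ∀ X : Subgroup G, X.Normal → X.map (MulAut.conj g).toMonoidHom = X := fun X hX =>
          le_antisymm (by rintro _ ⟨x, hx, rfl⟩; exact hX.conj_mem x hx g)
            fun x hx => ⟨g⁻¹ * x * g, by simpa using hX.conj_mem x hx g⁻¹, by simp [mul_assoc]⟩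
        rwa [Subgroup.map_sup, hfix N inferInstance, hfix A' inferInstance] at h1
      obtain ⟨a, ha, hconj⟩ := exists_conj_eq_of_sup_eq N L K Subgroup.le_normalizer_of_normal
        Subgroup.le_normalizer_of_normal (by rwa [hLcard, hKcard]) (by rwa [hKcard]) (hNL.trans hNK.symm)
      have hmem : a * g ∈ Subgroup.normalizer (K : Set G) := Subgroup.mem_normalizer_fintype fun k hk =>
        hconj.le ⟨g * k * g⁻¹, ⟨k, hk, rfl⟩, by simp [mul_assoc]⟩
      have := Subgroup.mul_mem_sup (show a⁻¹ ∈ N from N.inv_mem ha) hmem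
      rw [inv_mul_cancel_left, sup_comm] at this
      exact this
    by_cases hKn : K.Normal
    · by_cases hK1 : K = ⊥
      · -- `A = 1`
        have hAb : Nat.card A = 1 := by rw [← hKcard, hK1, Subgroup.card_bot]
        refine ⟨⊥, B.comap π, C.comap π, inferInstance, inferInstance, inferInstance, bot_le,
          Subgroup.comap_mono hBC, by simp, ⟨m + i, ?_⟩, e2, ⟨j, e3⟩⟩
        rw [← Subgroup.relIndex_mul_relIndex ⊥ A' (B.comap π) bot_le (Subgroup.comap_mono hAB), e1,
          Subgroup.relIndex_bot_left, hcardA, hAb, hm, one_mul, pow_add]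
      · -- an odd normal subgroup gives a smaller quotient
        obtain ⟨N', hN', hN'K⟩ := exists_isMinNormal_le K hK1
        haveI := hN'.1
        have hodd : Odd (Nat.card N') := (hKcard ▸ hA).of_dvd_nat (Subgroup.card_dvd_of_le hN'K)
        have hlt' : Nat.card (G ⧸ N') ≤ n := by
          have h1 := N'.card_mul_index
          have h2 : 1 < Nat.card N' := (Subgroup.one_lt_card_iff_ne_bot N').mpr hN'.2.1
          rw [Subgroup.index_eq_card] at h1
          have h3 : 2 * Nat.card (G ⧸ N') ≤ Nat.card G := h1 ▸ Nat.mul_le_mul_right _ h2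
          have h4 := Nat.card_pos (α := G ⧸ N')
          omega
        obtain ⟨A₁, B₁, C₁, h1, h2, h3, h4, h5, h6, ⟨i', h7⟩, h8, ⟨j', h9⟩⟩ :=
          ih hlt' inferInstance (maxHyp_quotient N' hmax)
        have hs := QuotientGroup.mk'_surjective N'
        refine ⟨A₁.comap (QuotientGroup.mk' N'), B₁.comap (QuotientGroup.mk' N'), C₁.comap (QuotientGroup.mk' N'),
          inferInstance, inferInstance, inferInstance, Subgroup.comap_mono h4, Subgroup.comap_mono h5, ?_,
          ⟨i', by rw [relIndex_comap' _ hs, h7]⟩, by rwa [relIndex_comap' _ hs],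
          ⟨j', by rw [Subgroup.index_comap_of_surjective C₁ hs, h9]⟩⟩
        rw [card_comap_mk']; exact h6.mul hodd
    -- `N` is complemented by a maximal subgroup
    obtain ⟨M, hM, hKM⟩ := (eq_top_or_exists_le_coatom (Subgroup.normalizer (K : Set G))).resolve_left
      fun h => hKn (Subgroup.normalizer_eq_top_iff.mp h)
    have hMN : M ⊔ N = ⊤ := eq_top_iff.mpr (hfrat.ge.trans (sup_le_sup_right hKM N))
    haveI hDn : (N ⊓ M).Normal := by
      rw [← Subgroup.normalizer_eq_top_iff, eq_top_iff, ← hMN]
      refine sup_le (fun x hx => Subgroup.mem_normalizer_fintype fun y hy => ⟨Subgroup.Normal.conj_mem inferInstance y hy.1 x,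
        M.mul_mem (M.mul_mem hx hy.2) (M.inv_mem hx)⟩) fun x hx => Subgroup.mem_normalizer_fintype fun y hy => ?_
      show x * y * x⁻¹ ∈ N ⊓ M
      rwa [show x * y = y * x from congrArg Subtype.val (mul_comm' (⟨x, hx⟩ : N) ⟨y, hy.1⟩), mul_inv_cancel_right]
    have hdis : N ⊓ M = ⊥ := (hN.2.2 _ hDn inf_le_left).resolve_right fun h =>
      hM.1 (by rw [← hMN]; exact (sup_eq_left.mpr (h ▸ inf_le_right)).symm)
    have hcardM : Nat.card N * Nat.card M = Nat.card G := by
      have := card_sup_mul_card_inf N M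
      rw [sup_comm, hMN, hdis, Subgroup.card_top, Subgroup.card_bot, mul_one] at this
      exact this.symm
    rcases hmax M hM with ⟨L₀, hL₀n, hL₀2, k, hk⟩ | hp
    · -- `M` has a normal 2-complement
      haveI := hL₀n
      set L := L₀.map M.subtype with hLd
      have hLM : L ≤ M := Subgroup.map_subtype_le _
      haveI : (N ⊔ L).Normal := by
        rw [← Subgroup.normalizer_eq_top_iff, eq_top_iff, ← hMN]
        refine sup_le ?_ (le_trans le_sup_left Subgroup.le_normalizer)
        intro x hx
        refine Subgroup.mem_normalizer_fintype fun y hy => ?_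
        have hle' : N ⊔ L ≤ (N ⊔ L).comap (MulAut.conj x).toMonoidHom := sup_le
          (fun z hz => Subgroup.mem_sup_left (Subgroup.Normal.conj_mem inferInstance z hz x))
          (by
            rintro _ ⟨z, hz, rfl⟩
            exact Subgroup.mem_sup_right ⟨⟨x, hx⟩ * z * ⟨x, hx⟩⁻¹, hL₀n.conj_mem z hz _, rfl⟩)
        exact hle' hy
      have hcL : Nat.card L = Nat.card L₀ := Subgroup.card_map_of_injective M.subtype_injective
      have hNL : Nat.card (N ⊔ L : Subgroup G) = Nat.card N * Nat.card L := by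
        have := card_sup_mul_card_inf N L
        rwa [show N ⊓ L = ⊥ from eq_bot_iff.mpr ((inf_le_inf_left N hLM).trans hdis.le), Subgroup.card_bot,
          mul_one] at this
      refine ⟨⊥, N, N ⊔ L, inferInstance, inferInstance, inferInstance, bot_le, le_sup_left, by simp,
        ⟨m, by rw [Subgroup.relIndex_bot_left, hm]⟩, ?_, ⟨k, ?_⟩⟩
      · have h1 := Subgroup.relIndex_mul_relIndex ⊥ N (N ⊔ L) bot_le le_sup_left
        rw [Subgroup.relIndex_bot_left, Subgroup.relIndex_bot_left, hNL] at h1
        rw [Nat.eq_of_mul_eq_mul_left Nat.card_pos h1, hcL]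
        exact Nat.not_even_iff_odd.mp fun h => hL₀2 (even_iff_two_dvd.mp h)
      · have h1 := (N ⊔ L).card_mul_index
        rw [hNL, ← hcardM, mul_assoc, hcL, ← L₀.card_mul_index, hk] at h1
        exact Nat.eq_of_mul_eq_mul_left Nat.card_pos (Nat.eq_of_mul_eq_mul_left Nat.card_pos h1)
    · -- `N` is central of order 2
      exfalso
      have hN2 : Nat.card N = 2 := by
        have h1 := M.card_mul_index
        have h2 : M.index = Nat.card N := by
          rw [← hcardM, mul_comm (Nat.card N)] at h1
          exact Nat.eq_of_mul_eq_mul_left Nat.card_pos h1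
        rw [h2] at hp
        rw [hm] at hp ⊢
        obtain rfl : m = 1 := Nat.Prime.eq_one_of_pow hp
        rfl
      apply hKn
      rw [← Subgroup.normalizer_eq_top_iff, eq_top_iff, ← hfrat]
      refine sup_le le_rfl fun z hz => ?_
      refine Subgroup.centralizer_le_normalizer _ (Subgroup.mem_centralizer_iff.mpr fun g _ => ?_)
      by_cases h1 : z = 1
      · simp [h1]
      · have hne : g * z * g⁻¹ ≠ 1 := fun h => h1 (conj_eq_one_iff.mp h)
        have hg : g * z * g⁻¹ ∈ N := Subgroup.Normal.conj_mem inferInstance z hz g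
        obtain ⟨a, -, hu⟩ := (Nat.card_eq_two_iff' (1 : N)).mp hN2
        have : g * z * g⁻¹ = z := congrArg Subtype.val
          ((hu ⟨_, hg⟩ fun h => hne (congrArg Subtype.val h)).trans (hu ⟨z, hz⟩ fun h => h1 (congrArg Subtype.val h)).symm)
        exact mul_inv_eq_iff_eq_mul.mp this

end CfsgLib.Hall.TwoLength
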